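import Cfsg.Agent.Lib.Perm.Hall5

/-! M. Hall's theorem, conclusion. -/

set_option autoImplicit false

namespace Cfsg.Lib.Perm
open MulAction Function Equiv

variable {G α : Type*} [Group G] [MulAction G α]

namespace H4
variable [Finite G] (H : H4 G α)
include H

theorem alt_or {ι : Type*} [Fintype ι] [DecidableEq ι]
    (hι : Fintype.card ι = 6 ∨ Fintype.card ι = 7) {x : ι → α} (hx : Injective x) {e : Fin 4 → ι}
    (he : Injective e) {p : ℕ} [Fact p.Prime] {P : Subgroup G} (hP : IsPGroup p P)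
    (hF : ∀ y, (∀ u ∈ P, u • y = y) ↔ y ∈ Set.range x) :
    Ind G x = alternatingGroup ι ∨ ∃ σ ∈ Ind G x, σ ≠ 1 ∧ ∀ i, σ (e i) = e i := by
  obtain ⟨Q, hPQ, hQΓ, hQ, hQi⟩ := Transfer.exists_sylowIn_ge
    (H := fixingSubgroup G (Set.range (x ∘ e))) hP fun u hu => by
      rintro ⟨_, i, rfl⟩
      exact (hF _).2 ⟨_, rfl⟩ u hu
  set R := Q ⊓ fixingSubgroup G (Set.range x) with hR
  have hRF : ∀ y, (∀ u ∈ R, u • y = y) ↔ y ∈ Set.range x := fun y =>
    ⟨fun h => (hF y).1 fun u hu => h u ⟨hPQ hu, fun z => (hF _).2 z.2 u hu⟩,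
      fun h u hu => hu.2 ⟨y, h⟩⟩
  have hN : ∀ n ∈ Subgroup.normalizer (R : Set G), ∃ σ : Perm ι, ∀ i, n • x i = x (σ i) :=
    fun n hn => exists_ind_of_mapsTo hx fun i => by
      obtain ⟨j, hj⟩ := (hRF _).1 (smul_fixed_of_mem_normalizer hn ((hRF _).2 ⟨i, rfl⟩))
      exact ⟨j, hj.symm⟩
  rcases LE.le.eq_or_lt (a := R) (b := Q) inf_le_left with h | h
  · refine Or.inl ((H.ind hx ?_).eq_alt hι)
    have key : ∀ y : Fin 4 → ι, Injective y → ∃ σ : Ind G x, ∀ i, σ • e i = y i := by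
      intro y hy
      obtain ⟨g, hg⟩ := mt_iff.1 H.tr (x ∘ e) (x ∘ y) (hx.comp he) (hx.comp hy)
      obtain ⟨n, hn, hn'⟩ := exists_normalizer_eq_on (g := g) hQ hQi (by
        rintro _ ⟨i, rfl⟩
        rw [hg, ← h]; exact (hRF _).2 ⟨_, rfl⟩)
      obtain ⟨σ, hσ⟩ := hN n (by rwa [h])
      exact ⟨⟨σ, n, hσ⟩, fun i => hx ((hσ _).symm.trans ((hn' _ ⟨i, rfl⟩).trans (hg i)))⟩
    rw [mt_iff]
    intro y z hy hz
    obtain ⟨n, hn⟩ := key y hy
    obtain ⟨m, hm⟩ := key z hz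
    exact ⟨m * n⁻¹, fun i => by rw [mul_smul, ← hn, inv_smul_smul, hm]⟩
  · obtain ⟨z, hz, hz'⟩ := SetLike.exists_of_lt (Transfer.lt_inf_normalizer_of_lt hQ h)
    obtain ⟨σ, hσ⟩ := hN z hz.2
    refine Or.inr ⟨σ, ⟨z, hσ⟩, ?_, fun i => hx ((hσ _).symm.trans (hQΓ hz.1 ⟨_, i, rfl⟩))⟩
    rintro rfl
    refine hz' ⟨hz.1, ?_⟩
    rintro ⟨_, i, rfl⟩
    exact hσ i

theorem card_le_eleven [Finite α] : Nat.card α ≤ 11 := by
  classical
  by_contra hn
  obtain ⟨S, hS⟩ := exists_finset_card (α := α) (k := 6) (by omega)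
  obtain ⟨a, b, x, hx, ha, hb, hab, ea, eb⟩ := H.exists_cfg S hS
  have n : ∀ i j, i ≠ j → x i ≠ x j := fun i j h => hx.ne h
  have ha1 : a ≠ 1 := fun e => n 2 3 (by decide) (by simpa [e] using ea 2)
  have hfix := fun y => H.cfg_fix hx ha hb hab ea eb (y := y)
  have ho : ∀ o, b • o = o → o ≠ x 0 ∧ o ≠ x 1 := fun o h =>
    ⟨fun e => n 1 0 (by decide) (by simpa [e, eb] using h),
      fun e => n 0 1 (by decide) (by simpa [e, eb] using h)⟩
  have huniq : ∀ o o' : α, a • o = o → b • o = o → a • o' = o' → b • o' = o' → o = o' := by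
    intro o o' h1 h2 h3 h4
    by_contra hc
    exact ha1 (H.eq_one_of_invol ha (n 0 1 (by decide)) (ho _ h2).1.symm (ho _ h4).1.symm
      (ho _ h2).2.symm (ho _ h4).2.symm hc (ea 0) (ea 1) h1 h3)
  set F : Set α := {y | a • y = y ∨ b • y = y ∨ (a * b) • y = y} with hF
  have hxF : ∀ i, x i ∈ F := fun i => by
    simp only [hF, Set.mem_setOf_eq, mul_smul, ea, eb, hx.eq_iff]
    revert i; decide
  have hFc : F.ncard ≤ 7 := by
    have h1 : (Set.range x).ncard = 6 := by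
      rw [← Set.image_univ, Set.ncard_image_of_injective _ hx, Set.ncard_univ]; simp
    have h2 : {y : α | a • y = y ∧ b • y = y}.ncard ≤ 1 :=
      Set.ncard_le_one (Set.toFinite _) |>.2 fun o h o' h' => huniq _ _ h.1 h.2 h'.1 h'.2
    exact (Set.ncard_le_ncard (t := Set.range x ∪ {y : α | a • y = y ∧ b • y = y})
      fun y hy => hfix y hy).trans ((Set.ncard_union_le _ _).trans (by omega))
  have hR : ∀ {y}, y ∉ F → a • y ≠ y ∧ b • y ≠ y ∧ a • b • y ≠ y := fun h => by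
    simpa [hF, mul_smul, not_or] using h
  let C : Subgroup G := Subgroup.centralizer {a, b} ⊓ fixingSubgroup G (Set.range x)
  have hC : ∀ c, c ∈ C ↔ (Commute a c ∧ Commute b c) ∧ ∀ i, c • x i = x i := fun c => by
    simp [C, Subgroup.mem_centralizer_iff, mem_fixingSubgroup_iff, Commute, SemiconjBy]
  have htr : ∀ h h', h ∉ F → h' ∉ F → ∃ c ∈ C, ∃ v : G, (v = 1 ∨ v = a ∨ v = b ∨ v = a * b) ∧
      h' = v • c • h := fun h h' h1 h2 => by
    obtain ⟨c, v, c1, c2, c3, hv⟩ := H.cfg_trans hx ha hb hab ea eb (hR h1).1 (hR h1).2.1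
      (hR h1).2.2 (hR h2).1 (hR h2).2.1 (hR h2).2.2
    exact ⟨c, (hC c).2 ⟨⟨c1, c2⟩, c3⟩, v, hv⟩
  have hFc' := Set.ncard_add_ncard_compl F
  obtain ⟨h, hh⟩ := Set.nonempty_of_ncard_ne_zero (s := Fᶜ) (by omega)
  have ht : (stabilizer G h).relIndex C ≠ 1 := by
    rw [ne_eq, Subgroup.relIndex_eq_one]
    intro hc
    have : Fᶜ ⊆ {h, a • h, b • h, (a * b) • h} := fun y hy => by
      obtain ⟨c, hc', v, hv, rfl⟩ := htr h y hh hy
      rw [hc hc']
      rcases hv with rfl | rfl | rfl | rfl <;> simp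
    have := (Set.ncard_le_ncard this).trans ((Set.ncard_insert_le _ _).trans (Nat.succ_le_succ
      ((Set.ncard_insert_le _ _).trans (Nat.succ_le_succ (Set.ncard_insert_le _ _)))))
    rw [Set.ncard_singleton] at this
    omega
  obtain ⟨p, hp, hpt⟩ := Nat.exists_prime_and_dvd ht
  have := Fact.mk hp
  obtain ⟨P, -, hPC, hP, hPi⟩ := Transfer.exists_sylowIn_ge (H := C) (IsPGroup.of_bot (p := p)) bot_le
  have hPF : ∀ y, (∀ u ∈ P, u • y = y) ↔ y ∈ F := by
    refine fun y => ⟨fun hy => ?_, fun hy u hu => ?_⟩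
    · by_contra hc
      obtain ⟨c, hc', v, hv, rfl⟩ := htr h y hh hc
      have h1 : P ≤ stabilizer G (c • h) := fun u hu => smul_left_cancel v (by
        have : Commute v u := by
          obtain ⟨⟨h1, h2⟩, -⟩ := (hC u).1 (hPC hu)
          rcases hv with rfl | rfl | rfl | rfl
          exacts [Commute.one_left _, h1, h2, h1.mul_left h2]
        rw [← mul_smul, this.eq, mul_smul, hy u hu])
      refine hPi (dvd_trans ?_ (Subgroup.relIndex_dvd_of_le_left C h1))
      have e : ∀ z : α, (stabilizer G z).relIndex C = (orbit C z).ncard := fun z =>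
        index_stabilizer C z
      rw [e] at hpt ⊢
      rwa [show c • h = (⟨c, hc'⟩ : C) • h from rfl, orbit_smul]
    · obtain ⟨⟨h1, h2⟩, h3⟩ := (hC u).1 (hPC hu)
      rcases hfix y hy with ⟨i, rfl⟩ | hy
      · exact h3 i
      · exact H.fix_third ha ha1 (by rw [← h1.eq, mul_inv_cancel_right]) (n 0 1 (by decide)) (ea 0)
          (ea 1) hy.1 (ho _ hy.2).1 (ho _ hy.2).2 (Or.inl ⟨h3 0, h3 1⟩)
  obtain ⟨s, hs, sa, sb, sx, -⟩ := H.cfg_exists_invol hx ha hb hab ea eb (hR hh).1 (hR hh).2.1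
    (hR hh).2.2
  have nsw : ∀ {m : ℕ} {x : Fin (m + 6) → α}, Injective x → ∀ σ ∈ Ind G x, ∀ i j k l y z,
      [i, j, k, l].Nodup → σ i = i → σ j = j → σ k = k → σ l = l → y ≠ z → σ y = z → σ z ≠ y := by
    rintro m x hx σ ⟨g, hg⟩ i j k l y z hn e1 e2 e3 e4 h1 h2 h3
    simp only [List.nodup_cons, List.mem_cons, not_or] at hn
    exact H.not_swap (hx.ne hn.1.1) (hx.ne hn.1.2.1) (hx.ne hn.1.2.2.1) (hx.ne hn.2.1.1)
      (hx.ne hn.2.1.2.1) (hx.ne hn.2.2.1.1) (by rw [hg, e1]) (by rw [hg, e2]) (by rw [hg, e3])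
      (by rw [hg, e4]) (hx.ne h1) (by rw [hg, h2]) (by rw [hg, h3])
  by_cases hex : ∃ o : α, a • o = o ∧ b • o = o
  · obtain ⟨o, o1, o2⟩ := hex
    have hox : ∀ i, x i ≠ o := fun i e => by
      rw [← e, ea, hx.eq_iff] at o1
      rw [← e, eb, hx.eq_iff] at o2
      clear e; revert i; decide
    let y : Fin 7 → α := Fin.snoc x o
    have hy : Injective y := Fin.snoc_injective_iff.2 ⟨hx, fun ⟨i, h⟩ => hox i h⟩
    have hτ : Equiv.swap 0 1 * Equiv.swap 2 4 * Equiv.swap 3 5 ∈ Ind G y := ⟨s, fun i => by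
      have so : s • o = o := H.fix_third ha ha1 sa (n 0 1 (by decide)) (ea 0) (ea 1) o1
        (ho _ o2).1 (ho _ o2).2 (Or.inr ⟨sx 0, sx 1⟩)
      fin_cases i
      exacts [sx 0, sx 1, sx 2, sx 3, sx 4, sx 5, so]⟩
    rcases H.alt_or (x := y) (by simp) hy (e := ![0, 1, 2, 3]) (by decide) hP (fun z => by
      rw [hPF]
      refine ⟨fun hz => ?_, ?_⟩
      · rcases hfix z hz with ⟨i, rfl⟩ | h
        · exact ⟨i.castSucc, Fin.snoc_castSucc ..⟩
        · exact ⟨Fin.last _, huniq _ _ o1 o2 h.1 h.2⟩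
      · rintro ⟨i, rfl⟩
        induction i using Fin.lastCases with
        | last => exact Or.inl o1
        | cast i => simpa [y] using hxF i) with h | ⟨σ, hσ, hσ1, hσ2⟩
    · rw [h, Perm.mem_alternatingGroup] at hτ
      exact absurd hτ (by decide)
    · have e : ⇑σ = ![0, 1, 2, 3, σ 4, σ 5, σ 6] := by
        funext i
        fin_cases i
        exacts [hσ2 0, hσ2 1, hσ2 2, hσ2 3, rfl, rfl, rfl]
      have : ∀ u v w : Fin 7, Injective ![0, 1, 2, 3, u, v, w] → (∀ i, ![0, 1, 2, 3, u, v, w] i = i) ∨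
          (∃ i j, i ≠ j ∧ ![0, 1, 2, 3, u, v, w] i = j ∧ ![0, 1, 2, 3, u, v, w] j = i) ∨
          ∀ i, (![1, 0, 4, 5, 2, 3, 6] ∘ ![0, 1, 2, 3, u, v, w])^[5] i = ![1, 0, 2, 3, 4, 5, 6] i := by
        decide +kernel
      rcases this _ _ _ (e ▸ σ.injective) with h | ⟨i, j, h1, h2, h3⟩ | h
      · exact hσ1 (Equiv.ext fun i => by rw [e, h]; rfl)
      · rw [← e] at h2 h3
        exact nsw (m := 1) hy σ hσ 0 1 2 3 i j (by decide) (hσ2 0) (hσ2 1) (hσ2 2) (hσ2 3) h1 h2 h3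
      · rw [← e, show ![1, 0, 4, 5, 2, 3, 6] = ⇑(Equiv.swap 0 1 * Equiv.swap 2 4 *
          Equiv.swap 3 5 : Perm (Fin 7)) by decide, ← Perm.coe_mul, ← Perm.coe_pow] at h
        exact nsw (m := 1) hy _ (pow_mem (mul_mem hτ hσ) 5) 2 3 4 5 0 1 (by decide) (h 2) (h 3)
          (h 4) (h 5) (by decide) (h 0) (h 1)
  · have hτ : Equiv.swap 0 1 * Equiv.swap 2 4 * Equiv.swap 3 5 ∈ Ind G x := ⟨s, fun i => by
      rw [sx]; fin_cases i <;> rfl⟩
    rcases H.alt_or (by simp) hx (e := ![0, 1, 2, 3]) (by decide) hP (fun z => by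
      rw [hPF]
      exact ⟨fun hz => (hfix z hz).resolve_right fun h => hex ⟨z, h⟩, by
        rintro ⟨i, rfl⟩; exact hxF i⟩) with h | ⟨σ, hσ, hσ1, hσ2⟩
    · rw [h, Perm.mem_alternatingGroup] at hτ
      exact absurd hτ (by decide)
    · have e : ⇑σ = ![0, 1, 2, 3, σ 4, σ 5] := by
        funext i
        fin_cases i
        exacts [hσ2 0, hσ2 1, hσ2 2, hσ2 3, rfl, rfl]
      have : ∀ u v : Fin 6, Injective ![0, 1, 2, 3, u, v] → (∀ i, ![0, 1, 2, 3, u, v] i = i) ∨
          (u = 5 ∧ v = 4) := by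
        decide +kernel
      rcases this _ _ (e ▸ σ.injective) with h | h
      · exact hσ1 (Equiv.ext fun i => by rw [e, h]; rfl)
      · exact nsw (m := 0) hx σ hσ 0 1 2 3 4 5 (by decide) (hσ2 0) (hσ2 1) (hσ2 2) (hσ2 3)
          (by decide) h.1 h.2

omit [Finite G] H in
theorem sharp_of_le [Fintype α] [DecidableEq α] {G : Subgroup (Perm α)} (H : H4 G α)
    (h8 : 8 ≤ Fintype.card α) (g : G) (a b c d : α) (h1 : a ≠ b) (h2 : a ≠ c) (h3 : a ≠ d)
    (h4 : b ≠ c) (h5 : b ≠ d) (h6 : c ≠ d) (e1 : g • a = a) (e2 : g • b = b) (e3 : g • c = c)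
    (e4 : g • d = d) : g = 1 := by
  have h11 := H.card_le_eleven
  rw [Nat.card_eq_fintype_card] at h11
  obtain ⟨S, hS⟩ := exists_finset_card (α := α) (k := 6) (by rw [Nat.card_eq_fintype_card]; omega)
  have key : ∀ (v u : G) (a b c d : α), v * v = 1 → a ≠ b → a ≠ c → a ≠ d → c ≠ d → v • a = b →
      v • c = d → u • a = a → u • c = c → u * v * u⁻¹ = v → u = 1 := by
    intro v u a b c d hv h1 h2 h3 h6 v1 v3 u1 u3 hu
    have v2 := smul_eq_of_invol hv v1
    have v4 := smul_eq_of_invol hv v3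
    have vv := smul_smul_of_invol (α := α) hv
    have uv := smul_fixed_of_conj (α := α) hu
    have h4 : b ≠ c := fun h => h3 (by rw [← v3, ← h, v2])
    have h5 : b ≠ d := fun h => h2 (smul_left_cancel v (by rw [v1, v3, h]))
    have u2 : u • b = b := by rw [← v1, ← uv, u1]
    have u4 : u • d = d := by rw [← v3, ← uv, u3]
    have ho := H.odd u a b c d h1 h2 h3 h4 h5 h6 u1 u2 u3 u4
    obtain ⟨t, a', b', c', d', e', f', ht, hab, hae, haf, hef, hcd, e1, e2, e3, e4⟩ :=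
      H.exists_good S hS
    obtain ⟨h, hh, -⟩ := H.conj_swap_swap ht hv hab hae haf hef h1 h2 h3 h6 e1 e2 v1 v3
    obtain ⟨F, hF, hFc⟩ := H.exists_fixed_finset hv (fun e => h1 (by rw [← v1, e, one_smul]))
      (fun e => hcd (smul_left_cancel h e)) (by rw [smul_fixed_of_conj hh, e3])
      (by rw [smul_fixed_of_conj hh, e4])
    have hsub : u.1.support ⊆ F := fun y hy => by
      have hy1 : u • y ≠ y := Perm.mem_support.1 hy
      by_contra hc
      have hy2 : v • y ≠ y := fun e => hc ((hF y).2 e)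
      have q1 : u • u • y ≠ y := fun e => hy1 (smul_eq_of_sq_of_odd ho e)
      have q2 : u • y ≠ v • y := fun e => q1 (by rw [e, ← uv, e, vv])
      have q3 : u • u • y ≠ v • y := fun e => q1 (by
        have := smul_eq_of_sq_of_odd (u := u * u) (x := y) (ho.of_dvd_nat (by
          rw [← sq]; exact orderOf_pow_dvd 2)) (by simp only [mul_smul, e, ← uv, vv])
        rwa [mul_smul] at this)
      set T : Finset α := {y, u • y, u • u • y} with hT
      have hTc : T.card = 3 := Finset.card_eq_three.2 ⟨_, _, _, hy1.symm, q1.symm,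
        fun e => hy1 (smul_left_cancel u e).symm, rfl⟩
      have hTu : ∀ z ∈ T, u • z ≠ z ∧ v • z ≠ z ∧ v • z ∉ T := by
        have i1 : ∀ z w : α, u • z = u • w ↔ z = w := fun z w => smul_left_cancel_iff u
        have q4 : v • u • y ≠ y := fun e => q2 (by rw [← smul_eq_of_invol hv e])
        have q5 : v • u • u • y ≠ y := fun e => q3 (by rw [← smul_eq_of_invol hv e])
        simp only [uv] at q4 q5
        have q6 := q2.symm
        have q7 := q3.symm
        simp [hT, uv, i1, *]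
      have := Finset.card_le_univ ({a, b, c, d} ∪ (F ∪ (T ∪ T.image (v • ·))))
      rw [Finset.card_union_of_disjoint, Finset.card_union_of_disjoint,
        Finset.card_union_of_disjoint, Finset.card_image_of_injective _ (MulAction.injective v),
        Finset.card_eq_four.2 ⟨a, b, c, d, h1, h2, h3, h4, h5, h6, rfl⟩] at this
      · omega
      · rw [Finset.disjoint_right]
        intro z hz
        obtain ⟨w, hw, rfl⟩ := Finset.mem_image.1 hz
        exact (hTu w hw).2.2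
      · rw [Finset.disjoint_right]
        intro z hz
        rw [hF]
        rcases Finset.mem_union.1 hz with hz | hz
        · exact (hTu z hz).2.1
        · obtain ⟨w, hw, rfl⟩ := Finset.mem_image.1 hz
          rw [vv]; exact (hTu w hw).2.1.symm
      · rw [Finset.disjoint_left]
        intro z hz hz'
        have : u • z = z ∧ v • z ≠ z := by
          simp only [Finset.mem_insert, Finset.mem_singleton] at hz
          rcases hz with rfl | rfl | rfl | rfl
          exacts [⟨u1, v1 ▸ h1.symm⟩, ⟨u2, v2 ▸ h1⟩, ⟨u3, v3 ▸ h6.symm⟩, ⟨u4, v4 ▸ h6⟩]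
        rcases Finset.mem_union.1 hz' with hz | hz
        · exact this.2 ((hF z).1 hz)
        rcases Finset.mem_union.1 hz with hz | hz
        · exact (hTu z hz).1 this.1
        · obtain ⟨w, hw, rfl⟩ := Finset.mem_image.1 hz
          exact (hTu w hw).1 (smul_left_cancel v (by rw [uv, this.1]))
    have hle := Finset.card_le_card hsub
    by_contra hc
    have h3 := Perm.one_lt_card_support_of_ne_one (f := u.1) fun e => hc (Subtype.ext e)
    by_cases h2 : u.1.support.card = 2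
    · rw [← Subgroup.orderOf_coe, (Perm.card_support_eq_two.1 h2).orderOf] at ho
      exact absurd ho (by decide)
    have := H.tr
    have hle := Perm.alternatingGroup_le_of_isPreprimitive_of_isThreeCycle_mem
      (isPreprimitive_of_is_two_pretransitive (isMultiplyPretransitive_of_le (n := 4)
        (by norm_num) (by rw [Nat.card_eq_fintype_card]; omega)))
      (_root_.card_support_eq_three_iff.1 (show u.1.support.card = 3 by omega)) u.2
    obtain ⟨s, hs⟩ := exists_finset_card (α := α) (k := 8) (by rwa [Nat.card_eq_fintype_card])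
    obtain ⟨x, hx, -⟩ := exists_enum s hs
    obtain ⟨g, hg⟩ := alt_le_ind hle hx (x := x) (show Equiv.swap 4 5 * Equiv.swap 6 7 ∈ _ by
      rw [Perm.mem_alternatingGroup]; decide)
    exact H.not_swap (hx.ne (by decide)) (hx.ne (by decide)) (hx.ne (by decide)) (hx.ne (by decide))
      (hx.ne (by decide)) (hx.ne (by decide)) (hg 0) (hg 1) (hg 2) (hg 3) (hx.ne (by decide))
      (hg 4) (hg 5)
  obtain ⟨V, -, hV, hK⟩ := H.exists_four h1 h2 h3 h4 h5 h6
  refine Subgroup.mem_bot.1 (hK ⊥ (fun v hv hv1 u u1 u2 u3 u4 hu => Subgroup.mem_bot.2 ?_) g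
    e1 e2 e3 e4)
  obtain ⟨hv, h | h | h⟩ := (hV v hv).resolve_left hv1
  · exact key v u _ _ _ _ hv h1 h2 h3 h6 h.1 h.2 u1 u3 hu
  · exact key v u _ _ _ _ hv h2 h1 h3 h5 h.1 h.2 u1 u2 hu
  · exact key v u _ _ _ _ hv h3 h1 h2 h4 h.1 h.2 u1 u2 hu

end H4

end Cfsg.Lib.Perm
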