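import Cfsg.Agent.S3693

/-!
# Subgroups acting as the alternating or symmetric group modulo a kernel

`Ker φ K` says that `φ : H →* Perm (Fin n)` has kernel `K`; `Big K n Y` says that the image of `Y`
has index at most `2`.
-/

set_option autoImplicit false

namespace Cfsg.Lib.Perm.AltSub

open Subgroup Cfsg.Lib.Core Cfsg.Lib.Comp Cfsg.Lib.Loc Cfsg.Lib.Transfer MulAction Equiv

theorem cent_alt {n : ℕ} (h5 : 5 ≤ n) {g : Perm (Fin n)}
    (h : g ∈ centralizer (alternatingGroup (Fin n) : Set (Perm (Fin n)))) : g = 1 := by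
  by_contra h1
  have : Nontrivial (centralizer (alternatingGroup (Fin n) : Set (Perm (Fin n)))) :=
    ⟨⟨g, h⟩, 1, fun e => h1 (congrArg Subtype.val e)⟩
  have h2 := Perm.alternatingGroup_le_of_normal (α := Fin n) (by simpa using h5) this
  have h3 := commutator_alternatingGroup_eq_self (α := Fin n) (by simpa using h5)
  rw [commutator_eq_bot_iff_le_centralizer.2 h2] at h3
  have := alternatingGroup.isSimpleGroup (α := Fin n) (by simpa using h5)
  exact (nontrivial_iff_ne_bot _).1 inferInstance h3.symm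

theorem alt_dich {n : ℕ} (h5 : 5 ≤ n) {Y : Subgroup (Perm (Fin n))}
    (h : alternatingGroup (Fin n) ≤ normalizer (Y : Set (Perm (Fin n)))) : Y = ⊥ ∨ alternatingGroup (Fin n) ≤ Y := by
  have := normal_subgroupOf_of_le_normalizer h
  rcases alternatingGroup.normal_subgroup_eq_bot_or_eq_top (α := Fin n) (by simpa using h5)
    (N := Y.subgroupOf (alternatingGroup (Fin n))) with e | e
  · refine Or.inl (eq_bot_iff.2 fun y hy => cent_alt h5 fun a ha => ?_)
    have h1 : (⟨a * y * a⁻¹ * y⁻¹, by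
        simpa only [mul_assoc] using mul_mem ha (Normal.conj_mem inferInstance _ (inv_mem ha) y)⟩ :
        alternatingGroup (Fin n)) ∈ Y.subgroupOf (alternatingGroup (Fin n)) :=
      mul_mem ((mem_normalizer_iff.1 (h ha) y).1 hy) (inv_mem hy)
    rw [e] at h1
    have h2 : a * y * a⁻¹ * y⁻¹ = 1 := congrArg Subtype.val (mem_bot.1 h1)
    rwa [mul_inv_eq_one, mul_inv_eq_iff_eq_mul] at h2
  · exact Or.inr (subgroupOf_eq_top.1 e)

theorem card_mul_index_perm {n : ℕ} (Y : Subgroup (Perm (Fin n))) : Nat.card Y * Y.index = n.factorial := by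
  rw [card_mul_index, Nat.card_perm, Nat.card_fin]

theorem alt_le_iff {n : ℕ} (h2 : 2 ≤ n) {Y : Subgroup (Perm (Fin n))} :
    alternatingGroup (Fin n) ≤ Y ↔ n.factorial ≤ 2 * Nat.card Y := by
  have : Nontrivial (Fin n) := Fin.nontrivial_iff_two_le.2 h2
  refine ⟨fun h => ?_, fun h => Perm.alternatingGroup_le_of_index_le_two ?_⟩
  · rw [← card_mul_index_perm (alternatingGroup (Fin n)), alternatingGroup.index_eq_two, mul_comm]
    exact Nat.mul_le_mul_left _ (card_le_of_le h)
  · rw [← card_mul_index_perm Y, mul_comm 2] at h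
    exact Nat.le_of_mul_le_mul_left h Nat.card_pos

variable {G : Type*} [Group G] {H K M N X Y Z : Subgroup G} {n d : ℕ}

/-- `φ` has kernel `K`. -/
def Ker (φ : H →* Perm (Fin n)) (K : Subgroup G) : Prop := ∀ x : H, φ x = 1 ↔ (x : G) ∈ K

/-- The image of `Y` modulo `K` has at least half the order of the symmetric group. -/
def Big (K : Subgroup G) (n : ℕ) (Y : Subgroup G) : Prop := n.factorial ≤ 2 * K.relIndex Y

variable {φ : H →* Perm (Fin n)}

theorem Ker.ker (h : Ker φ K) : φ.ker = K.subgroupOf H := Subgroup.ext h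

theorem Ker.card_im (h : Ker φ K) (hY : Y ≤ H) : Nat.card ((Y.subgroupOf H).map φ) = K.relIndex Y := by
  rw [← relIndex_ker, h.ker, relIndex_subgroupOf hY]

theorem Ker.card_range (h : Ker φ K) : Nat.card φ.range = K.relIndex H := by
  rw [← index_ker, h.ker, relIndex]

theorem Ker.dvd (h : Ker φ K) : K.relIndex H ∣ n.factorial := by
  rw [← h.card_range, ← card_mul_index_perm φ.range]
  exact dvd_mul_right _ _

theorem Ker.big_iff (h : Ker φ K) (h2 : 2 ≤ n) (hY : Y ≤ H) :
    Big K n Y ↔ alternatingGroup (Fin n) ≤ (Y.subgroupOf H).map φ := by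
  rw [alt_le_iff h2, h.card_im hY, Big]

theorem Ker.dich (h : Ker φ K) (h5 : 5 ≤ n) (hYZ : Y ≤ Z) (hZ : Z ≤ H) (hn : Z ≤ normalizer (Y : Set G))
    (hb : Big K n Z) : Y ≤ K ∨ Big K n Y := by
  rw [h.big_iff (by omega) hZ] at hb
  rw [h.big_iff (by omega) (hYZ.trans hZ)]
  refine (alt_dich h5 (hb.trans ((map_mono ?_).trans (le_normalizer_map φ)))).imp_left fun e y hy => ?_
  · exact (comap_mono hn).trans (le_normalizer_comap H.subtype)
  · exact (h ⟨y, hZ (hYZ hy)⟩).1 (mem_bot.1 (e.le ⟨_, hy, rfl⟩))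

theorem Ker.cent (h : Ker φ K) (h5 : 5 ≤ n) (hY : Y ≤ H) (hb : Big K n Y) {x : G} (hx : x ∈ H)
    (hc : x ∈ centralizer (Y : Set G)) : x ∈ K := by
  rw [h.big_iff (by omega) hY] at hb
  refine (h ⟨x, hx⟩).1 (cent_alt h5 fun a ha => ?_)
  obtain ⟨y, hy, rfl⟩ := hb ha
  rw [← map_mul, ← map_mul]
  exact congrArg φ (Subtype.ext (hc y hy))

theorem Ker.not_solvable (h : Ker φ K) (h5 : 5 ≤ n) (hY : Y ≤ H) (hb : Big K n Y) : ¬ Group.IsSolvable Y := by
  rw [h.big_iff (by omega) hY] at hb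
  intro hs
  have h1 : Group.IsSolvable (Y.subgroupOf H) := Group.isSolvable_of_isSolvable_injective
    (f := (subgroupOfEquivOfLe hY).toMonoidHom) (subgroupOfEquivOfLe hY).injective
  have h2 : Group.IsSolvable ((Y.subgroupOf H).map φ) := Group.isSolvable_of_surjective (φ.subgroupMap_surjective _)
  have h3 : Group.IsSolvable (alternatingGroup (Fin n)) :=
    Group.isSolvable_of_isSolvable_injective (inclusion_injective hb)
  have := alternatingGroup.isSimpleGroup (α := Fin n) (by simpa using h5)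
  have h4 := commutator_alternatingGroup_eq_top (α := Fin n) (by simpa using h5)
  exact (Group.IsSolvable.commutator_lt_top_of_nontrivial _).ne h4

variable [Finite G]

theorem exists_ker (hd : N.relIndex M = d) : ∃ (φ : M →* Perm (Fin d)) (x : Fin d), Ker φ (coreIn M N) ∧
    ∀ m : M, φ m x = x ↔ (m : G) ∈ N := by
  let e : (M ⧸ N.subgroupOf M) ≃ Fin d := Finite.equivFinOfCardEq hd
  refine ⟨e.permCongrHom.toMonoidHom.comp (toPermHom M _), e ((1 : M) : M ⧸ N.subgroupOf M), fun m => ?_, fun m => ?_⟩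
  · rw [MonoidHom.comp_apply, MulEquiv.coe_toMonoidHom, MulEquiv.map_eq_one_iff, ← MonoidHom.mem_ker,
      ← normalCore_eq_ker, coreIn]
    exact (mem_map_iff_mem M.subtype_injective).symm
  · change e (m • e.symm (e _)) = _ ↔ _
    rw [e.symm_apply_apply, e.apply_eq_iff_eq, ← mem_stabilizer_iff, stabilizer_quotient, mem_subgroupOf]

theorem exists_ker_inf (hd : N.relIndex M = d) : ∃ ψ : ↥(M ⊓ N) →* Perm (Fin (d - 1)), Ker ψ (coreIn M N) := by
  obtain ⟨φ, x, h1, h2⟩ := exists_ker hd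
  let e : SubMulAction.ofStabilizer (Perm (Fin d)) x ≃ Fin (d - 1) :=
    Finite.equivFinOfCardEq (by rw [SubMulAction.nat_card_ofStabilizer_eq, Nat.card_fin])
  let f : ↥(M ⊓ N) →* stabilizer (Perm (Fin d)) x :=
    (φ.comp (inclusion inf_le_left)).codRestrict _ fun m => (h2 _).2 m.2.2
  refine ⟨e.permCongrHom.toMonoidHom.comp ((toPermHom _ _).comp f), fun m => ?_⟩
  rw [MonoidHom.comp_apply, MulEquiv.coe_toMonoidHom, MulEquiv.map_eq_one_iff]
  refine Iff.trans ⟨fun h => Equiv.ext fun y => ?_, fun h => ?_⟩ (h1 (inclusion inf_le_left m))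
  · by_cases hy : y = x
    · exact hy ▸ (h2 _).2 m.2.2
    · exact congrArg Subtype.val (Equiv.congr_fun h ⟨y, hy⟩)
  · rw [MonoidHom.comp_apply, show f m = 1 from Subtype.ext h, map_one]

theorem Big.inf (hd : N.relIndex M = d) (h : Big (coreIn M N) d M) : Big (coreIn M N) (d - 1) (M ⊓ N) := by
  have h0 : d ≠ 0 := hd ▸ index_ne_zero_of_finite
  rw [Big, ← relIndex_mul_relIndex (coreIn M N) (M ⊓ N) M (le_inf (coreIn_le_left M N) (coreIn_le_right M N))
    inf_le_left, inf_relIndex_left, hd, ← Nat.mul_factorial_pred h0, ← mul_assoc, mul_comm d] at h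
  exact Nat.le_of_mul_le_mul_right h (Nat.pos_of_ne_zero h0)

theorem Big.trans (hd : N.relIndex M = d) (h3 : 3 ≤ d) (hX : X ≤ M) (h : Big (coreIn M N) d X) {m : G}
    (hm : m ∈ M) : ∃ x ∈ X, x⁻¹ * m ∈ N := by
  obtain ⟨φ, x, h1, h2⟩ := exists_ker hd
  rw [h1.big_iff (by omega) hX] at h
  obtain ⟨⟨σ, hσ⟩, e⟩ := (alternatingGroup.isPretransitive_of_three_le_card (α := Fin d)
    (by simpa using h3)).exists_smul_eq x (φ ⟨m, hm⟩ x)
  obtain ⟨y, hy, rfl⟩ := h hσ
  refine ⟨y, hy, (h2 (y⁻¹ * ⟨m, hm⟩)).1 ?_⟩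
  rw [map_mul, map_inv, Perm.mul_apply, Perm.inv_eq_iff_eq]
  exact e.symm

/-- Chains of normal inclusions of bounded index. -/
inductive Ch (m : ℕ) (X : Subgroup G) : Subgroup G → Prop
  | refl : Ch m X X
  | step {Y Z : Subgroup G} : Ch m X Y → Z ≤ Y → Y ≤ normalizer (Z : Set G) → Z.relIndex Y ≤ m → Ch m X Z

variable {m : ℕ}

omit [Finite G] in
theorem Ch.le (h : Ch m X Y) : Y ≤ X := by
  induction h with
  | refl => exact le_rfl
  | step _ h1 _ _ ih => exact h1.trans ih

omit [Finite G] in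
theorem Ch.trans (h : Ch m X Y) (h' : Ch m Y Z) : Ch m X Z := by
  induction h' with
  | refl => exact h
  | step _ h1 h2 h3 ih => exact ih.step h1 h2 h3

theorem Ch.inf (h : Ch m X Y) (W : Subgroup G) : Ch m (X ⊓ W) (Y ⊓ W) := by
  induction h with
  | refl => exact .refl
  | @step Y Z _ h1 h2 h3 ih =>
    refine ih.step (inf_le_inf_right W h1)
      (le_normalizer_inf (inf_le_left.trans h2) (inf_le_right.trans le_normalizer)) (le_trans ?_ h3)
    rw [← inf_relIndex_right, inf_assoc, inf_eq_right.2 inf_le_right, inf_relIndex_right]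
    exact relIndex_le_of_le_right inf_le_left index_ne_zero_of_finite

omit [Finite G] in
theorem Ch.conj (h : Ch m X Y) (g : G) : Ch m (g ⋆ X) (g ⋆ Y) := by
  induction h with
  | refl => exact .refl
  | step _ h1 h2 h3 ih =>
    exact ih.step (conj_mono g h1) (by rw [← conj_normalizer]; exact conj_mono g h2) (by rwa [relIndex_conj])

theorem ch_bot (hM : IsPrimSub M) (hN : IsPrimSub N) (hne : M ≠ N) (h1 : (coreIn M N).relIndex (M ⊓ N) ≤ m)
    (h2 : (coreIn N M).relIndex (M ⊓ N) ≤ m) : Ch m (M ⊓ N) ⊥ := by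
  obtain ⟨Y, hY, hmin⟩ := (wellFounded_lt (α := Subgroup G)).has_min {Y | Ch m (M ⊓ N) Y} ⟨_, .refl⟩
  have hle : ∀ Z, Ch m (M ⊓ N) Z → Y ≤ Z := fun Z hZ => by
    have h3 := hZ.inf Y
    rw [inf_eq_right.2 (Ch.le hY)] at h3
    exact inf_eq_right.1 ((inf_le_right : Z ⊓ Y ≤ Y).eq_or_lt.resolve_right (hmin _ (Ch.trans hY h3)))
  have key : ∀ A K : Subgroup G, Ch m (M ⊓ N) K → A ≤ normalizer (K : Set G) → A ≤ normalizer (Y : Set G) :=
    fun A K hK hA a ha => by
      have h3 := Ch.inf hY K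
      rw [inf_eq_right.2 hK.le, inf_eq_left.2 (hle K hK)] at h3
      have h4 := h3.conj a⁻¹
      rw [conj_eq_self_iff.2 (inv_mem (hA ha))] at h4
      exact mem_normalizer_of_conj_le (conj_le_iff_le_inv_conj.2 (hle _ (hK.trans h4)))
  rwa [← hM.eq_bot hN hne ((Ch.le hY).trans inf_le_left) ((Ch.le hY).trans inf_le_right)
    (key M _ (Ch.refl.step (le_inf (coreIn_le_left M N) (coreIn_le_right M N))
      (inf_le_left.trans (le_normalizer_coreIn M N)) h1) (le_normalizer_coreIn M N))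
    (key N _ (Ch.refl.step (le_inf (coreIn_le_right N M) (coreIn_le_left N M))
      (inf_le_right.trans (le_normalizer_coreIn N M)) h2) (le_normalizer_coreIn N M))]

/-- The paired subconstituent has the conjugate kernel. -/
theorem paired (hM : IsPrimSub M) {g : G} (hN : N = g ⋆ M) (hd : N.relIndex M = d) (h5 : 5 ≤ d)
    (hb : Big (coreIn M N) d M) : coreIn N M = g ⋆ coreIn M N := by
  have hne : M ≠ N := by rintro rfl; rw [relIndex_self] at hd; omega
  have hd' : M.relIndex N = d := (relIndex_comm_of_card_eq (by rw [hN, card_conj])).trans hd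
  have hK : g ⋆ coreIn M N = coreIn N (g ⋆ N) := by rw [conj_coreIn, ← hN]
  have hb' : Big (coreIn N (g ⋆ N)) d N := by
    rw [← hK, Big]
    conv_rhs => enter [2, 2]; rw [hN]
    rwa [relIndex_conj]
  obtain ⟨φ, -, hφ, -⟩ := exists_ker (M := N) (N := g ⋆ N) (d := d) (by
    conv_lhs => enter [2]; rw [hN]
    rwa [relIndex_conj])
  obtain ⟨ψ, -, hψ, -⟩ := exists_ker hd'
  have h120 : 120 ≤ d.factorial := Nat.factorial_le h5
  rw [hK]
  rcases hφ.dich h5 (coreIn_le_left N M) le_rfl (le_normalizer_coreIn N M) hb' with h | h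
  · have e := relIndex_mul_relIndex _ _ _ h (coreIn_le_left N (g ⋆ N))
    have h1 := Nat.le_of_dvd d.factorial_pos hψ.dvd
    have h0 : 0 < (coreIn N M).relIndex (coreIn N (g ⋆ N)) := Nat.pos_of_ne_zero index_ne_zero_of_finite
    refine le_antisymm h ((hψ.dich h5 (coreIn_le_left _ _) le_rfl (le_normalizer_coreIn _ _) ?_).resolve_right
      fun h2 => ?_)
    · unfold Big at hb' ⊢
      nlinarith
    · unfold Big at hb' h2
      nlinarith
  · exfalso
    have h1 := (ch_bot (m := (d - 1).factorial) hM (hN ▸ hM.conj g) hne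
      (Nat.le_of_dvd (Nat.factorial_pos _) (hd ▸ relIndex_coreIn_inf_dvd M N))
      (Nat.le_of_dvd (Nat.factorial_pos _) (by rw [inf_comm]; exact hd' ▸ relIndex_coreIn_inf_dvd N M))).inf
      (coreIn N M)
    rw [inf_eq_right.2 (le_inf (coreIn_le_right N M) (coreIn_le_left N M)), bot_inf_eq] at h1
    have h2 : ∀ Y, Ch (d - 1).factorial (coreIn N M) Y → Big (coreIn N (g ⋆ N)) d Y := fun Y hY => by
      induction hY with
      | refl => exact h
      | @step Y Z h3 h4 h6 h7 ih =>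
        refine (hφ.dich h5 h4 (h3.le.trans (coreIn_le_left N M)) h6 ih).resolve_left fun h8 => ?_
        have h9 := relIndex_le_of_le_left (L := Y) h8 index_ne_zero_of_finite
        unfold Big at ih
        rw [← Nat.mul_factorial_pred (by omega : d ≠ 0)] at ih
        have := (d - 1).factorial_pos
        nlinarith
    have := h2 _ h1
    rw [Big, relIndex_bot_right] at this
    omega

omit [Finite G] in
theorem layerOf_mono {B : Subgroup G} (h : SubnormalIn B H) :
    (layer B).map B.subtype ≤ (layer H).map H.subtype := by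
  have := map_mono (f := H.subtype) (map_layer_le_layer h.isSubnormal_subgroupOf)
  rwa [← map_layer_map_of_injective _ H.subtype_injective, map_subgroupOf_eq_of_le h.le] at this

omit [Finite G] in
theorem layerOf_le {D L : Subgroup G} (hL : L ≤ D) (hLn : D ≤ normalizer (L : Set G)) (hK : K ≤ D)
    (hKn : D ≤ normalizer (K : Set G)) (h : L ⊓ centralizer (K : Set G) ≤ K) : (layer L).map L.subtype ≤ K := by
  have := normal_subgroupOf_of_le_normalizer hLn
  have := normal_subgroupOf_of_le_normalizer hKn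
  rw [← map_subgroupOf_eq_of_le hL, map_layer_map_of_injective _ D.subtype_injective, map_le_iff_le_comap]
  refine map_layer_le fun C hC hc => ?_
  refine (isComponent_le_or_commutator_eq_bot_of_normal
    (isComponent_of_subgroupOf (Normal.isSubnormal inferInstance) hC hc) (K.subgroupOf D)).elim id
    fun e c hc' => h ⟨hC hc', fun k hk => ?_⟩
  exact congrArg Subtype.val (commutator_eq_bot_iff_le_centralizer.1 e hc' ⟨k, hK hk⟩ hk)

theorem core_not_le (hM : IsPrimSub M) (hN : IsPrimSub N) (hne : M ≠ N) (hF : fittingOf (M ⊓ N) = ⊥)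
    (h0 : coreIn N M ≠ ⊥) (hc : Nat.card ((layer (coreIn M N)).map (coreIn M N).subtype) =
      Nat.card ((layer (coreIn N M)).map (coreIn N M).subtype)) :
    ¬ coreIn N M ⊓ centralizer (coreIn M N : Set G) ≤ coreIn M N := by
  intro h
  have hK : coreIn M N ≤ M ⊓ N := le_inf (coreIn_le_left M N) (coreIn_le_right M N)
  have hL : coreIn N M ≤ M ⊓ N := le_inf (coreIn_le_right N M) (coreIn_le_left N M)
  have nK := le_normalizer_coreIn M N
  have nL := le_normalizer_coreIn N M
  have h1 := layerOf_le hL (inf_le_right.trans nL) hK (inf_le_left.trans nK) h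
  have h2 := layerOf_eq_of_le ((SubnormalIn.of_le_normalizer hK (inf_le_left.trans nK)).inf_of_le hL)
    (le_inf h1 (map_subtype_le _))
  have h3 := layerOf_mono ((SubnormalIn.of_le_normalizer hL (inf_le_right.trans nL)).inf_of_le hK)
  rw [inf_comm, h2] at h3
  have h4 := eq_of_le_of_card_eq h3 hc.symm
  have h5 := hM.eq_bot hN hne ((map_subtype_le _).trans (coreIn_le_right N M))
    ((map_subtype_le _).trans (coreIn_le_left N M)) (h4 ▸ nK.trans (normalizer_le_normalizer_map_layer _))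
    (nL.trans (normalizer_le_normalizer_map_layer _))
  obtain ⟨p, hp, h6⟩ := exists_core_ne_bot h0 (.refl _) (map_subtype_eq_bot_iff.1 h5)
  have := Fact.mk hp
  exact h6 (eq_bot_iff.2 (hF ▸ le_fittingOf ((core_le p _).trans hL)
    (inf_le_right.trans (nL.trans (normalizer_le_normalizer_core p _))) (core_pgroup p _).isNilpotent))

theorem big_cent (hd : N.relIndex M = d) (h5 : 5 ≤ d) (hb : Big (coreIn M N) d M)
    (h : ¬ coreIn N M ⊓ centralizer (coreIn M N : Set G) ≤ coreIn M N) :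
    Big (coreIn M N) d (M ⊓ centralizer (coreIn M N : Set G)) := by
  obtain ⟨φ, -, hφ, -⟩ := exists_ker hd
  exact (hφ.dich h5 inf_le_left le_rfl (le_normalizer_inf le_normalizer ((le_normalizer_coreIn M N).trans
    (normalizer_le_normalizer_centralizer' _))) hb).resolve_left
    fun e => h ((inf_le_inf_right _ (coreIn_le_right N M)).trans e)

theorem norm_inf_core (hd : N.relIndex M = d) (h3 : 3 ≤ d)
    (h : Big (coreIn M N) d (M ⊓ centralizer (coreIn M N : Set G))) :
    M ≤ normalizer ((coreIn M N ⊓ coreIn N M : Subgroup G) : Set G) := fun m hm => by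
  obtain ⟨x, hx, h1⟩ := h.trans hd h3 inf_le_left hm
  rw [← mul_inv_cancel_left x m]
  refine mul_mem (centralizer_le_normalizer _ (centralizer_le inf_le_left hx.2)) ?_
  exact le_normalizer_inf (inf_le_left.trans (le_normalizer_coreIn M N))
    (inf_le_right.trans (le_normalizer_coreIn N M)) (mem_inf.2 ⟨mul_mem (inv_mem (mem_inf.1 hx).1) hm, h1⟩)

theorem classify {A : Type*} [Group A] {e : ℕ} (hd : 2 ≤ d) (he : 2 ≤ e) (φ : A →* Perm (Fin d))
    (ψ : A →* Perm (Fin e)) (hinj : ∀ a, φ a = 1 → ψ a = 1 → a = 1) (h1 : alternatingGroup _ ≤ ψ.ker.map φ)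
    (h2 : alternatingGroup _ ≤ φ.ker.map ψ) (h3 : φ.range.index = 2 → ψ.range.index = 2) :
    (φ.range.index = 2 ∧ Nonempty (A ≃* alternatingGroup (Fin d) × alternatingGroup (Fin e))) ∨
    (φ.range = ⊤ ∧ (Nonempty (A ≃* Perm (Fin d) × Perm (Fin e)) ∨
      Nonempty (A ≃* Perm (Fin d) × alternatingGroup (Fin e)) ∨
      Nonempty (A ≃* ((Perm.sign.comp (MonoidHom.fst (Perm (Fin d)) (Perm (Fin e)))) *
        (Perm.sign.comp (MonoidHom.snd (Perm (Fin d)) (Perm (Fin e))))).ker))) := by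
  have : Nontrivial (Fin d) := Fin.nontrivial_iff_two_le.2 hd
  have hi : Function.Injective (φ.prod ψ) := (injective_iff_map_eq_one _).2 fun a h =>
    hinj a (congrArg Prod.fst h) (congrArg Prod.snd h)
  have iso : ∀ R : Subgroup (Perm (Fin d) × Perm (Fin e)), (∀ a, (φ a, ψ a) ∈ R) →
      (∀ x ∈ R, ∃ a, Perm.sign (φ a) = Perm.sign x.1 ∧ Perm.sign (ψ a) = Perm.sign x.2) → Nonempty (A ≃* R) := by
    intro R hR hR'
    refine ⟨(MonoidHom.ofInjective hi).trans (MulEquiv.subgroupCongr (le_antisymm ?_ fun x hx => ?_))⟩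
    · rintro _ ⟨a, rfl⟩
      exact hR a
    · obtain ⟨a, e1, e2⟩ := hR' x hx
      obtain ⟨b, hb, e3⟩ := h1 (x := x.1 * (φ a)⁻¹) (by simp [e1])
      obtain ⟨c, hc, e4⟩ := h2 (x := x.2 * (ψ a)⁻¹) (by simp [e2])
      refine ⟨b * c * a, Prod.ext ?_ ?_⟩
      · simp [e3, show φ c = 1 from hc]
      · simp [e4, show ψ b = 1 from hb]
  have hφ : alternatingGroup _ ≤ φ.range := h1.trans (map_le_range _ _)
  rcases (Nat.dvd_prime Nat.prime_two).1 (alternatingGroup.index_eq_two (α := Fin d) ▸ index_dvd_of_le hφ)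
    with h | h
  · refine Or.inr ⟨index_eq_one.1 h, ?_⟩
    obtain ⟨σ, hσ⟩ := Perm.sign_surjective (Fin d) (-1)
    obtain ⟨a, rfl⟩ := (index_eq_one.1 h).ge (mem_top σ)
    by_cases h4 : ∃ b, Perm.sign (φ b) = 1 ∧ Perm.sign (ψ b) = -1
    · obtain ⟨b, e1, e2⟩ := h4
      obtain ⟨f⟩ := iso ⊤ (fun _ => trivial) fun x _ => by
        rcases Int.units_eq_one_or (Perm.sign x.1) with e3 | e3 <;>
          rcases Int.units_eq_one_or (Perm.sign x.2) with e4 | e4 <;> rw [e3, e4]
        · exact ⟨1, by simp, by simp⟩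
        · exact ⟨b, e1, e2⟩
        all_goals
          rcases Int.units_eq_one_or (Perm.sign (ψ a)) with e5 | e5 <;>
          first | exact ⟨a, hσ, e5⟩ | exact ⟨a * b, by simp [hσ, e1], by simp [e5, e2]⟩
      exact Or.inl ⟨f.trans topEquiv⟩
    have h5 : ∀ b, Perm.sign (φ b) = 1 → Perm.sign (ψ b) = 1 := fun b hb =>
      (Int.units_eq_one_or _).resolve_right fun e => h4 ⟨b, hb, e⟩
    have h6 : ∀ b, Perm.sign (φ b) = -1 → Perm.sign (ψ b) = Perm.sign (ψ a) := fun b hb => by
      have := h5 (b * a) (by simp [hb, hσ])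
      rw [map_mul, map_mul, mul_eq_one_iff_eq_inv] at this
      rw [this, Int.units_inv_eq_self]
    rcases Int.units_eq_one_or (Perm.sign (ψ a)) with e5 | e5
    · obtain ⟨f⟩ := iso (Subgroup.prod ⊤ (alternatingGroup _)) (fun b => ⟨trivial,
        (Int.units_eq_one_or _).elim (h5 b) fun h => (h6 b h).trans e5⟩) fun x hx => by
        rw [show Perm.sign x.2 = 1 from hx.2]
        rcases Int.units_eq_one_or (Perm.sign x.1) with e3 | e3 <;> rw [e3]
        exacts [⟨1, by simp, by simp⟩, ⟨a, hσ, e5⟩]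
      exact Or.inr (Or.inl ⟨f.trans ((Subgroup.prodEquiv _ _).trans (topEquiv.prodCongr (.refl _)))⟩)
    · refine Or.inr (Or.inr (iso _ (fun b => ?_) fun x hx => ?_))
      · change Perm.sign (φ b) * Perm.sign (ψ b) = 1
        rcases Int.units_eq_one_or (Perm.sign (φ b)) with e3 | e3
        · rw [h5 b e3, e3, one_mul]
        · rw [h6 b e3, e3, e5, neg_mul_neg, one_mul]
      · have hx' : Perm.sign x.1 * Perm.sign x.2 = 1 := hx
        rw [mul_eq_one_iff_eq_inv, Int.units_inv_eq_self] at hx'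
        rw [hx']
        rcases Int.units_eq_one_or (Perm.sign x.2) with e3 | e3 <;> rw [e3]
        exacts [⟨1, by simp, by simp⟩, ⟨a, hσ, e5⟩]
  · obtain ⟨f⟩ := iso ((alternatingGroup _).prod (alternatingGroup _)) (fun b =>
      ⟨(Perm.eq_alternatingGroup_of_index_eq_two h).le ⟨b, rfl⟩,
        (Perm.eq_alternatingGroup_of_index_eq_two (h3 h)).le ⟨b, rfl⟩⟩) fun x hx =>
      ⟨1, by simpa using Eq.symm hx.1, by simpa using Eq.symm hx.2⟩
    exact Or.inl ⟨h, ⟨f.trans (Subgroup.prodEquiv _ _)⟩⟩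

theorem structure_thm (hM : IsPrimSub M) {g : G} (hN : N = g ⋆ M) (hd : N.relIndex M = d) (h6 : 6 ≤ d)
    (hb : Big (coreIn M N) d M) (h0 : coreIn M N ≠ ⊥) :
    (2 * (coreIn M N).relIndex M = d.factorial ∧
      Nonempty (M ≃* alternatingGroup (Fin d) × alternatingGroup (Fin (d - 1)))) ∨
    ((coreIn M N).relIndex M = d.factorial ∧ (Nonempty (M ≃* Perm (Fin d) × Perm (Fin (d - 1))) ∨
      Nonempty (M ≃* Perm (Fin d) × alternatingGroup (Fin (d - 1))) ∨
      Nonempty (M ≃* ((Perm.sign.comp (MonoidHom.fst (Perm (Fin d)) (Perm (Fin (d - 1))))) *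
        (Perm.sign.comp (MonoidHom.snd (Perm (Fin d)) (Perm (Fin (d - 1)))))).ker))) := by
  have hne : M ≠ N := by rintro rfl; rw [relIndex_self] at hd; omega
  have hd' : M.relIndex N = d := (relIndex_comm_of_card_eq (by rw [hN, card_conj])).trans hd
  have hN' : IsPrimSub N := hN ▸ hM.conj g
  have hL := paired hM hN hd (by omega) hb
  have hi : (coreIn N M).relIndex N = (coreIn M N).relIndex M := by
    rw [hL]
    conv_lhs => enter [2]; rw [hN]
    rw [relIndex_conj]
  have hb' : Big (coreIn N M) d N := by rwa [Big, hi]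
  obtain ⟨φ, -, hφ, -⟩ := exists_ker hd
  obtain ⟨χ, hχ⟩ := exists_ker_inf hd
  obtain ⟨ψ₀, hψ₀⟩ := exists_ker_inf hd'
  have hK : coreIn M N ≤ M ⊓ N := le_inf (coreIn_le_left M N) (coreIn_le_right M N)
  have hK' : coreIn M N ≤ N ⊓ M := inf_comm M N ▸ hK
  have hL' : coreIn N M ≤ N ⊓ M := le_inf (coreIn_le_left N M) (coreIn_le_right N M)
  have nK := le_normalizer_coreIn M N
  have nL := le_normalizer_coreIn N M
  have hF : fittingOf (M ⊓ N) = ⊥ := Cfsg.Agent.S3693.fitting_eq_bot hM hN hne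
    ((hχ.dich (by omega) (fittingOf_le _) le_rfl (le_normalizer_fittingOf _) (hb.inf hd)).resolve_right
      fun h => hχ.not_solvable (by omega) (fittingOf_le _) h inferInstance)
  have hc : Nat.card ((layer (coreIn M N)).map (coreIn M N).subtype) =
      Nat.card ((layer (coreIn N M)).map (coreIn N M).subtype) := by
    rw [hL, map_layer_map_conj, card_conj]
  have c1 := core_not_le hM hN' hne hF (by rwa [hL, Ne, conj_eq_bot_iff]) hc
  have c2 := core_not_le hN' hM hne.symm (inf_comm M N ▸ hF) h0 hc.symm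
  have b1 := big_cent hd (by omega) hb c1
  have b2 := big_cent hd' (by omega) hb' c2
  have hE : coreIn M N ⊓ coreIn N M = ⊥ := hM.eq_bot hN' hne (inf_le_left.trans (coreIn_le_left M N))
    (inf_le_right.trans (coreIn_le_left N M)) (norm_inf_core hd (by omega) b1)
    (inf_comm (coreIn N M) _ ▸ norm_inf_core hd' (by omega) b2)
  have b3 : Big (coreIn N M) (d - 1) (coreIn M N) :=
    (hψ₀.dich (by omega) hK' le_rfl (inf_le_right.trans nK) (hb'.inf hd')).resolve_left
      fun h => c2 (inf_le_left.trans h)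
  set X := M ⊓ centralizer (coreIn M N : Set G) with hX
  have hXL : ∀ x ∈ N ⊓ M, x ∈ X ↔ x ∈ coreIn N M := fun x hx =>
    ⟨fun h => hψ₀.cent (by omega) hK' b3 hx h.2, fun h => ⟨hx.2, commutator_eq_bot_iff_le_centralizer.1
      (eq_bot_iff.2 ((commutator_le_inf_of_normalizer (hK'.trans (inf_le_left.trans nL)) le_rfl
        (hL'.trans (inf_le_right.trans nK))).trans ((inf_comm _ _).trans hE).le)) h⟩⟩
  have : (X.subgroupOf M).Normal := normal_subgroupOf_of_le_normalizer
    (le_normalizer_inf le_normalizer (nK.trans (normalizer_le_normalizer_centralizer' _)))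
  let f : ↥(N ⊓ M) →* M ⧸ X.subgroupOf M := (QuotientGroup.mk' _).comp (inclusion inf_le_right)
  have hf : Function.Surjective f := fun y => by
    induction y using QuotientGroup.induction_on with | H m => ?_
    obtain ⟨x, hx, h⟩ := b1.trans hd (by omega) inf_le_left m⁻¹.2
    refine ⟨(⟨x⁻¹ * m⁻¹.1, mem_inf.2 ⟨h, mul_mem (inv_mem (mem_inf.1 hx).1) m⁻¹.2⟩⟩ : ↥(N ⊓ M))⁻¹, QuotientGroup.eq.2 ?_⟩
    rw [mem_subgroupOf]
    simpa [-mem_inf] using hx
  let ψ₁ := f.liftOfSurjective hf ⟨ψ₀, fun x hx => (hψ₀ x).2 ((hXL x x.2).1 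
    ((QuotientGroup.eq_one_iff (N := X.subgroupOf M) (inclusion inf_le_right x)).1 hx))⟩
  let ψ : M →* Perm (Fin (d - 1)) := ψ₁.comp (QuotientGroup.mk' _)
  have e1 : ∀ x : ↥(N ⊓ M), ψ (inclusion inf_le_right x) = ψ₀ x := fun x =>
    f.liftOfRightInverse_comp_apply _ (Function.rightInverse_surjInv hf) _ x
  have hψ : Ker ψ X := fun m => by
    obtain ⟨y, hy⟩ := hf m
    have e2 : ψ m = ψ₀ y := by rw [← e1]; exact congrArg ψ₁ hy.symm
    rw [e2, hψ₀, ← hXL y y.2, ← mem_subgroupOf (h := m), ← QuotientGroup.eq_one_iff m, ← hy]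
    exact (QuotientGroup.eq_one_iff (N := X.subgroupOf M) (inclusion inf_le_right y)).symm
  have hXK : ∀ Y ≤ N ⊓ M, X.relIndex Y = (coreIn N M).relIndex Y := fun Y hY => by
    rw [← inf_relIndex_right, ← inf_relIndex_right (coreIn N M)]
    congr 1
    ext x
    exact and_congr_left fun h => hXL x (hY h)
  have i1 := card_mul_index_perm φ.range
  have i2 := card_mul_index_perm ψ.range
  rw [hφ.card_range] at i1
  refine (classify (by omega) (by omega) φ ψ (fun a h1 h2 => ?_) ?_ ?_ fun h => ?_).imp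
    (And.imp_left fun h => by rw [← i1, h, mul_comm]) (And.imp_left fun h => by rw [← i1, h, index_top, mul_one])
  · have h3 := (hφ a).1 h1
    exact Subtype.ext (mem_bot.1 (hE.le ⟨h3, (hXL a (hK' h3)).1 ((hψ a).1 h2)⟩))
  · rw [hψ.ker, ← hφ.big_iff (by omega) inf_le_left]
    exact b1
  · rw [hφ.ker, ← hψ.big_iff (by omega) (coreIn_le_left M N), Big, hXK _ hK']
    exact b3
  · have e2 : ψ.range = ψ₀.range := by
      refine le_antisymm ?_ ?_
      · rintro _ ⟨m, rfl⟩
        obtain ⟨y, hy⟩ := hf m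
        exact ⟨y, by rw [← e1]; exact congrArg ψ₁ hy⟩
      · rintro _ ⟨y, rfl⟩
        exact ⟨_, e1 y⟩
    rw [e2, hψ₀.card_range] at i2
    rw [h, ← hi, ← relIndex_mul_relIndex _ _ _ hL' inf_le_left, inf_relIndex_left, hd',
      ← Nat.mul_factorial_pred (by omega : d ≠ 0), ← i2, mul_right_comm, mul_comm d] at i1
    rw [e2]
    exact (Nat.eq_of_mul_eq_mul_left (Nat.pos_of_ne_zero index_ne_zero_of_finite)
      (Nat.eq_of_mul_eq_mul_right (by omega) i1)).symm

end Cfsg.Lib.Perm.AltSub
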