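import Cfsg.Agent.Lib.Coprime.Generation

/-!
# Binary affine groups, part 1: the hypotheses and characteristic two
-/

set_option autoImplicit false

namespace Cfsg.Lib.BinAff

open Subgroup

/-- What is used of a binary primitive affine group `V ⋊ H`. -/
structure Hyp (H V : Type*) [Group H] [AddCommGroup V] [DistribMulAction H V] : Prop where
  faith : ∀ h : H, (∀ v : V, h • v = v) → h = 1
  irr : ∀ Y : AddSubgroup V, (∀ h : H, ∀ v ∈ Y, h • v ∈ Y) → Y = ⊥ ∨ Y = ⊤
  sw : ∀ (g : H) (x : V), ∃ h : H, h • x = g • x ∧ h • g • x = x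
  par : ∀ x y u : V, (∃ a : H, a • x = x + u) → (∃ b : H, b • y = y + u) →
    (∃ c : H, c • (x + y) = x + y + u) → u = 0

/-- The dihedral configuration. -/
def Dih (H V : Type*) [Group H] [AddCommGroup V] [DistribMulAction H V] : Prop :=
  ∃ (O : Subgroup H) (t : H), t ∉ O ∧ t * t = 1 ∧ (∀ o ∈ O, t * o * t = o⁻¹) ∧
    (∀ h : H, h ∈ O ∨ h * t ∈ O) ∧ ∀ v : V, v ≠ 0 → ∃ o ∈ O, (o * t) • v = v

/-- A fixed-point-free involution inverts. -/
theorem inv_of_fpf {H : Type*} [Group H] [Finite H] {X : Subgroup H} {a : H} (ha : a * a = 1)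
    (hX : ∀ x ∈ X, a * x * a ∈ X) (hf : ∀ x ∈ X, a * x * a = x → x = 1) :
    ∀ x ∈ X, a * x * a = x⁻¹ := by
  let f : X → X := fun x => ⟨(x : H)⁻¹ * (a * x * a), X.mul_mem (X.inv_mem x.2) (hX x x.2)⟩
  have hai : a⁻¹ = a := inv_eq_of_mul_eq_one_right ha
  have hinj : Function.Injective f := by
    intro x y hxy
    have h1 : (x : H)⁻¹ * (a * x * a) = (y : H)⁻¹ * (a * y * a) := congrArg Subtype.val hxy
    have h2 : a * ((x : H) * (y : H)⁻¹) * a = x * (y : H)⁻¹ := by
      have h3 : a * (x : H) * a = x * ((y : H)⁻¹ * (a * y * a)) := by rw [← h1]; group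
      calc a * ((x : H) * (y : H)⁻¹) * a = (a * x * a) * (a * y * a)⁻¹ := by
            rw [mul_inv_rev, mul_inv_rev, hai]
            calc a * ((x : H) * (y : H)⁻¹) * a = a * x * (a * a) * (y : H)⁻¹ * a := by
                  rw [ha]; group
              _ = _ := by group
        _ = x * (y : H)⁻¹ := by rw [h3]; group
    have h4 := hf _ (X.mul_mem x.2 (X.inv_mem y.2)) h2
    exact Subtype.ext (mul_inv_eq_one.mp h4)
  intro y hy
  obtain ⟨x, hx⟩ := (Finite.injective_iff_surjective.mp hinj) ⟨y, hy⟩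
  have h1 : (x : H)⁻¹ * (a * x * a) = y := congrArg Subtype.val hx
  rw [← h1, mul_inv_rev, mul_inv_rev, mul_inv_rev, hai, inv_inv]
  calc a * ((x : H)⁻¹ * (a * x * a)) * a = a * (x : H)⁻¹ * a * x * (a * a) := by group
    _ = _ := by rw [ha]; group

variable {H V : Type*} [Group H] [AddCommGroup V] [DistribMulAction H V]

theorem smul_eq_of_sq {r : H} (hr : Odd (orderOf r)) {v : V} (h : r • r • v = v) : r • v = v := by
  obtain ⟨k, hk⟩ := hr
  have h1 : ∀ j : ℕ, (r * r) ^ j • v = v := by
    intro j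
    induction j with
    | zero => simp
    | succ j ih => rw [pow_succ, mul_smul, mul_smul, h, ih]
  have h2 : r * (r * r) ^ k = 1 := by
    rw [← pow_two, ← pow_mul, ← pow_succ', ← hk, pow_orderOf_eq_one]
  have h3 := h1 k
  calc r • v = r • (r * r) ^ k • v := by rw [h3]
    _ = v := by rw [← mul_smul, h2, one_smul]

namespace Hyp

section two

variable (hy : Hyp H V) (h2 : ∀ v : V, v + v = 0)
include hy h2

theorem four {s t : H} (hs : s * s = 1) (hst : s * t = t * s) (p : V) :
    p + s • p + t • p + s • t • p = 0 := by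
  have hc : ∀ w : V, t • s • w = s • t • w := fun w => by rw [← mul_smul, ← hst, mul_smul]
  have hss : ∀ w : V, s • s • w = w := fun w => by rw [← mul_smul, hs, one_smul]
  refine hy.par (p + s • p) (p + t • p) _ ⟨t, ?_⟩ ⟨s, ?_⟩ ⟨s, ?_⟩
  · rw [smul_add, hc]
    linear_combination (norm := abel) - h2 p - h2 (s • p)
  · rw [smul_add]
    linear_combination (norm := abel) - h2 p - h2 (t • p)
  · simp only [smul_add, hss]
    linear_combination (norm := abel) - h2 p - h2 (t • p)

theorem sq_of_four {g : H} (hg : g ^ 4 = 1) : g * g = 1 := by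
  have h4 : ∀ w : V, g • g • g • g • w = w := fun w => by
    rw [← mul_smul, ← mul_smul, ← mul_smul]
    have : g * g * g * g = g ^ 4 := by simp only [pow_succ, pow_zero, one_mul]
    rw [this, hg, one_smul]
  have h1 : ∀ p : V, p + g • p + g • g • p + g • g • g • p = 0 := by
    intro p
    refine hy.par (p + g • p) (p + g • g • p) _ ⟨g * g, ?_⟩ ⟨g, ?_⟩ ⟨g * g, ?_⟩
    · simp only [mul_smul, smul_add]
      linear_combination (norm := abel) - h2 p - h2 (g • p)
    · simp only [smul_add]
      linear_combination (norm := abel) - h2 p - h2 (g • g • p)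
    · simp only [mul_smul, smul_add, h4]
      linear_combination (norm := abel) - h2 p - h2 (g • p)
  refine hy.faith _ fun a => ?_
  have h3 : a + g • g • a = 0 := by
    refine hy.par a (a + g • a) _ ⟨g * g, ?_⟩ ⟨g, ?_⟩ ⟨g * g, ?_⟩
    · simp only [mul_smul]
      linear_combination (norm := abel) - h2 a
    · simp only [smul_add]
      linear_combination (norm := abel) - h2 a
    · simp only [mul_smul, smul_add]
      linear_combination (norm := abel) h1 a - h2 a - h2 a - h2 (g • a) + h2 (g • g • a)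
        - h2 (g • g • a)
  rw [mul_smul]
  linear_combination (norm := abel) h3 - h2 a

theorem sq_of_pow {g : H} {k : ℕ} (hg : g ^ 2 ^ k = 1) : g * g = 1 := by
  induction k generalizing g with
  | zero => simp_all
  | succ k ih =>
    refine hy.sq_of_four h2 ?_
    have h1 : (g * g) * (g * g) = 1 := ih (by rw [← pow_two, ← pow_mul, ← pow_succ', hg])
    rw [← h1]
    simp only [pow_succ, pow_zero, one_mul, mul_assoc]

variable [Finite H] (S : Sylow 2 H)

omit [Finite H] in
theorem syl_sq {s : H} (hs : s ∈ (S : Subgroup H)) : s * s = 1 := by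
  obtain ⟨k, hk⟩ := S.2 ⟨s, hs⟩
  exact hy.sq_of_pow h2 (k := k) (congrArg Subtype.val hk)

omit [Finite H] in
theorem syl_comm {s t : H} (hs : s ∈ (S : Subgroup H)) (ht : t ∈ (S : Subgroup H)) :
    s * t = t * s := by
  have h1 := hy.syl_sq h2 S (mul_mem hs ht)
  have h3 := hy.syl_sq h2 S hs
  have h4 := hy.syl_sq h2 S ht
  calc s * t = (s * t)⁻¹ := (inv_eq_of_mul_eq_one_right h1).symm
    _ = t * s := by rw [mul_inv_rev, inv_eq_of_mul_eq_one_right h3, inv_eq_of_mul_eq_one_right h4]

omit [Finite H] in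
/-- The Sylow `2`-subgroup acts quadratically. -/
theorem quad {s t : H} (hs : s ∈ (S : Subgroup H)) (ht : t ∈ (S : Subgroup H)) (v : V) :
    s • (v + t • v) = v + t • v := by
  have h1 := hy.four h2 (hy.syl_sq h2 S hs) (hy.syl_comm h2 S hs ht) v
  rw [smul_add]
  linear_combination (norm := abel) h1 - h2 v - h2 (t • v)

omit h2 in
/-- Conjugate fixed points of the Sylow `2`-subgroup coincide. -/
theorem fix_conj {w : V} (hw : ∀ s ∈ (S : Subgroup H), s • w = w) {g : H}
    (hg : ∀ s ∈ (S : Subgroup H), s • g • w = g • w) : g • w = w := by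
  by_contra hne
  obtain ⟨h, h1, h3⟩ := hy.sw g w
  let K : Subgroup H := MulAction.stabilizer H w ⊓ MulAction.stabilizer H (g • w)
  let L : Subgroup H :=
    { carrier := {k | (k • w = w ∧ k • g • w = g • w) ∨ (k • w = g • w ∧ k • g • w = w)}
      one_mem' := Or.inl ⟨one_smul _ _, one_smul _ _⟩
      mul_mem' := by
        rintro a b (⟨a1, a2⟩ | ⟨a1, a2⟩) (⟨b1, b2⟩ | ⟨b1, b2⟩)
        · exact Or.inl ⟨by rw [mul_smul, b1, a1], by rw [mul_smul, b2, a2]⟩
        · exact Or.inr ⟨by rw [mul_smul, b1, a2], by rw [mul_smul, b2, a1]⟩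
        · exact Or.inr ⟨by rw [mul_smul, b1, a1], by rw [mul_smul, b2, a2]⟩
        · exact Or.inl ⟨by rw [mul_smul, b1, a2], by rw [mul_smul, b2, a1]⟩
      inv_mem' := by
        rintro a (⟨a1, a2⟩ | ⟨a1, a2⟩)
        · exact Or.inl ⟨inv_smul_eq_iff.mpr a1.symm, inv_smul_eq_iff.mpr a2.symm⟩
        · exact Or.inr ⟨inv_smul_eq_iff.mpr a2.symm, inv_smul_eq_iff.mpr a1.symm⟩ }
  have hKL : K ≤ L := fun k hk => Or.inl hk
  have hSK : (S : Subgroup H) ≤ K := fun s hs => ⟨hw s hs, hg s hs⟩
  have hidx : K.relIndex L = 2 := by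
    rw [relIndex, index_eq_two_iff]
    refine ⟨⟨h, Or.inr ⟨h1, h3⟩⟩, fun b => ?_⟩
    simp only [mem_subgroupOf, coe_mul, K, mem_inf, MulAction.mem_stabilizer_iff, mul_smul, h1, h3]
    rcases b.2 with ⟨b1, b2⟩ | ⟨b1, b2⟩
    · exact Or.inr ⟨⟨b1, b2⟩, fun e => hne (b2.symm.trans e.1)⟩
    · exact Or.inl ⟨⟨b2, b1⟩, fun e => hne (b1.symm.trans e.1)⟩
  refine S.not_dvd_index ?_
  refine Dvd.dvd.trans ?_ (index_dvd_of_le hSK)
  rw [← relIndex_mul_index hKL, hidx]
  exact dvd_mul_right _ _

theorem norm_fix {r : H} (hr : r ∈ normalizer ((S : Subgroup H) : Set H)) {w : V}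
    (hw : ∀ s ∈ (S : Subgroup H), s • w = w) : r • w = w := by
  refine hy.fix_conj S hw fun s hs => ?_
  have h1 : r⁻¹ * s * r ∈ (S : Subgroup H) := by
    have := (mem_normalizer_iff.mp (inv_mem hr) s).mp hs
    simpa using this
  have h3 := hw _ h1
  rw [mul_smul, mul_smul, inv_smul_eq_iff] at h3
  exact h3

theorem norm_le_cent : normalizer ((S : Subgroup H) : Set H) ≤
    centralizer ((S : Subgroup H) : Set H) := by
  intro r hr
  have hc : ∀ s ∈ (S : Subgroup H), r⁻¹ * s * r ∈ (S : Subgroup H) := fun s hs => by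
    have := (mem_normalizer_iff.mp (inv_mem hr) s).mp hs
    simpa using this
  have hc' : ∀ s ∈ (S : Subgroup H), r * s * r⁻¹ ∈ (S : Subgroup H) := fun s hs =>
    (mem_normalizer_iff.mp hr s).mp hs
  -- `[r x, s] = [x, r⁻¹ s r]`
  have key : ∀ s ∈ (S : Subgroup H), ∀ x : V,
      s • r • x = r • x + (x + (r⁻¹ * s * r) • x) := by
    intro s hs x
    have h1 := hy.norm_fix h2 S hr (w := x + (r⁻¹ * s * r) • x)
      (fun s' hs' => hy.quad h2 S hs' (hc s hs) x)
    rw [← h1, smul_add, mul_smul, mul_smul, smul_inv_smul]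
    linear_combination (norm := abel) - h2 (r • x)
  intro s hs
  have hs1 : s * (r⁻¹ * s * r) ∈ (S : Subgroup H) := mul_mem hs (hc s hs)
  have h3 : s * (r⁻¹ * s * r) = 1 := by
    refine hy.faith _ fun x => ?_
    have h4 : x + (s * (r⁻¹ * s * r)) • x = 0 := by
      refine hy.par x (r • x) _ ⟨s * (r⁻¹ * s * r), ?_⟩ ⟨r * (s * (r⁻¹ * s * r)) * r⁻¹, ?_⟩
        ⟨s, ?_⟩
      · linear_combination (norm := abel) - h2 x
      · rw [key _ (hc' _ hs1)]
        congr 3
        group
      · rw [smul_add, key s hs, mul_smul s]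
        have h5 := hy.quad h2 S hs (hc s hs) x
        rw [smul_add] at h5
        linear_combination (norm := abel) h5 - h2 (s • (r⁻¹ * s * r) • x)
          + h2 ((r⁻¹ * s * r) • x)
    linear_combination (norm := abel) h4 - h2 x
  have h5 : r⁻¹ * s * r = s := by
    rw [← inv_eq_of_mul_eq_one_right h3, inv_eq_of_mul_eq_one_right (hy.syl_sq h2 S hs)]
  calc s * r = r * (r⁻¹ * s * r) := by group
    _ = r * s := by rw [h5]

variable {S} {O : Subgroup H} (hO : ∀ r ∈ O, Odd (orderOf r))
include hO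

/-- No element of odd order centralises the Sylow `2`-subgroup. -/
theorem cent_eq_one {r : H} (hr : r ∈ O) (hc : ∀ s ∈ (S : Subgroup H), s * r = r * s) : r = 1 := by
  have hn : r ∈ normalizer ((S : Subgroup H) : Set H) :=
    centralizer_le_normalizer _ (fun s hs => hc s hs)
  have hz : ∀ v : V, (∀ s ∈ (S : Subgroup H), s • (v + r • v) = v + r • v) → v + r • v = 0 := by
    intro v hv
    have h1 := hy.norm_fix h2 S hn hv
    rw [smul_add] at h1
    have h3 : r • r • v = v := by linear_combination (norm := abel) h1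
    rw [smul_eq_of_sq (hO r hr) h3, h2]
  refine hy.faith _ fun v => ?_
  have h4 : v + r • v = 0 := by
    refine hz v fun s hs => ?_
    have h5 := hz (v + s • v) fun s' hs' => by
      rw [smul_add s', hy.quad h2 S hs' hs, ← mul_smul, hc s' hs', mul_smul, hy.quad h2 S hs' hs]
    rw [smul_add, ← mul_smul r s, ← hc s hs, mul_smul] at h5
    rw [smul_add]
    linear_combination (norm := abel) h5 - h2 v - h2 (r • v)
  linear_combination (norm := abel) h4 - h2 v

omit hy [Finite H] in
theorem eq_zero_of_fix {r : H} (hr : r ∈ O) {v : V} (h : r • (v + r • v) = v + r • v) :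
    v + r • v = 0 := by
  rw [smul_add] at h
  have h3 : r • r • v = v := by linear_combination (norm := abel) h
  rw [smul_eq_of_sq (hO r hr) h3, h2]

omit [Finite H] in
/-- If `t` inverts `r` and `s` centralises `r` then `s` centralises `[V, r]`. -/
theorem cent_comm {r s t : H} (hr : r ∈ O) (hs : s ∈ (S : Subgroup H)) (ht : t ∈ (S : Subgroup H))
    (hsr : s * r = r * s) (htr : t * r = r⁻¹ * t) (v : V) : s • (v + r • v) = v + r • v := by
  have hc : ∀ w : V, s • r • w = r • s • w := fun w => by rw [← mul_smul, hsr, mul_smul]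
  have h1 := hy.quad h2 S ht hs (v + r • v)
  have h3 := hy.quad h2 S ht hs (r • (v + r • v))
  rw [hc, ← smul_add r, ← mul_smul, htr, mul_smul, h1, inv_smul_eq_iff] at h3
  have h4 := smul_eq_of_sq (hO r hr) h3.symm
  have h5 : (v + r • v) + s • (v + r • v) = (v + s • v) + r • (v + s • v) := by
    rw [smul_add, smul_add, hc]; abel
  rw [h5] at h4
  have h6 := eq_zero_of_fix h2 hO hr h4
  rw [← h5] at h6
  linear_combination (norm := abel) h6 - h2 (v + r • v)

omit [Finite H] in
theorem cent_comm' {r s t : H} (hr : r ∈ O) (hs : s ∈ (S : Subgroup H)) (ht : t ∈ (S : Subgroup H))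
    (hsr : s * r = r * s) (htr : t * r = r⁻¹ * t) (v : V) : r • (v + s • v) = v + s • v := by
  have h1 := hy.cent_comm h2 hO hr hs ht hsr htr v
  rw [smul_add, ← mul_smul, hsr, mul_smul] at h1
  rw [smul_add]
  linear_combination (norm := abel) h1 - h2 (s • v) + h2 (r • v)

end two

end Hyp

end Cfsg.Lib.BinAff
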