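import Cfsg.Agent.Lib.Perm.Bin1

/-!
# Binary affine groups, part 2: characteristic two, the dihedral configuration
-/

set_option autoImplicit false

namespace Cfsg.Lib.BinAff

open Subgroup

section signs

variable {H : Type*} [Group H] {a b r : H}

theorem inv_neg (ha : a * r = r⁻¹ * a) : a * r⁻¹ = r * a := by
  calc a * r⁻¹ = r * (r⁻¹ * a) * r⁻¹ := by group
    _ = r * a := by rw [← ha]; group

theorem inv_pos (ha : a * r = r * a) : a * r⁻¹ = r⁻¹ * a := by
  calc a * r⁻¹ = r⁻¹ * (r * a) * r⁻¹ := by group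
    _ = r⁻¹ * a := by rw [← ha]; group

theorem sgn_pp (ha : a * r = r * a) (hb : b * r = r * b) : a * b * r = r * (a * b) := by
  rw [mul_assoc, hb, ← mul_assoc, ha, mul_assoc]

theorem sgn_nn (ha : a * r = r⁻¹ * a) (hb : b * r = r⁻¹ * b) : a * b * r = r * (a * b) := by
  rw [mul_assoc, hb, ← mul_assoc, inv_neg ha, mul_assoc]

theorem sgn_pn (ha : a * r = r * a) (hb : b * r = r⁻¹ * b) : a * b * r = r⁻¹ * (a * b) := by
  rw [mul_assoc, hb, ← mul_assoc, inv_pos ha, mul_assoc]

theorem sgn_np (ha : a * r = r⁻¹ * a) (hb : b * r = r * b) : a * b * r = r⁻¹ * (a * b) := by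
  rw [mul_assoc, hb, ← mul_assoc, ha, mul_assoc]

theorem cancel_comm (ha : a * r = r * a) (hab : b * a * r = r * (b * a)) : b * r = r * b := by
  rw [mul_assoc, ha, ← mul_assoc, ← mul_assoc] at hab
  exact mul_right_cancel hab

end signs

variable {H V : Type*} [Group H] [AddCommGroup V] [DistribMulAction H V]

namespace Hyp

variable (hy : Hyp H V) (h2 : ∀ v : V, v + v = 0) [Finite H] {S : Sylow 2 H} {O : Subgroup H}
  (hO : ∀ r ∈ O, Odd (orderOf r))
include hy h2 hO

theorem exists_inv {r : H} (hr : r ∈ O) (h1 : r ≠ 1)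
    (hs : ∀ e ∈ (S : Subgroup H), e * r = r * e ∨ e * r = r⁻¹ * e) :
    ∃ t ∈ (S : Subgroup H), t * r = r⁻¹ * t := by
  by_contra hc
  push Not at hc
  exact h1 (hy.cent_eq_one h2 hO hr fun s h => (hs s h).resolve_right (hc s h))

theorem sg_comm {r₁ r₂ : H} (hr₁ : r₁ ∈ O) (hr₂ : r₂ ∈ O)
    (hs₁ : ∀ e ∈ (S : Subgroup H), e * r₁ = r₁ * e ∨ e * r₁ = r₁⁻¹ * e)
    (hs₂ : ∀ e ∈ (S : Subgroup H), e * r₂ = r₂ * e ∨ e * r₂ = r₂⁻¹ * e) : r₁ * r₂ = r₂ * r₁ := by
  by_cases e1 : r₁ = 1
  · simp [e1]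
  by_cases e2 : r₂ = 1
  · simp [e2]
  obtain ⟨s, hs, n1, n2⟩ : ∃ s ∈ (S : Subgroup H), s * r₁ = r₁⁻¹ * s ∧ s * r₂ = r₂⁻¹ * s := by
    obtain ⟨t₁, ht₁, a1⟩ := hy.exists_inv h2 hO hr₁ e1 hs₁
    obtain ⟨t₂, ht₂, a2⟩ := hy.exists_inv h2 hO hr₂ e2 hs₂
    rcases hs₂ t₁ ht₁ with b1 | b1
    · rcases hs₁ t₂ ht₂ with b2 | b2
      · exact ⟨t₁ * t₂, mul_mem ht₁ ht₂, sgn_np a1 b2, sgn_pn b1 a2⟩
      · exact ⟨t₂, ht₂, b2, a2⟩
    · exact ⟨t₁, ht₁, a1, b1⟩
  let M : Subgroup H := closure {r₁, r₂}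
  have m1 : r₁ ∈ M := subset_closure (by simp)
  have m2 : r₂ ∈ M := subset_closure (by simp)
  have hMO : M ≤ O := (closure_le _).mpr (by rintro _ (rfl | rfl) <;> assumption)
  have hconj : ∀ {e r : H}, e * e = 1 → e * r * e = e * r * e⁻¹ := fun h => by
    rw [inv_eq_of_mul_eq_one_right h]
  have hMn : ∀ e ∈ (S : Subgroup H), ∀ m ∈ M, e * m * e ∈ M := by
    intro e he m hm
    have hee := hy.syl_sq h2 S he
    rw [hconj hee]
    have : M ≤ M.comap (MulAut.conj e).toMonoidHom := (closure_le _).mpr (by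
      rintro _ (rfl | rfl)
      · change e * _ * e⁻¹ ∈ M
        rcases hs₁ e he with h | h <;> rw [h, mul_inv_cancel_right]
        exacts [m1, inv_mem m1]
      · change e * _ * e⁻¹ ∈ M
        rcases hs₂ e he with h | h <;> rw [h, mul_inv_cancel_right]
        exacts [m2, inv_mem m2])
    exact this hm
  have hcen : ∀ e : H, e * r₁ = r₁ * e → e * r₂ = r₂ * e → ∀ m ∈ M, e * m = m * e := by
    intro e a1 a2 m hm
    have : M ≤ centralizer {e} := (closure_le _).mpr (by
      rintro _ (rfl | rfl)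
      · exact mem_centralizer_singleton_iff.mpr a1.symm
      · exact mem_centralizer_singleton_iff.mpr a2.symm)
    exact (mem_centralizer_singleton_iff.mp (this hm)).symm
  have hss := hy.syl_sq h2 S hs
  have hswap : ∀ {e x : H}, e * e = 1 → e * x * e = x → e * x = x * e := fun {e x} h h' => by
    calc e * x = e * x * e * e := by rw [mul_assoc, h, mul_one]
      _ = x * e := by rw [h']
  have hfpf : ∀ l ∈ M, s * l * s = l → l = 1 := by
    intro l hl hsl
    have hsl' := hswap hss hsl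
    by_cases hmix : ∃ e ∈ (S : Subgroup H), e * r₁ = r₁ * e ∧ e * r₂ = r₂⁻¹ * e
    swap
    · refine hy.cent_eq_one h2 hO (S := S) (hMO hl) fun e he => ?_
      rcases hs₁ e he with a1 | a1 <;> rcases hs₂ e he with a2 | a2
      · exact hcen e a1 a2 l hl
      · exact absurd ⟨e, he, a1, a2⟩ hmix
      · exact absurd ⟨e * s, mul_mem he hs, sgn_nn a1 n1, sgn_pn a2 n2⟩ hmix
      · exact cancel_comm hsl' (hcen _ (sgn_nn a1 n1) (sgn_nn a2 n2) l hl)
    obtain ⟨e, he, p1, q2⟩ := hmix
    have hee := hy.syl_sq h2 S he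
    have hinv : e * l * e = l⁻¹ := by
      refine inv_of_fpf (X := M ⊓ centralizer {s}) hee (fun x hx => ⟨hMn e he x hx.1, ?_⟩)
        (fun x hx hex => ?_) l ⟨hl, mem_centralizer_singleton_iff.mpr hsl'.symm⟩
      · have h3 := mem_centralizer_singleton_iff.mp hx.2
        have h4 := hy.syl_comm h2 S he hs
        refine mem_centralizer_singleton_iff.mpr ?_
        calc e * x * e * s = e * (x * s) * e := by rw [mul_assoc, h4]; group
          _ = s * (e * x * e) := by rw [h3, ← mul_assoc, h4]; group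
      · have h3 := (mem_centralizer_singleton_iff.mp hx.2).symm
        have h4 := hswap hee hex
        refine hy.cent_eq_one h2 hO (S := S) (hMO hx.1) fun f hf => ?_
        rcases hs₁ f hf with a1 | a1 <;> rcases hs₂ f hf with a2 | a2
        · exact hcen f a1 a2 x hx.1
        · exact cancel_comm h4 (hcen _ (sgn_pp a1 p1) (sgn_nn a2 q2) x hx.1)
        · exact cancel_comm h4 (cancel_comm h3
            (hcen _ (sgn_nn (sgn_np a1 p1) n1) (sgn_nn (sgn_pn a2 q2) n2) x hx.1))
        · exact cancel_comm h3 (hcen _ (sgn_nn a1 n1) (sgn_nn a2 n2) x hx.1)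
    have hel : e * l = l⁻¹ * e := by
      rw [← hinv, mul_assoc, hee, mul_one]
    have hc : ∀ w : V, e • l • w = l⁻¹ • e • w := fun w => by rw [← mul_smul, hel, mul_smul]
    -- `e` centralises `[V, l]`
    have hfix : ∀ v : V, e • (v + l • v) = v + l • v := by
      intro v
      have a0 := hy.cent_comm h2 hO (hMO hl) hs he hsl' hel v
      have a1 := hy.cent_comm' h2 hO hr₁ he hs p1 n1 (v + l • v)
      have a2 := hy.cent_comm' h2 hO hr₂ (mul_mem he hs) hs (sgn_nn q2 n2) n2 (v + l • v)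
      rw [mul_smul, a0] at a2
      have a3 : M ≤ MulAction.stabilizer H (v + l • v + e • (v + l • v)) :=
        (closure_le _).mpr (by rintro _ (rfl | rfl) <;> assumption)
      have a4 : l • (v + l • v + e • (v + l • v)) = v + l • v + e • (v + l • v) := a3 hl
      have a5 : v + l • v + e • (v + l • v) = (v + l⁻¹ • e • v) + l • (v + l⁻¹ • e • v) := by
        rw [smul_add, smul_add, hc, smul_inv_smul]; abel
      rw [a5] at a4
      have a6 := eq_zero_of_fix h2 hO (hMO hl) a4
      rw [← a5] at a6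
      linear_combination (norm := abel) a6 - h2 (v + l • v)
    refine hy.faith _ fun v => ?_
    have b1 := hfix (l • v)
    rw [← smul_add l, hc, hfix, inv_smul_eq_iff] at b1
    have b2 := eq_zero_of_fix h2 hO (hMO hl) (smul_eq_of_sq (hO l (hMO hl)) b1.symm)
    linear_combination (norm := abel) b2 - h2 v
  have hinv := inv_of_fpf (X := M) hss (hMn s hs) hfpf
  have c1 := hinv _ (mul_mem m1 m2)
  have c2 : s * (r₁ * r₂) * s = (s * r₁ * s) * (s * r₂ * s) := by
    calc s * (r₁ * r₂) * s = s * r₁ * (s * s) * r₂ * s := by rw [hss]; group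
      _ = _ := by group
  rw [c2, hinv _ m1, hinv _ m2, ← mul_inv_rev] at c1
  exact (inv_injective c1).symm

omit hO in
/-- Characteristic two. -/
theorem two [Nontrivial V] : (∀ h : H, h = 1) ∨ Dih H V := by
  classical
  have : Fact (Nat.Prime 2) := ⟨Nat.prime_two⟩
  obtain ⟨S⟩ : Nonempty (Sylow 2 H) := inferInstance
  have hN := hy.norm_le_cent h2 S
  let O : Subgroup H := (MonoidHom.transferSylow S hN).ker
  have hcomp : IsComplement' O S := MonoidHom.ker_transferSylow_isComplement' S hN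
  have hodd : ¬ 2 ∣ Nat.card O := MonoidHom.not_dvd_card_ker_transferSylow S hN
  have hO : ∀ r ∈ O, Odd (orderOf r) := fun r hr => by
    rw [← Nat.not_even_iff_odd, even_iff_two_dvd]
    exact fun h => hodd (h.trans (orderOf_dvd_natCard O hr))
  have hdec : ∀ h : H, ∃ o ∈ O, ∃ s ∈ (S : Subgroup H), h = o * s := fun h => by
    obtain ⟨⟨o, s⟩, e⟩ := hcomp.existsUnique h |>.exists
    exact ⟨o, o.2, s, s.2, e.symm⟩
  by_cases hO1 : O = ⊥
  · left
    have hS : ∀ h : H, h ∈ (S : Subgroup H) := fun h => by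
      obtain ⟨o, ho, s, hs, rfl⟩ := hdec h
      rw [hO1, mem_bot] at ho
      rw [ho, one_mul]; exact hs
    let W : AddSubgroup V :=
      { carrier := {w | ∀ h : H, h • w = w}
        zero_mem' := fun h => smul_zero h
        add_mem' := fun ha hb h => by rw [smul_add, ha h, hb h]
        neg_mem' := fun ha h => by rw [smul_neg, ha h] }
    rcases hy.irr W (fun h v hv => by rw [hv h]; exact hv) with hW | hW
    · intro h
      refine hy.faith h fun v => ?_
      have h3 : v + h • v ∈ W := fun k => hy.quad h2 S (hS k) (hS h) v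
      rw [hW, AddSubgroup.mem_bot] at h3
      linear_combination (norm := abel) h3 - h2 v
    · exact fun h => hy.faith h fun v => (hW.ge (AddSubgroup.mem_top v) : ∀ h : H, h • v = v) h
  right
  have hScomm : IsMulCommutative (S : Subgroup H) :=
    ⟨⟨fun a b => Subtype.ext (hy.syl_comm h2 S a.2 b.2)⟩⟩
  have hcop : (Nat.card (S : Subgroup H)).Coprime (Nat.card O) := by
    obtain ⟨k, hk⟩ := IsPGroup.iff_card.mp S.2
    rw [hk]
    exact Nat.Coprime.pow_left _ ((Nat.Prime.coprime_iff_not_dvd Nat.prime_two).mpr hodd)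
  have hgen : ∀ L : Subgroup H, (∀ r ∈ O,
      (∀ e ∈ (S : Subgroup H), e * r = r * e ∨ e * r = r⁻¹ * e) → r ∈ L) → O ≤ L := by
    intro L hL
    refine Coprime.le_of_forall_cocyclic hScomm le_normalizer_of_normal hcop ?_
    rintro B hB ⟨a, ha, hBa⟩ r hr
    have haa := hy.syl_sq h2 S ha
    have hinv : a * r * a = r⁻¹ := by
      refine inv_of_fpf (X := O ⊓ centralizer (B : Set H)) haa (fun x hx => ⟨?_, fun b hb => ?_⟩)
        (fun x hx hax => ?_) r hr
      · have := (inferInstance : O.Normal).conj_mem x hx.1 a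
        rwa [inv_eq_of_mul_eq_one_right haa] at this
      · have h4 := hy.syl_comm h2 S (hB hb) ha
        calc b * (a * x * a) = a * (b * x) * a := by rw [← mul_assoc, ← mul_assoc, h4]; group
          _ = a * x * a * b := by rw [hx.2 b hb, mul_assoc, mul_assoc, h4]; group
      · refine hy.cent_eq_one h2 hO hx.1 (S := S) fun s hs => ?_
        have h4 : (S : Subgroup H) ≤ centralizer {x} := by
          rw [← hBa, sup_le_iff, zpowers_le]
          refine ⟨fun b hb => mem_centralizer_singleton_iff.mpr (hx.2 b hb),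
            mem_centralizer_singleton_iff.mpr ?_⟩
          calc a * x = a * x * a * a := by rw [mul_assoc, haa, mul_one]
            _ = x * a := by rw [hax]
        exact mem_centralizer_singleton_iff.mp (h4 hs)
    have hinv' : a * r = r⁻¹ * a := by rw [← hinv, mul_assoc, haa, mul_one]
    refine hL r hr.1 fun e he => ?_
    let T : Subgroup H :=
      { carrier := {e | e * r = r * e ∨ e * r = r⁻¹ * e}
        one_mem' := Or.inl (by simp)
        mul_mem' := by
          rintro x y (hx | hx) (hy | hy)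
          exacts [Or.inl (sgn_pp hx hy), Or.inr (sgn_pn hx hy), Or.inr (sgn_np hx hy),
            Or.inl (sgn_nn hx hy)]
        inv_mem' := by
          rintro x (hx | hx)
          · exact Or.inl (inv_pos hx.symm).symm
          · refine Or.inr ?_
            have h5 := inv_neg hx
            calc x⁻¹ * r = x⁻¹ * (r * x) * x⁻¹ := by group
              _ = r⁻¹ * x⁻¹ := by rw [← h5]; group }
    have h6 : (S : Subgroup H) ≤ T := by
      rw [← hBa, sup_le_iff, zpowers_le]
      exact ⟨fun b hb => Or.inl (hr.2 b hb), Or.inr hinv'⟩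
    exact h6 he
  obtain ⟨r, hr, hrs, hr1⟩ : ∃ r ∈ O,
      (∀ e ∈ (S : Subgroup H), e * r = r * e ∨ e * r = r⁻¹ * e) ∧ r ≠ 1 := by
    by_contra hc
    push Not at hc
    exact hO1 (le_bot_iff.mp (hgen ⊥ fun r hr hs => mem_bot.mpr (hc r hr hs)))
  have hOr : ∀ o ∈ O, o * r = r * o := fun o ho =>
    mem_centralizer_singleton_iff.mp (hgen (centralizer {r})
      (fun x hx hs => mem_centralizer_singleton_iff.mpr (hy.sg_comm h2 hO hx hr hs hrs)) ho)
  obtain ⟨t, ht, htr⟩ := hy.exists_inv h2 hO hr hr1 hrs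
  have htt := hy.syl_sq h2 S ht
  -- `[V, r] = V`
  have hall : ∀ w : V, ∃ v : V, w = v + r • v := by
    let Y : AddSubgroup V :=
      { carrier := {w | ∃ v : V, w = v + r • v}
        zero_mem' := ⟨0, by simp⟩
        add_mem' := by
          rintro _ _ ⟨a, rfl⟩ ⟨b, rfl⟩
          exact ⟨a + b, by rw [smul_add]; abel⟩
        neg_mem' := by
          rintro _ ⟨a, rfl⟩
          exact ⟨-a, by rw [smul_neg]; abel⟩ }
    rcases hy.irr Y (by
      rintro h _ ⟨v, rfl⟩
      obtain ⟨o, ho, s, hs, rfl⟩ := hdec h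
      rcases hrs s hs with h3 | h3
      · refine ⟨(o * s) • v, ?_⟩
        rw [smul_add, ← mul_smul, sgn_pp (hOr o ho) h3, mul_smul r]
      · refine ⟨r⁻¹ • (o * s) • v, ?_⟩
        rw [smul_add, ← mul_smul, sgn_pn (hOr o ho) h3, mul_smul r⁻¹, smul_inv_smul, add_comm])
      with hY | hY
    · refine absurd (hy.faith r fun v => ?_) hr1
      have h3 : v + r • v ∈ Y := ⟨v, rfl⟩
      rw [hY, AddSubgroup.mem_bot] at h3
      linear_combination (norm := abel) h3 - h2 v
    · exact fun w => hY.ge (AddSubgroup.mem_top w)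
  have hS1 : ∀ s ∈ (S : Subgroup H), s * r = r * s → s = 1 := fun s hs h =>
    hy.faith s fun w => by
      obtain ⟨v, rfl⟩ := hall w
      exact hy.cent_comm h2 hO hr hs ht h htr v
  have hS2 : ∀ s ∈ (S : Subgroup H), s = 1 ∨ s = t := fun s hs => by
    rcases hrs s hs with h | h
    · exact Or.inl (hS1 s hs h)
    · right
      have h3 := hS1 _ (mul_mem hs ht) (sgn_nn h htr)
      rw [← inv_eq_of_mul_eq_one_left h3, inv_eq_of_mul_eq_one_right htt]
  have hsq : ∀ o ∈ O, o * o = 1 → o = 1 := fun o ho h => hy.faith o fun v =>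
    smul_eq_of_sq (hO o ho) (by rw [← mul_smul, h, one_smul])
  have htO : t ∉ O := fun h => by
    rw [hsq t h htt, one_mul, mul_one] at htr
    exact hr1 (hsq r hr (by nth_rewrite 1 [htr]; simp))
  have hinv : ∀ o ∈ O, t * o * t = o⁻¹ := by
    refine inv_of_fpf htt (fun x hx => ?_) fun x hx h => ?_
    · have := (inferInstance : O.Normal).conj_mem x hx t
      rwa [inv_eq_of_mul_eq_one_right htt] at this
    · refine hy.cent_eq_one h2 hO hx (S := S) fun s hs => ?_
      rcases hS2 s hs with rfl | rfl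
      · simp
      · calc s * x = s * x * s * s := by rw [mul_assoc, htt, mul_one]
          _ = x * s := by rw [h]
  have hcos : ∀ h : H, h ∈ O ∨ h * t ∈ O := fun h => by
    obtain ⟨o, ho, s, hs, rfl⟩ := hdec h
    rcases hS2 s hs with rfl | rfl
    · exact Or.inl (by simpa using ho)
    · exact Or.inr (by rwa [mul_assoc, htt, mul_one])
  refine ⟨O, t, htO, htt, hinv, hcos, fun v hv => ?_⟩
  have hrv : r • v ≠ v := by
    intro h
    obtain ⟨w, rfl⟩ := hall v
    exact hv (eq_zero_of_fix h2 hO hr h)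
  obtain ⟨h, h3, h4⟩ := hy.sw r v
  have hh : h ∉ O := fun hh => by
    have h5 := smul_eq_of_sq (hO h hh) (v := v) (by rw [h3, h4])
    exact hrv (h3.symm.trans h5)
  have hk : h⁻¹ * r ∉ O := fun hk => hh (by simpa using O.inv_mem (O.mul_mem hk (O.inv_mem hr)))
  refine ⟨h⁻¹ * r * t, (hcos _).resolve_left hk, ?_⟩
  rw [mul_assoc, htt, mul_one, mul_smul, inv_smul_eq_iff, h3]

end Hyp

end Cfsg.Lib.BinAff
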