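import Cfsg.Agent.Lib.Perm.Bin1

/-!
# Binary affine groups, part 3: odd characteristic, the invariant anisotropic form
-/

set_option autoImplicit false

namespace Cfsg.Lib.BinAff

open Subgroup MulAction

variable {H V : Type*} [Group H] [AddCommGroup V] [DistribMulAction H V]

/-- The sum over the stabiliser of `x`. -/
noncomputable def avg (H : Type*) [Group H] [DistribMulAction H V] [Finite H] (x : V) : V →+ V :=
  letI := Fintype.ofFinite (stabilizer H x)
  ∑ k : stabilizer H x, DistribSMul.toAddMonoidHom V (k : H)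

section avg

variable [Finite H] (x : V)

theorem avg_apply (v : V) : avg H x v =
    (letI := Fintype.ofFinite (stabilizer H x); ∑ k : stabilizer H x, (k : H) • v) := by
  simp [avg, AddMonoidHom.finset_sum_apply]

theorem smul_avg {k : H} (hk : k • x = x) (v : V) : k • avg H x v = avg H x v := by
  let _ := Fintype.ofFinite (stabilizer H x)
  rw [avg_apply, Finset.smul_sum]
  refine Fintype.sum_equiv (Equiv.mulLeft (⟨k, hk⟩ : stabilizer H x)) _ _ fun j => ?_
  simp [mul_smul]

theorem avg_smul {k : H} (hk : k • x = x) (v : V) : avg H x (k • v) = avg H x v := by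
  let _ := Fintype.ofFinite (stabilizer H x)
  rw [avg_apply, avg_apply]
  refine Fintype.sum_equiv (Equiv.mulRight (⟨k, hk⟩ : stabilizer H x)) _ _ fun j => ?_
  simp [mul_smul]

theorem avg_fix {v : V} (hv : ∀ k : H, k • x = x → k • v = v) :
    avg H x v = Nat.card (stabilizer H x) • v := by
  let _ := Fintype.ofFinite (stabilizer H x)
  rw [avg_apply, Finset.sum_congr rfl fun (k : stabilizer H x) _ => hv k k.2,
    Finset.sum_const, Finset.card_univ, Nat.card_eq_fintype_card]

theorem avg_lin {F : Type*} [Field F] [Module F V] [SMulCommClass H F V] (c : F) (v : V) :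
    avg H x (c • v) = c • avg H x v := by
  let _ := Fintype.ofFinite (stabilizer H x)
  rw [avg_apply, avg_apply, Finset.smul_sum]
  exact Finset.sum_congr rfl fun k _ => smul_comm _ _ _

end avg

namespace Hyp

variable (hy : Hyp H V)
include hy

theorem not_dvd [Finite H] {p : ℕ} (hp : p.Prime) (hodd : Odd p) (hV : ∀ v : V, p • v = 0) :
    ¬ p ∣ Nat.card H := by
  intro hd
  have := Fact.mk hp
  obtain ⟨g, hg⟩ := exists_prime_orderOf_dvd_card' p hd
  let G : AddMonoid.End V := DistribMulAction.toAddMonoidEnd H V g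
  have hGp : G ^ p = 1 := by rw [← map_pow, ← hg, pow_orderOf_eq_one, map_one]
  have hT : (G - 1) ^ p = 0 := by
    obtain ⟨r, hr⟩ := (Commute.one_right G).neg_right.exists_add_pow_prime_eq hp
    rw [sub_eq_add_neg, hr, hGp, hodd.neg_one_pow, add_neg_cancel, zero_add]
    ext v
    simp only [mul_assoc, ← nsmul_eq_mul]
    exact hV _
  have hT1 : (G - 1) ≠ 0 := by
    intro h
    have : g = 1 := hy.faith g fun v => by
      have h1 : (G - 1) v = 0 := by rw [h]; rfl
      exact sub_eq_zero.mp h1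
    rw [this, orderOf_one] at hg
    exact hp.one_lt.ne hg
  have hex : ∃ n : ℕ, (G - 1) ^ (n + 2) = 0 := ⟨p, by rw [pow_add, hT, zero_mul]⟩
  classical
  have h1 := Nat.find_spec hex
  have h2 : (G - 1) ^ (Nat.find hex + 1) ≠ 0 := by
    rcases h : Nat.find hex with _ | n
    · simpa using hT1
    · exact Nat.find_min hex (h ▸ Nat.lt_succ_self n)
  obtain ⟨w, hw⟩ : ∃ w : V, ((G - 1) ^ (Nat.find hex + 1)) w ≠ 0 := by
    by_contra hc
    push Not at hc
    exact h2 (AddMonoidHom.ext hc)
  set x := ((G - 1) ^ Nat.find hex) w with hx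
  set u := ((G - 1) ^ (Nat.find hex + 1)) w with hu
  have e1 : g • x = x + u := by
    rw [hu, pow_succ']
    change g • x = x + (g • x - x)
    abel
  have e2 : g • u = u := by
    have h3 : ((G - 1) ^ (Nat.find hex + 2)) w = 0 := by rw [h1]; rfl
    rw [pow_succ'] at h3
    exact sub_eq_zero.mp h3
  have e3 : ∀ j : ℕ, g ^ j • x = x + j • u := by
    intro j
    induction j with
    | zero => simp
    | succ j ih => rw [pow_succ', mul_smul, ih, smul_add, e1, smul_comm, e2, succ_nsmul]; abel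
  obtain ⟨k, hk⟩ := hodd
  refine hw (hy.par x x u ⟨g, e1⟩ ⟨g, e1⟩ ⟨g ^ (k + 1), ?_⟩)
  have h4 := hV u
  rw [hk] at h4
  rw [smul_add, e3]
  linear_combination (norm := module) h4

theorem closure_orbit {x : V} (hx : x ≠ 0) :
    AddSubgroup.closure (Set.range fun g : H => g • x) = ⊤ := by
  refine (hy.irr _ fun h v hv => ?_).resolve_left fun h => hx ?_
  · have : AddSubgroup.closure (Set.range fun g : H => g • x) ≤
        (AddSubgroup.closure (Set.range fun g : H => g • x)).comap
          (DistribSMul.toAddMonoidHom V h) := (AddSubgroup.closure_le _).mpr (by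
      rintro _ ⟨g, rfl⟩
      exact AddSubgroup.subset_closure ⟨h * g, mul_smul _ _ _⟩)
    exact this hv
  · have h1 : x ∈ AddSubgroup.closure (Set.range fun g : H => g • x) :=
      AddSubgroup.subset_closure ⟨1, one_smul _ _⟩
    rwa [h, AddSubgroup.mem_bot] at h1

theorem orbit_ind {x : V} (hx : x ≠ 0) {P : V → Prop} (h1 : ∀ g : H, P (g • x)) (h0 : P 0)
    (ha : ∀ a b, P a → P b → P (a + b)) (hn : ∀ a, P a → P (-a)) (v : V) : P v := by
  have hv : v ∈ AddSubgroup.closure (Set.range fun g : H => g • x) :=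
    (hy.closure_orbit hx).ge (AddSubgroup.mem_top v)
  induction hv using AddSubgroup.closure_induction with
  | mem _ h => obtain ⟨g, rfl⟩ := h; exact h1 g
  | zero => exact h0
  | add a b _ _ iha ihb => exact ha a b iha ihb
  | neg a _ ih => exact hn a ih

variable [Finite H]

theorem avg_inv (x : V) (g : H) {w : V} (hw : ∀ k : H, k • x = x → k • w = w) :
    avg H x (g⁻¹ • w) = avg H x (g • w) := by
  obtain ⟨h, h1, h2⟩ := hy.sw g x
  have e1 : (g⁻¹ * h) • x = x := by rw [mul_smul, h1, inv_smul_smul]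
  have e2 : (h * g) • x = x := by rw [mul_smul, h2]
  calc avg H x (g⁻¹ • w) = avg H x ((h * g) • g⁻¹ • w) := (avg_smul x e2 _).symm
    _ = avg H x (g • (g⁻¹ * h) • w) := by simp only [mul_smul, smul_inv_smul]
    _ = _ := by rw [hw _ e1]

theorem avg_comm (x : V) (g g' : H) {w : V} (hw : ∀ k : H, k • x = x → k • w = w) :
    avg H x (g • avg H x (g' • w)) = avg H x (g' • avg H x (g • w)) := by
  let _ := Fintype.ofFinite (stabilizer H x)
  rw [← hy.avg_inv x g' (w := avg H x (g • w)) (fun k hk => smul_avg x hk _),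
    ← hy.avg_inv x g hw, avg_apply x (g' • w), avg_apply x (g⁻¹ • w), Finset.smul_sum,
    Finset.smul_sum, map_sum, map_sum]
  refine Fintype.sum_equiv (Equiv.inv _) _ _ fun k => ?_
  rw [← mul_smul, ← mul_smul, ← hy.avg_inv x _ hw]
  simp [mul_smul]

variable {F : Type*} [Field F] [Module F V] [SMulCommClass H F V]
  (hF : ∀ φ : V →+ V, (∀ (h : H) (v : V), φ (h • v) = h • φ v) → ∃ c : F, ∀ v, φ v = c • v)
  (hc : ∀ x : V, (Nat.card (stabilizer H x) : F) ≠ 0)
include hF hc

/-- The fixed points of a point stabiliser form a line. -/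
theorem fix_line {x y : V} (hx : x ≠ 0) (hxy : ∀ k : H, k • x = x → k • y = y) :
    ∃ c : F, y = c • x := by
  have hm : ∀ v : V, Nat.card (stabilizer H x) • v = 0 → v = 0 := fun v hv => by
    rw [← Nat.cast_smul_eq_nsmul F] at hv
    exact (smul_eq_zero.mp hv).resolve_left (hc x)
  obtain ⟨Ψ, hΨ⟩ : ∃ Ψ : V →+ V, ∀ g : H, avg H x (g • avg H x y) = Ψ (avg H x (g • x)) := by
    refine hy.orbit_ind hx (P := fun y => ∃ Ψ : V →+ V, ∀ g : H,
      avg H x (g • avg H x y) = Ψ (avg H x (g • x))) (fun g' => ?_) ⟨0, by simp⟩ ?_ ?_ y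
    · exact ⟨(avg H x).comp (DistribSMul.toAddMonoidHom V g'), fun g =>
        hy.avg_comm x g g' fun k hk => hk⟩
    · rintro a b ⟨Ψ, h1⟩ ⟨Ψ', h2⟩
      exact ⟨Ψ + Ψ', fun g => by simp [h1, h2]⟩
    · rintro a ⟨Ψ, h1⟩
      exact ⟨-Ψ, fun g => by simp [h1]⟩
  let R : AddSubgroup (V × V) :=
    { carrier := {z | ∀ g : H, Nat.card (stabilizer H x) • avg H x (g • z.2) =
        Ψ (avg H x (g • z.1))}
      zero_mem' := fun g => by simp
      add_mem' := fun {a b} ha hb g => by
        simp only [Prod.fst_add, Prod.snd_add, smul_add, map_add, ha g, hb g]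
      neg_mem' := fun {a} ha g => by
        simp only [Prod.fst_neg, Prod.snd_neg, smul_neg, map_neg, ha g] }
  have hRx : ∀ g : H, (g • x, g • y) ∈ R := fun g g' => by
    have h1 := hΨ (g' * g)
    rw [avg_fix x hxy, smul_comm, map_nsmul, mul_smul, mul_smul] at h1
    exact h1
  have hRu : ∀ b : V, ((0 : V), b) ∈ R → b = 0 := fun b hb => by
    by_contra hb0
    have h1 : ∀ v : V, avg H x v = 0 := hy.orbit_ind hb0
      (fun g => hm _ (by simpa using hb g)) (map_zero _)
      (fun a b ha hb => by rw [map_add, ha, hb, add_zero]) (fun a ha => by rw [map_neg, ha, neg_zero])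
    have h2 := h1 x
    rw [avg_fix x fun k hk => hk] at h2
    exact hx (hm x h2)
  have hRe : ∀ a : V, ∃ b : V, (a, b) ∈ R := hy.orbit_ind hx (fun g => ⟨_, hRx g⟩) ⟨0, R.zero_mem⟩
    (fun a b ⟨a', ha⟩ ⟨b', hb⟩ => ⟨a' + b', R.add_mem ha hb⟩) (fun a ⟨a', ha⟩ => ⟨-a', R.neg_mem ha⟩)
  have hRuu : ∀ a b b' : V, (a, b) ∈ R → (a, b') ∈ R → b = b' := fun a b b' h1 h2 =>
    sub_eq_zero.mp (hRu _ (by simpa using R.sub_mem h1 h2))
  choose f hf using hRe
  let φ : V →+ V := AddMonoidHom.mk' f fun a b => hRuu _ _ _ (hf _) (R.add_mem (hf a) (hf b))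
  obtain ⟨c, hc'⟩ := hF φ fun h v => hRuu _ _ _ (hf _) fun g => by
    have h1 := hf v (g * h)
    simp only [mul_smul] at h1
    exact h1
  refine ⟨c, ?_⟩
  rw [← hc']
  exact hRuu _ _ _ (by simpa using hRx 1) (hf x)

/-- The invariant symmetric form. -/
theorem exists_form [Nontrivial V] : ∃ B : V →ₗ[F] V →ₗ[F] F, (∀ u v, B u v = B v u) ∧
    (∀ (h : H) (u v : V), B (h • u) (h • v) = B u v) ∧ ∀ v, B v v = 0 → v = 0 := by
  obtain ⟨x, hx⟩ := exists_ne (0 : V)
  have hl : ∀ v : V, ∃ c : F, avg H x v = c • x := fun v =>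
    hy.fix_line hF hc hx fun k hk => smul_avg x hk v
  choose l hl using hl
  have hinj : ∀ c d : F, c • x = d • x → c = d := fun c d h => smul_left_injective F hx h
  let L : V →ₗ[F] F :=
    { toFun := l
      map_add' := fun a b => hinj _ _ (by rw [add_smul, ← hl, ← hl, ← hl, map_add])
      map_smul' := fun c a => hinj _ _ (by
        rw [← hl, avg_lin, hl, RingHom.id_apply, smul_eq_mul, mul_smul]) }
  have hsym : ∀ g : H, L (g⁻¹ • x) = L (g • x) := fun g => hinj _ _ (by
    change l _ • x = l _ • x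
    rw [← hl, ← hl, hy.avg_inv x g fun k hk => hk])
  have hext : ∀ f f' : V →ₗ[F] F, (∀ g : H, f (g • x) = f' (g • x)) → f = f' := fun f f' h =>
    LinearMap.ext (hy.orbit_ind hx h (by simp) (fun a b ha hb => by simp [ha, hb])
      (fun a ha => by simp [ha]))
  have hex : ∀ u : V, ∃ f : V →ₗ[F] F, ∀ g : H, f (g • x) = L (g⁻¹ • u) := by
    refine hy.orbit_ind hx (fun g' => ⟨L.comp (DistribSMul.toLinearMap F V g'⁻¹), fun g => ?_⟩)
      ⟨0, by simp⟩ ?_ ?_
    · change L (g'⁻¹ • g • x) = _
      rw [← mul_smul, ← hsym]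
      simp [mul_smul]
    · rintro a b ⟨f, h1⟩ ⟨f', h2⟩
      exact ⟨f + f', fun g => by simp [h1, h2]⟩
    · rintro a ⟨f, h1⟩
      exact ⟨-f, fun g => by simp [h1]⟩
  choose b hb using hex
  let B : V →ₗ[F] V →ₗ[F] F :=
    { toFun := b
      map_add' := fun u v => hext _ _ fun g => by simp [hb]
      map_smul' := fun c u => hext _ _ fun g => by simp [hb, smul_comm g⁻¹ c u] }
  have hB : ∀ (u : V) (g : H), B u (g • x) = L (g⁻¹ • u) := hb
  have hs : ∀ u v, B u v = B v u := fun u v => by
    have h1 : ∀ g : H, B (g • x) = B.flip (g • x) := fun g => hext _ _ fun g' => by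
      rw [LinearMap.flip_apply, hB, hB, ← mul_smul, ← hsym]
      simp [mul_smul]
    refine hy.orbit_ind hx (P := fun u => B u v = B v u) (fun g => by rw [h1]; rfl) (by simp)
      (fun a b ha hb => by simp [ha, hb]) (fun a ha => by simp [ha]) u
  have hi : ∀ (h : H) (u v : V), B (h • u) (h • v) = B u v := fun h u v => by
    refine hy.orbit_ind hx (P := fun v => B (h • u) (h • v) = B u v) (fun g => ?_) (by simp)
      (fun a b ha hb => by simp [ha, hb]) (fun a ha => by simp [ha]) v
    rw [← mul_smul, hB, hB]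
    simp [mul_smul]
  have hxx : B x x ≠ 0 := by
    have h1 := hB x 1
    rw [one_smul, inv_one, one_smul] at h1
    rw [h1]
    have h2 : L x = Nat.card (stabilizer H x) := hinj _ _ (by
      change l _ • x = _
      rw [← hl, avg_fix x fun k hk => hk, Nat.cast_smul_eq_nsmul])
    rw [h2]
    exact hc x
  refine ⟨B, hs, hi, fun y hyy => ?_⟩
  by_contra hy0
  obtain ⟨z, hz⟩ : ∃ z, B y z ≠ 0 := by
    by_contra hz
    push Not at hz
    refine hxx (hy.orbit_ind hy0 (P := fun u => B u x = 0) (fun g => ?_) (by simp)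
      (fun a b ha hb => by simp [ha, hb]) (fun a ha => by simp [ha]) x)
    rw [← hi g⁻¹, inv_smul_smul, hz]
  obtain ⟨c, hc'⟩ := hy.fix_line hF hc hy0 (y := avg H y z) fun k hk => smul_avg y hk z
  have h1 : B y (avg H y z) = Nat.card (stabilizer H y) * B y z := by
    let _ := Fintype.ofFinite (stabilizer H y)
    rw [avg_apply, map_sum, Finset.sum_congr rfl fun (k : stabilizer H y) _ =>
      (show B y ((k : H) • z) = B y z by
        rw [← hi (k : H) y z, show (k : H) • y = y from k.2]),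
      Finset.sum_const, Finset.card_univ, Nat.card_eq_fintype_card, nsmul_eq_mul]
  rw [hc', map_smul, hyy, smul_zero] at h1
  exact mul_ne_zero (hc y) hz h1.symm

end Hyp

end Cfsg.Lib.BinAff
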