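import Cfsg.Agent.Lib.Perm.Bin2
import Cfsg.Agent.Lib.Perm.Bin3

/-!
# Binary affine groups, part 4: odd characteristic, the dihedral configuration
-/

set_option autoImplicit false

namespace Cfsg.Lib.BinAff

open Subgroup MulAction Polynomial

variable {H V : Type*} [Group H] [AddCommGroup V] [DistribMulAction H V]

section form

variable {F : Type*} [Field F] [Module F V] {B : V →ₗ[F] V →ₗ[F] F}
  (hs : ∀ u v, B u v = B v u) (ha : ∀ v, B v v = 0 → v = 0)
include hs ha

theorem no_three [Finite F] (hodd : Odd (Nat.card F)) {x y z : V} (hx : x ≠ 0) (hy : y ≠ 0)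
    (hxy : B x y = 0) (hxz : B x z = 0) (hyz : B y z = 0) : z = 0 := by
  have := Fintype.ofFinite F
  have h1 : B x x ≠ 0 := fun h => hx (ha x h)
  have h2 : B y y ≠ 0 := fun h => hy (ha y h)
  obtain ⟨a, b, hab⟩ := FiniteField.exists_root_sum_quadratic (R := F)
    (f := C (B x x) * X ^ 2) (g := C (B y y) * X ^ 2 + C (B z z))
    (by rw [degree_C_mul_X_pow _ h1]; rfl)
    (by
      rw [degree_add_C (by rw [degree_C_mul_X_pow _ h2]; norm_num), degree_C_mul_X_pow _ h2]; rfl)
    (by rw [← Nat.card_eq_fintype_card]; exact Nat.odd_iff.mp hodd)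
  simp only [eval_mul, eval_C, eval_pow, eval_X, eval_add] at hab
  have h3 : a • x + b • y + z = 0 := ha _ (by
    simp only [map_add, map_smul, LinearMap.add_apply, LinearMap.smul_apply, smul_eq_mul, hxy, hxz,
      hyz, hs y x, hs z x, hs z y]
    linear_combination hab)
  have h4 : B (a • x + b • y + z) z = 0 := by rw [h3]; simp
  simp only [map_add, map_smul, LinearMap.add_apply, LinearMap.smul_apply, smul_eq_mul, hxz,
    hyz] at h4
  exact ha z (by linear_combination h4)

omit hs in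
theorem decomp {v : V} (hv : v ≠ 0) (z : V) : ∃ (a : F) (w : V), B v w = 0 ∧ z = a • v + w := by
  have h1 : B v v ≠ 0 := fun h => hv (ha v h)
  refine ⟨B v z / B v v, z - (B v z / B v v) • v, ?_, by abel⟩
  rw [map_sub, map_smul, smul_eq_mul, div_mul_cancel₀ _ h1, sub_self]

theorem perp_line [Finite F] (hodd : Odd (Nat.card F)) {v w w' : V} (hv : v ≠ 0) (hw : w ≠ 0)
    (h1 : B v w = 0) (h2 : B v w' = 0) : ∃ c : F, w' = c • w := by
  obtain ⟨a, z, h3, rfl⟩ := decomp ha hw w'
  rw [map_add, map_smul, h1, smul_zero, zero_add] at h2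
  exact ⟨a, by rw [no_three hs ha hodd hv hw h1 h2 h3, add_zero]⟩

end form

namespace Hyp

variable (hy : Hyp H V) [Finite H] {F : Type*} [Field F] [Finite F] [Module F V]
  [SMulCommClass H F V]
  (hF : ∀ φ : V →+ V, (∀ (h : H) (v : V), φ (h • v) = h • φ v) → ∃ c : F, ∀ v, φ v = c • v)
  (hc : ∀ x : V, (Nat.card (stabilizer H x) : F) ≠ 0) (hodd : Odd (Nat.card F))
include hy hF hc hodd

theorem odd [Nontrivial V] :
    (∀ h : H, (∀ v : V, h • v = v) ∨ ∀ v : V, h • v = -v) ∨ Dih H V := by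
  obtain ⟨B, hs, hi, ha⟩ := hy.exists_form hF hc
  have h2 : (2 : F) ≠ 0 := by
    intro h
    have := Fintype.ofFinite F
    have h1 : ringChar F = 2 := CharP.ringChar_of_prime_eq_zero Nat.prime_two (by exact_mod_cast h)
    have h3 := FiniteField.even_card_of_char_two h1
    rw [Nat.card_eq_fintype_card, Nat.odd_iff] at hodd
    omega
  have hsq : ∀ {h : H} {v : V} {c : F}, v ≠ 0 → h • v = c • v → h • v = v ∨ h • v = -v := by
    intro h v c hv hh
    have h1 := hi h v v
    rw [hh] at h1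
    simp only [map_smul, LinearMap.smul_apply, smul_eq_mul] at h1
    have h3 : B v v ≠ 0 := fun h => hv (ha v h)
    have h4 : c * c = 1 := mul_right_cancel₀ h3 (by linear_combination h1)
    rcases mul_self_eq_one_iff.mp h4 with rfl | rfl
    · exact Or.inl (by rw [hh, one_smul])
    · exact Or.inr (by rw [hh, neg_smul, one_smul])
  obtain ⟨x, hx⟩ := exists_ne (0 : V)
  by_cases hperp : ∀ y, B x y = 0 → y = 0
  · left
    have hall : ∀ v : V, ∃ a : F, v = a • x := fun v => by
      obtain ⟨a, w, h1, h3⟩ := decomp ha hx v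
      exact ⟨a, by rw [h3, hperp w h1, add_zero]⟩
    intro h
    obtain ⟨c, hc⟩ := hall (h • x)
    refine (hsq hx hc).imp (fun e v => ?_) fun e v => ?_
    · obtain ⟨a, rfl⟩ := hall v
      rw [smul_comm, e]
    · obtain ⟨a, rfl⟩ := hall v
      rw [smul_comm, e, smul_neg]
  right
  push Not at hperp
  obtain ⟨y, hxy, hy0⟩ := hperp
  have hexp : ∀ v : V, v ≠ 0 → ∃ w, w ≠ 0 ∧ B v w = 0 := fun v hv => by
    by_contra hn
    push Not at hn
    have hall : ∀ z : V, ∃ a : F, z = a • v := fun z => by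
      obtain ⟨a, w, h1, h3⟩ := decomp ha hv z
      exact ⟨a, by rw [h3, show w = 0 by by_contra e; exact hn w e h1, add_zero]⟩
    obtain ⟨a, rfl⟩ := hall x
    obtain ⟨b, rfl⟩ := hall y
    simp only [map_smul, LinearMap.smul_apply, smul_eq_mul, mul_eq_zero] at hxy
    rcases hxy with h | h | h
    · exact hy0 (by rw [h, zero_smul])
    · exact hx (by rw [h, zero_smul])
    · exact hv (ha v h)
  -- an element mapping `v` to `± v` acts on the perpendicular line as `± 1`
  have hpm : ∀ {h : H} {v : V}, v ≠ 0 → (h • v = v ∨ h • v = -v) →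
      (∀ w, B v w = 0 → h • w = w) ∨ ∀ w, B v w = 0 → h • w = -w := by
    intro h v hv hh
    obtain ⟨w, hw, hvw⟩ := hexp v hv
    have h1 : B v (h • w) = 0 := by
      have h3 := hi h v w
      rcases hh with e | e <;> rw [e] at h3
      · rw [h3, hvw]
      · simpa [hvw] using h3
    obtain ⟨c, hc⟩ := perp_line hs ha hodd hv hw hvw h1
    refine (hsq hw hc).imp (fun e z hz => ?_) fun e z hz => ?_
    · obtain ⟨a, rfl⟩ := perp_line hs ha hodd hv hw hvw hz
      rw [smul_comm, e]
    · obtain ⟨a, rfl⟩ := perp_line hs ha hodd hv hw hvw hz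
      rw [smul_comm, e, smul_neg]
  have hD1 : ∀ {h : H} {v : V}, v ≠ 0 → h ≠ 1 → h • v = v → ∀ w, B v w = 0 → h • w = -w := by
    intro h v hv h1 hh
    refine (hpm hv (Or.inl hh)).resolve_left fun e => h1 (hy.faith h fun z => ?_)
    obtain ⟨a, w, h3, rfl⟩ := decomp ha hv z
    rw [smul_add, smul_comm, hh, e w h3]
  have hDu : ∀ {h k : H} {v : V}, v ≠ 0 → h ≠ 1 → h • v = v → k ≠ 1 → k • v = v → h = k := by
    intro h k v hv h1 hh k1 hk
    refine inv_mul_eq_one.mp (hy.faith _ fun z => ?_)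
    obtain ⟨a, w, h3, rfl⟩ := decomp ha hv z
    rw [mul_smul, inv_smul_eq_iff, smul_add, smul_add, smul_comm k, smul_comm h, hh, hk,
      hD1 hv h1 hh w h3, hD1 hv k1 hk w h3]
  let D : H → Prop := fun h => h ≠ 1 ∧ ∃ v : V, v ≠ 0 ∧ h • v = v
  have hDi : ∀ h, D h → h⁻¹ = h := by
    rintro h ⟨h1, v, hv, hh⟩
    exact hDu hv (inv_ne_one.mpr h1) (inv_smul_eq_iff.mpr hh.symm) h1 hh
  have hDe : ∀ v : V, v ≠ 0 → ∃ h : H, h ≠ 1 ∧ h • v = v := fun v hv => by
    by_contra hn
    push Not at hn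
    obtain ⟨w, hw, hvw⟩ := hexp v hv
    obtain ⟨c, rfl⟩ := hy.fix_line hF hc hv (y := w) fun k hk => by
      rw [show k = 1 by by_contra e; exact hn k e hk, one_smul]
    rw [map_smul, smul_eq_mul, mul_eq_zero] at hvw
    rcases hvw with h | h
    · exact hw (by rw [h, zero_smul])
    · exact hv (ha v h)
  have hDD : ∀ h k, D h → D k → ¬ D (h * k) := by
    rintro h k hh hk ⟨h1, w, hw, hhk⟩
    have hne : h ≠ k := fun e => h1 (by rw [e]; nth_rewrite 1 [← hDi k hk]; simp)
    have e1 : k • w = h • w := by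
      rw [mul_smul, ← hDi h hh, inv_smul_eq_iff] at hhk
      exact hhk
    obtain ⟨h3, v, hv, hhv⟩ := hh
    obtain ⟨k3, v', hv', hkv⟩ := hk
    obtain ⟨a, z, hz, e2⟩ := decomp ha hv w
    obtain ⟨a', z', hz', e3⟩ := decomp ha hv' w
    have e4 : w + h • w = (2 * a) • v := by
      rw [e2, smul_add, smul_comm, hhv, hD1 hv h3 hhv z hz]; module
    have e5 : w + k • w = (2 * a') • v' := by
      rw [e3, smul_add, smul_comm, hkv, hD1 hv' k3 hkv z' hz']; module
    rw [e1, e4] at e5
    by_cases a0 : a = 0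
    · have a1 : a' = 0 := by
        rw [a0, mul_zero, zero_smul, eq_comm, smul_eq_zero, mul_eq_zero] at e5
        tauto
      rw [a0, zero_smul, zero_add] at e2
      rw [a1, zero_smul, zero_add] at e3
      obtain ⟨c, hc⟩ := perp_line hs ha hodd hw hv (w' := v') (by rw [hs, e2, hz])
        (by rw [hs, e3, hz'])
      exact hne (hDu hv' h3 (by rw [hc, smul_comm, hhv]) k3 hkv)
    · refine hne (hDu hv h3 hhv k3 ?_)
      refine smul_right_injective V (mul_ne_zero h2 a0) ?_
      simp only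
      rw [← smul_comm, e5, smul_comm, hkv]
  have hOD : ∀ g h, ¬ D g → D h → D (g * h) := by
    rintro g ρ hg ⟨h1, v, hv, hρ⟩
    by_cases g1 : g = 1
    · rw [g1, one_mul]; exact ⟨h1, v, hv, hρ⟩
    have hfree : ∀ z : V, z ≠ 0 → g • z ≠ z := fun z hz e => hg ⟨g1, z, hz, e⟩
    obtain ⟨w, hw, hvw⟩ := hexp v hv
    by_cases hneg : g • v = -v
    · have h3 := (hpm hv (Or.inr hneg)).resolve_left fun e => hfree w hw (e w hvw)
      refine ⟨fun e => hfree v hv ?_, w, hw, ?_⟩
      · calc g • v = (g * ρ) • v := by rw [mul_smul, hρ]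
          _ = v := by rw [e, one_smul]
      · rw [mul_smul, hD1 hv h1 hρ w hvw, smul_neg, h3 w hvw, neg_neg]
    obtain ⟨h, h3, h4⟩ := hy.sw g v
    have hh : D h := ⟨fun e => hfree v hv (by rw [← h3, e, one_smul]), v + g • v,
      fun e => hneg (eq_neg_of_add_eq_zero_right e), by rw [smul_add, h3, h4, add_comm]⟩
    have h5 : h⁻¹ * g = ρ := hDu hv (fun e => hg (inv_mul_eq_one.mp e ▸ hh))
      (by rw [mul_smul, inv_smul_eq_iff, h3]) h1 hρ
    have h6 : g * ρ = h := by
      rw [← hDi ρ ⟨h1, v, hv, hρ⟩, ← h5]; group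
    rwa [h6]
  have hinvD : ∀ g, ¬ D g → ¬ D g⁻¹ := fun g hg h => hg (by rw [← inv_inv g, hDi _ h]; exact h)
  obtain ⟨t, t1, ht⟩ := hDe x hx
  have htD : D t := ⟨t1, x, hx, ht⟩
  have htt : t * t = 1 := by nth_rewrite 1 [← hDi t htD]; simp
  let O : Subgroup H :=
    { carrier := {g | ¬ D g}
      one_mem' := fun h => h.1 rfl
      inv_mem' := fun {g} hg => hinvD g hg
      mul_mem' := fun {g g'} hg hg' => by
        have h1 := hOD g t hg htD
        have h3 := hOD g'⁻¹ t (hinvD g' hg') htD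
        have h4 := hDD _ _ h1 h3
        rw [← hDi _ h3, mul_inv_rev, inv_inv, mul_assoc, mul_inv_cancel_left] at h4
        exact h4 }
  refine ⟨O, t, fun h => h htD, htt, fun o ho => ?_, fun h => ?_, fun v hv => ?_⟩
  · have h1 := hDi _ (hOD o t ho htD)
    rw [mul_inv_rev, hDi t htD] at h1
    rw [mul_assoc, ← h1, ← mul_assoc, htt, one_mul]
  · by_cases hh : D h
    · exact Or.inr (hDD h t hh htD)
    · exact Or.inl hh
  · obtain ⟨ρ, h1, h3⟩ := hDe v hv
    exact ⟨ρ * t, hDD ρ t ⟨h1, v, hv, h3⟩ htD, by rw [mul_assoc, htt, mul_one, h3]⟩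

end Hyp

/-- Schur's field. -/
theorem Hyp.main (hy : Hyp H V) [Finite H] [Finite V] [Nontrivial V] :
    (∀ h : H, (∀ v : V, h • v = v) ∨ ∀ v : V, h • v = -v) ∨ Dih H V := by
  obtain ⟨p, hp, hpd⟩ := Nat.exists_prime_and_dvd (Finite.one_lt_card (α := V)).ne'
  have := Fact.mk hp
  have hV : ∀ v : V, p • v = 0 := by
    obtain ⟨v, hv⟩ := exists_prime_addOrderOf_dvd_card' p hpd
    let Y : AddSubgroup V := (nsmulAddMonoidHom p : V →+ V).ker
    rcases hy.irr Y (fun h w hw => by
      change p • h • w = 0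
      rw [← smul_comm, show p • w = 0 from hw, smul_zero]) with h | h
    · have h1 : v ∈ Y := by
        change p • v = 0
        rw [← hv, addOrderOf_nsmul_eq_zero]
      rw [h, AddSubgroup.mem_bot] at h1
      rw [h1, addOrderOf_zero] at hv
      exact absurd hv hp.one_lt.ne
    · exact fun w => h.ge (AddSubgroup.mem_top w)
  rcases hp.eq_two_or_odd' with rfl | hodd
  · refine (hy.two fun v => by rw [← two_nsmul, hV]).imp_left fun h g => Or.inl fun v => ?_
    rw [h g, one_smul]
  let R : Subring (AddMonoid.End V) :=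
    Subring.centralizer (Set.range (DistribMulAction.toAddMonoidEnd H V))
  have hR : ∀ (a : R) (h : H) (v : V), (a : AddMonoid.End V) (h • v) = h • (a : AddMonoid.End V) v :=
    fun a h v => (DFunLike.congr_fun (a.2 _ ⟨h, rfl⟩) v).symm
  have : Finite (AddMonoid.End V) := DFunLike.finite _
  have : NoZeroDivisors R := ⟨fun {a b} hab => by
    rcases hy.irr (AddMonoidHom.ker (a : AddMonoid.End V)) (fun h v hv => by
      change (a : AddMonoid.End V) (h • v) = 0
      rw [hR, show (a : AddMonoid.End V) v = 0 from hv, smul_zero]) with h | h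
    · refine Or.inr (Subtype.ext (AddMonoidHom.ext fun v => ?_))
      have h1 : (b : AddMonoid.End V) v ∈ AddMonoidHom.ker (a : AddMonoid.End V) :=
        DFunLike.congr_fun (congrArg Subtype.val hab) v
      rwa [h, AddSubgroup.mem_bot] at h1
    · exact Or.inl (Subtype.ext (AddMonoidHom.ext fun v => h.ge (AddSubgroup.mem_top v)))⟩
  have : Nontrivial R := ⟨0, 1, fun h => by
    obtain ⟨v, hv⟩ := exists_ne (0 : V)
    exact hv (DFunLike.congr_fun (congrArg Subtype.val h) v).symm⟩
  have : IsDomain R := NoZeroDivisors.to_isDomain R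
  let _ : Field R := (Finite.isDomain_to_isField R).toField
  have : SMulCommClass H R V := ⟨fun h a v => (hR a h v).symm⟩
  have hp0 : (p : R) = 0 := Subtype.ext (AddMonoidHom.ext fun v =>
    (AddMonoid.End.natCast_apply p v).trans (hV v))
  have hch : CharP R p := (CharP.charP_iff_prime_eq_zero hp).mpr hp0
  refine hy.odd (F := R) (fun φ hφ => ⟨⟨φ, ?_⟩, fun v => rfl⟩) (fun x h => ?_) ?_
  · rintro _ ⟨h, rfl⟩
    exact AddMonoidHom.ext fun v => (hφ h v).symm
  · exact hy.not_dvd hp hodd hV (((CharP.cast_eq_zero_iff R p _).mp h).trans (card_subgroup_dvd_card _))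
  · have := Fintype.ofFinite R
    obtain ⟨n, -, hn⟩ := FiniteField.card R p
    rw [Nat.card_eq_fintype_card, hn]
    exact hodd.pow

end Cfsg.Lib.BinAff
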