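import Cfsg.Agent.Lib.Perm.Bin4

/-!
# Binary affine groups, part 5: the field structure
-/

set_option autoImplicit false

namespace Cfsg.Lib.BinAff

open Subgroup MulAction

variable {H V : Type*} [Group H] [AddCommGroup V] [DistribMulAction H V]

/-- The conclusion. -/
def Concl (H V : Type*) [Group H] [AddCommGroup V] [DistribMulAction H V] : Prop :=
  ∃ (F E : Type) (_ : Field F) (_ : Fintype F) (_ : Field E) (_ : Fintype E) (_ : Algebra F E)
    (e : V ≃+ E), Module.finrank F E = 2 ∧ ∀ f : V → V, (∃ h : H, ∀ v, f v = h • v) ↔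
      ∃ (a : E) (φ : E ≃ₐ[F] E), Algebra.norm F a = 1 ∧ ∀ v, e (f v) = a * φ (e v)

theorem Hyp.concl_of_field (hy : Hyp H V) {O : Subgroup H} {t : H} (htO : t ∉ O) (htt : t * t = 1)
    (hinv : ∀ o ∈ O, t * o * t = o⁻¹) (hcos : ∀ h : H, h ∈ O ∨ h * t ∈ O)
    (hfix : ∀ v : V, v ≠ 0 → ∃ o ∈ O, (o * t) • v = v) {v₀ : V} (hv₀ : v₀ ≠ 0) (ht₀ : t • v₀ = v₀)
    (E : Type) [Field E] [Finite E] [Module E V]
    (hO : ∀ o ∈ O, ∃ a : E, ∀ v : V, o • v = a • v) (hgen : ∀ v : V, ∃ a : E, v = a • v₀)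
    (hσ : ∀ a : E, ∃ b : E, ∀ v : V, t • a • v = b • t • v) : Concl H V := by
  classical
  have hinj : ∀ a b : E, a • v₀ = b • v₀ → a = b := fun a b h => smul_left_injective E hv₀ h
  let e : V ≃+ E := (AddEquiv.ofBijective (LinearMap.toSpanSingleton E V v₀).toAddMonoidHom
    ⟨fun a b h => hinj a b h, fun v => (hgen v).imp fun a h => h.symm⟩).symm
  have he : ∀ a : E, e (a • v₀) = a := fun a => e.apply_symm_apply a
  have he' : ∀ v : V, e v • v₀ = v := fun v => e.symm_apply_apply v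
  choose s hs using hσ
  have hs₀ : ∀ a : E, t • a • v₀ = s a • v₀ := fun a => by rw [hs, ht₀]
  have hss : ∀ a, s (s a) = a := fun a => hinj _ _ (by
    rw [← hs₀, ← hs₀, ← mul_smul, htt, one_smul])
  let σ : E ≃+* E :=
    { toFun := s
      invFun := s
      left_inv := hss
      right_inv := hss
      map_mul' := fun a b => hinj _ _ (by rw [← hs₀, mul_smul, hs, hs₀, mul_smul])
      map_add' := fun a b => hinj _ _ (by rw [← hs₀, add_smul, smul_add, hs₀, hs₀, add_smul]) }
  have hσ1 : ∃ d : E, s d ≠ d := by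
    by_contra hn
    push Not at hn
    refine htO ((hy.faith t fun v => ?_) ▸ O.one_mem)
    obtain ⟨a, rfl⟩ := hgen v
    rw [hs₀, hn]
  have hσ1' : (σ : RingAut E) ≠ 1 := fun h => by
    obtain ⟨d, hd⟩ := hσ1
    exact hd (DFunLike.congr_fun h d)
  have hσ2 : (σ : RingAut E) ^ 2 = 1 := RingEquiv.ext hss
  have : Fact (Nat.Prime 2) := ⟨Nat.prime_two⟩
  have hord : orderOf (σ : RingAut E) = 2 := orderOf_eq_prime hσ2 hσ1'
  have : Finite (RingAut E) := DFunLike.finite _
  let Γ : Subgroup (RingAut E) := zpowers σ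
  let F := FixedPoints.subfield Γ E
  let τ : E ≃ₐ[F] E := MulSemiringAction.toAlgAut Γ F E ⟨σ, mem_zpowers _⟩
  have hτ : ∀ a, τ a = s a := fun a => rfl
  have hτ1 : (1 : E ≃ₐ[F] E) ≠ τ := fun h => by
    obtain ⟨d, hd⟩ := hσ1
    exact hd (DFunLike.congr_fun h d).symm
  have hΓ : ∀ g : Γ, g = 1 ∨ g = ⟨σ, mem_zpowers _⟩ := by
    rintro ⟨g, hg⟩
    rw [mem_zpowers_iff_mem_range_orderOf, hord] at hg
    obtain ⟨i, hi, rfl⟩ := Finset.mem_image.mp hg
    rw [Finset.mem_range] at hi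
    interval_cases i
    · exact Or.inl (Subtype.ext (pow_zero _))
    · exact Or.inr (Subtype.ext (pow_one _))
  have haut : ∀ φ : E ≃ₐ[F] E, φ = 1 ∨ φ = τ := fun φ => by
    obtain ⟨g, rfl⟩ := FixedPoints.toAlgAut_surjective Γ E φ
    rcases hΓ g with rfl | rfl
    · exact Or.inl (map_one _)
    · exact Or.inr rfl
  have hnorm : ∀ a : E, Algebra.norm F a = 1 ↔ a * s a = 1 := fun a => by
    have h1 := Algebra.norm_eq_prod_automorphisms F a
    have h2 : (Finset.univ : Finset (E ≃ₐ[F] E)) = {1, τ} := by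
      ext φ
      simpa using haut φ
    rw [h2, Finset.prod_pair hτ1, hτ, AlgEquiv.one_apply] at h1
    rw [← h1, ← map_one (algebraMap F E)]
    exact (algebraMap F E).injective.eq_iff.symm
  have hON : ∀ o ∈ O, ∀ a : E, (∀ v : V, o • v = a • v) → a * s a = 1 := fun o ho a ha =>
    hinj _ _ (by
      rw [mul_smul, ← ha, ← hs₀, ← ha, one_smul]
      nth_rewrite 1 [← ht₀]
      rw [← mul_smul t, ← mul_smul (t * o), hinv o ho, smul_inv_smul])
  refine ⟨F, E, inferInstance, Fintype.ofFinite _, inferInstance, Fintype.ofFinite _, inferInstance,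
    e, ?_, fun f => ⟨?_, ?_⟩⟩
  · have := Fintype.ofFinite Γ
    rw [FixedPoints.finrank_eq_card, ← Nat.card_eq_fintype_card, Nat.card_zpowers, hord]
  · rintro ⟨h, hf⟩
    rcases hcos h with ho | ho
    · obtain ⟨a, ha⟩ := hO h ho
      refine ⟨a, 1, (hnorm a).mpr (hON h ho a ha), fun v => ?_⟩
      rw [hf, ha, AlgEquiv.one_apply, ← he (a * e v), mul_smul, he']
    · obtain ⟨a, ha⟩ := hO _ ho
      refine ⟨a, τ, (hnorm a).mpr (hON _ ho a ha), fun v => ?_⟩
      rw [hf, hτ, ← he (a * _), mul_smul, ← hs₀, he', ← ha, ← mul_smul, mul_assoc, htt, mul_one]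
  · rintro ⟨a, φ, ha, hf⟩
    rw [hnorm] at ha
    obtain ⟨b, hb0, hb⟩ : ∃ b : E, b ≠ 0 ∧ a * s b = b := by
      have key : ∀ d : E, a * s (d + a * s d) = d + a * s d := fun d => by
        have h1 : s (d + a * s d) = s d + s a * d := by
          have h2 := map_add σ d (a * s d)
          rw [map_mul] at h2
          exact h2.trans (congrArg (fun z => s d + s a * z) (hss d))
        rw [h1]
        linear_combination d * ha
      by_cases h1 : 1 + a * s 1 = 0
      · obtain ⟨d, hd⟩ := hσ1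
        have h2 : s 1 = 1 := map_one σ
        refine ⟨_, fun h => hd ?_, key d⟩
        rw [h2] at h1
        linear_combination s d * h1 - h
      · exact ⟨_, h1, key 1⟩
    obtain ⟨o, ho, hob⟩ := hfix (b • v₀) (smul_ne_zero hb0 hv₀)
    obtain ⟨c, hc⟩ := hO o ho
    have hsb : s b ≠ 0 := fun h => hb0 (by rw [← hb, h, mul_zero])
    rw [mul_smul, hs₀, hc, ← mul_smul] at hob
    obtain rfl : c = a := mul_right_cancel₀ hsb ((hinj _ _ hob).trans hb.symm)
    rcases haut φ with rfl | rfl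
    · refine ⟨o, fun v => e.injective ?_⟩
      rw [hf, hc, AlgEquiv.one_apply, ← he (c * e v), mul_smul, he']
    · refine ⟨o * t, fun v => e.injective ?_⟩
      rw [hf, hτ, ← he (c * _), mul_smul, ← hs₀, he', mul_smul, hc]

theorem Hyp.concl (hy : Hyp H V) [Finite V] [Nontrivial V] (hd : Dih H V) : Concl H V := by
  obtain ⟨O, t₁, h1, h2, h3, h4, h5⟩ := hd
  obtain ⟨v₀, hv₀⟩ := exists_ne (0 : V)
  obtain ⟨o₁, ho₁, ht₀⟩ := h5 v₀ hv₀
  set t := o₁ * t₁ with htd
  have htO : t ∉ O := fun h => h1 (by simpa [htd] using O.mul_mem (O.inv_mem ho₁) h)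
  have htt : t * t = 1 := by
    calc t * t = o₁ * (t₁ * o₁ * t₁) := by rw [htd]; group
      _ = 1 := by rw [h3 _ ho₁, mul_inv_cancel]
  have hinv : ∀ o ∈ O, t * o * t = o⁻¹ := fun o ho => by
    calc t * o * t = o₁ * (t₁ * (o * o₁) * t₁) := by rw [htd]; group
      _ = o⁻¹ := by rw [h3 _ (O.mul_mem ho ho₁)]; group
  have hcos : ∀ h : H, h ∈ O ∨ h * t ∈ O := fun h => (h4 h).imp_right fun hh => by
    have : h * t = h * t₁ * (t₁ * o₁ * t₁) := by
      calc h * t = h * (t₁ * t₁) * o₁ * t₁ := by rw [h2, htd]; group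
        _ = _ := by group
    rw [this, h3 _ ho₁]
    exact O.mul_mem hh (O.inv_mem ho₁)
  have hfix : ∀ v : V, v ≠ 0 → ∃ o ∈ O, (o * t) • v = v := fun v hv => by
    obtain ⟨o, ho, h⟩ := h5 v hv
    exact ⟨o * o₁⁻¹, O.mul_mem ho (O.inv_mem ho₁), by rwa [htd, mul_assoc, inv_mul_cancel_left]⟩
  have hti : t⁻¹ = t := inv_eq_of_mul_eq_one_right htt
  have hcomm : ∀ a ∈ O, ∀ b ∈ O, a * b = b * a := fun a ha b hb => by
    have e1 := hinv _ (O.mul_mem ha hb)
    have e2 : t * (a * b) * t = (t * a * t) * (t * b * t) := by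
      calc t * (a * b) * t = t * a * (t * t) * b * t := by rw [htt]; group
        _ = _ := by group
    rw [e2, hinv a ha, hinv b hb, ← mul_inv_rev] at e1
    exact (inv_injective e1).symm
  have hto : ∀ o ∈ O, ∀ v : V, t • o • v = o⁻¹ • t • v := fun o ho v => by
    rw [← hinv o ho, ← mul_smul (t * o * t), mul_assoc, htt, mul_one, mul_smul t]
  -- `O` is irreducible
  have hirr : ∀ Y : AddSubgroup V, (∀ o ∈ O, ∀ v ∈ Y, o • v ∈ Y) → Y = ⊥ ∨ Y = ⊤ := by
    intro Y hY
    refine hy.irr Y fun h v hv => ?_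
    have ht : ∀ w ∈ Y, t • w ∈ Y := fun w hw => by
      by_cases hw0 : w = 0
      · rw [hw0, smul_zero]; exact Y.zero_mem
      obtain ⟨o, ho, e⟩ := hfix w hw0
      rw [mul_smul, smul_eq_iff_eq_inv_smul] at e
      rw [e]
      exact hY _ (O.inv_mem ho) w hw
    rcases hcos h with ho | ho
    · exact hY h ho v hv
    · have := hY _ ho _ (ht v hv)
      rwa [← mul_smul, mul_assoc, htt, mul_one] at this
  let ρ := DistribMulAction.toAddMonoidEnd H V
  let R : Subring (AddMonoid.End V) := Subring.closure (ρ '' O)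
  have hRc : IsMulCommutative R := Subring.isMulCommutative_closure (by
    rintro _ ⟨a, ha, rfl⟩ _ ⟨b, hb, rfl⟩
    rw [← map_mul, ← map_mul, hcomm a ha b hb])
  have hmem : ∀ o ∈ O, ρ o ∈ R := fun o ho => Subring.subset_closure ⟨o, ho, rfl⟩
  have hR : ∀ (a : R), ∀ o ∈ O, ∀ v : V,
      (a : AddMonoid.End V) (o • v) = o • (a : AddMonoid.End V) v := fun a o ho v =>
    DFunLike.congr_fun (congrArg Subtype.val (hRc.is_comm.comm a ⟨_, hmem o ho⟩)) v
  have : Finite (AddMonoid.End V) := DFunLike.finite _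
  have : NoZeroDivisors R := ⟨fun {a b} hab => by
    rcases hirr (AddMonoidHom.ker (a : AddMonoid.End V)) (fun h ho v hv => by
      change (a : AddMonoid.End V) (h • v) = 0
      rw [hR a h ho, show (a : AddMonoid.End V) v = 0 from hv, smul_zero]) with h | h
    · refine Or.inr (Subtype.ext (AddMonoidHom.ext fun v => ?_))
      have h1 : (b : AddMonoid.End V) v ∈ AddMonoidHom.ker (a : AddMonoid.End V) :=
        DFunLike.congr_fun (congrArg Subtype.val hab) v
      rwa [h, AddSubgroup.mem_bot] at h1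
    · exact Or.inl (Subtype.ext (AddMonoidHom.ext fun v => h.ge (AddSubgroup.mem_top v)))⟩
  have : Nontrivial R := ⟨0, 1, fun h =>
    hv₀ (DFunLike.congr_fun (congrArg Subtype.val h) v₀).symm⟩
  have : IsDomain R := NoZeroDivisors.to_isDomain R
  let _ : Field R := (Finite.isDomain_to_isField R).toField
  have hsm : Small.{0} R := inferInstance
  let ι : Shrink.{0} R ≃+* R := @Shrink.ringEquiv R hsm _ _
  let _ : Module (Shrink.{0} R) V := Module.compHom V ι.toRingHom
  have hι : ∀ (a : R) (v : V), ι.symm a • v = (a : AddMonoid.End V) v := fun a v => by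
    change ι (ι.symm a) • v = _
    rw [ι.apply_symm_apply]; rfl
  have : Finite (Shrink.{0} R) := Finite.of_equiv _ ι.symm.toEquiv
  refine hy.concl_of_field htO htt hinv hcos hfix hv₀ ht₀ (Shrink.{0} R)
    (fun o ho => ⟨ι.symm ⟨_, hmem o ho⟩, fun v => (hι _ v).symm ▸ rfl⟩) (fun v => ?_) fun a => ?_
  · let Y : AddSubgroup V := (LinearMap.toSpanSingleton R V v₀).toAddMonoidHom.range
    rcases hirr Y (by
      rintro o ho _ ⟨a, rfl⟩
      exact ⟨⟨_, hmem o ho⟩ * a, rfl⟩) with h | h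
    · have h6 : v₀ ∈ Y := ⟨1, rfl⟩
      rw [h, AddSubgroup.mem_bot] at h6
      exact absurd h6 hv₀
    · obtain ⟨a, ha⟩ : v ∈ Y := h.ge (AddSubgroup.mem_top v)
      exact ⟨ι.symm a, by rw [hι]; exact ha.symm⟩
  · obtain ⟨a, rfl⟩ := ι.symm.surjective a
    obtain ⟨a, ha⟩ := a
    have key : ∃ b ∈ R, ∀ v : V, t • a v = b (t • v) := by
      induction ha using Subring.closure_induction with
      | mem x hx =>
        obtain ⟨o, ho, rfl⟩ := hx
        exact ⟨_, hmem _ (O.inv_mem ho), hto o ho⟩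
      | zero => exact ⟨0, R.zero_mem, fun v => smul_zero t⟩
      | one => exact ⟨1, R.one_mem, fun v => rfl⟩
      | add x y _ _ hx hy =>
        obtain ⟨b, hb, e⟩ := hx
        obtain ⟨c, hc, e'⟩ := hy
        exact ⟨b + c, R.add_mem hb hc, fun v => by
          change t • (x v + y v) = b (t • v) + c (t • v)
          rw [smul_add, e, e']⟩
      | neg x _ hx =>
        obtain ⟨b, hb, e⟩ := hx
        exact ⟨-b, R.neg_mem hb, fun v => by
          change t • (-x v) = -b (t • v)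
          rw [smul_neg, e]⟩
      | mul x y _ _ hx hy =>
        obtain ⟨b, hb, e⟩ := hx
        obtain ⟨c, hc, e'⟩ := hy
        exact ⟨b * c, R.mul_mem hb hc, fun v => by
          change t • x (y v) = b (c (t • v))
          rw [e, e']⟩
    obtain ⟨b, hb, e⟩ := key
    exact ⟨ι.symm ⟨b, hb⟩, fun v => by rw [hι, hι]; exact e v⟩

end Cfsg.Lib.BinAff
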