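import Cfsg.Agent.Lib.Perm.Bin5

/-!
# Binary affine groups, part 6: the permutation group
-/

set_option autoImplicit false

namespace Cfsg.Lib.BinAff

open Subgroup MulAction

variable {G Ω : Type*} [Group G] [Finite G] [MulAction G Ω] [FaithfulSMul G Ω] [Fintype Ω]

theorem affine_main [AddCommGroup Ω] [Nontrivial Ω] (hprim : IsPreprimitive G Ω)
    (hT : ∀ a : Ω, ∃ n : G, ∀ ω : Ω, n • ω = a + ω)
    (hL : ∀ g : G, g • (0 : Ω) = 0 → ∀ x y : Ω, g • (x + y) = g • x + g • y)
    (hbin : ∀ (n : ℕ) (I J : Fin n → Ω), 2 ≤ n →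
      (∀ i j : Fin n, i ≠ j → ∃ g : G, g • I i = J i ∧ g • I j = J j) →
        ∃ g : G, ∀ i, g • I i = J i) :
    ((Fintype.card Ω).Prime ∧ ∀ ω : Ω, Nat.card ↥(stabilizer G ω) ≤ 2) ∨
    (∃ (F E : Type) (_ : Field F) (_ : Fintype F) (_ : Field E) (_ : Fintype E) (_ : Algebra F E)
      (e : Ω ≃ E), Module.finrank F E = 2 ∧
        ∀ σ : Equiv.Perm Ω, σ ∈ (MulAction.toPermHom G Ω).range ↔
          ∃ (a b : E) (φ : E ≃ₐ[F] E), Algebra.norm F a = 1 ∧
            ∀ ω : Ω, e (σ ω) = a * φ (e ω) + b) := by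
  let H := stabilizer G (0 : Ω)
  let _ : DistribMulAction H Ω :=
    { (inferInstance : MulAction H Ω) with
      smul_zero := fun h => h.2
      smul_add := fun h => hL h h.2 }
  have hsm : ∀ (h : H) (v : Ω), h • v = (h : G) • v := fun _ _ => rfl
  choose T hT using hT
  have hbin' : ∀ (n : ℕ) (I J : Fin (n + 2) → Ω), I 0 = 0 → J 0 = 0 →
      (∀ i j, i < j → ∃ h : H, h • (I j - I i) = J j - J i) → ∃ h : H, ∀ i, h • I i = J i := by
    intro n I J hI hJ hp
    have key : ∀ i j, i < j → ∃ g : G, g • I i = J i ∧ g • I j = J j := fun i j hij => by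
      obtain ⟨h, hh⟩ := hp i j hij
      refine ⟨T (J i) * h * T (-I i), ?_, ?_⟩
      · rw [mul_smul, mul_smul, hT, hT, neg_add_cancel, ← hsm, smul_zero, add_zero]
      · rw [mul_smul, mul_smul, hT, hT, neg_add_eq_sub, ← hsm, hh, add_sub_cancel]
    obtain ⟨g, hg⟩ := hbin (n + 2) I J (by omega) fun i j hij => by
      rcases lt_or_gt_of_ne hij with h | h
      · exact key i j h
      · exact (key j i h).imp fun g hg => hg.symm
    exact ⟨⟨g, by have := hg 0; rwa [hI, hJ] at this⟩, hg⟩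
  have hdec : ∀ g : G, ∃ h : H, ∀ ω : Ω, g • ω = h • ω + g • (0 : Ω) := fun g =>
    ⟨⟨T (-(g • (0 : Ω))) * g, by rw [mem_stabilizer_iff, mul_smul, hT, neg_add_cancel]⟩,
      fun ω => by rw [hsm, mul_smul, hT]; abel⟩
  have hy : Hyp H Ω := by
    refine ⟨fun h hh => Subtype.ext (eq_of_smul_eq_smul (α := Ω) fun v => by
      rw [← hsm, hh]; exact (one_smul G v).symm), fun Y hY => ?_, fun g x => ?_,
      fun x y u ⟨a, ha⟩ ⟨b, hb⟩ ⟨c, hc⟩ => ?_⟩
    · let L : Subgroup G :=
        { carrier := {g | g • (0 : Ω) ∈ Y}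
          one_mem' := by simpa using Y.zero_mem
          mul_mem' := fun {a b} ha hb => by
            obtain ⟨h, hh⟩ := hdec a
            change (a * b) • (0 : Ω) ∈ Y
            rw [mul_smul, hh]
            exact Y.add_mem (hY h _ hb) ha
          inv_mem' := fun {a} ha => by
            obtain ⟨h, hh⟩ := hdec a
            have h1 := hh (a⁻¹ • (0 : Ω))
            rw [smul_inv_smul, eq_comm, add_eq_zero_iff_eq_neg, smul_eq_iff_eq_inv_smul] at h1
            change a⁻¹ • (0 : Ω) ∈ Y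
            rw [h1]
            exact hY _ _ (Y.neg_mem ha) }
      have hco := (isCoatom_stabilizer_iff_preprimitive G (0 : Ω)).mpr hprim
      have hle : stabilizer G (0 : Ω) ≤ L := fun g hg => by
        change g • (0 : Ω) ∈ Y
        rw [mem_stabilizer_iff.mp hg]; exact Y.zero_mem
      rcases hle.eq_or_lt with h | h
      · refine Or.inl (eq_bot_iff.mpr fun v hv => ?_)
        have h1 : T v ∈ L := by
          change T v • (0 : Ω) ∈ Y
          rwa [hT, add_zero]
        rw [← h, mem_stabilizer_iff, hT, add_zero] at h1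
        exact h1
      · refine Or.inr (eq_top_iff.mpr fun v _ => ?_)
        have h1 : T v • (0 : Ω) ∈ Y := (hco.2 L h).ge (mem_top (T v))
        rwa [hT, add_zero] at h1
    · obtain ⟨h, hh⟩ := hbin' 1 ![0, x, x + g • x] ![0, g • x, x + g • x] rfl rfl (by
        intro i j hij
        fin_cases i <;> fin_cases j <;> simp at hij
        · exact ⟨g, by simp⟩
        · exact ⟨1, by simp⟩
        · exact ⟨g⁻¹, by simp⟩)
      have h1 : h • x = g • x := hh 1
      have h2 : h • (x + g • x) = x + g • x := hh 2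
      rw [smul_add, h1, add_comm] at h2
      exact ⟨h, h1, add_right_cancel h2⟩
    · obtain ⟨h, hh⟩ := hbin' 2 ![0, x, y, x + y] ![0, x, y, x + y + u] rfl rfl (by
        intro i j hij
        fin_cases i <;> fin_cases j <;> simp at hij
        · exact ⟨1, by simp⟩
        · exact ⟨1, by simp⟩
        · exact ⟨c, by simpa using hc⟩
        · exact ⟨1, by simp⟩
        · exact ⟨b, by simp [hb]; abel⟩
        · exact ⟨a, by simp [ha]; abel⟩)
      have h1 : h • x = x := hh 1
      have h2 : h • y = y := hh 2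
      have h3 : h • (x + y) = x + y + u := hh 3
      rw [smul_add, h1, h2] at h3
      exact left_eq_add.mp h3
  rcases hy.main with hpm | hd
  · left
    have : IsSimpleAddGroup Ω := ⟨fun Y _ => hy.irr Y fun h v hv => by
      rcases hpm h with e | e <;> rw [e]
      exacts [hv, Y.neg_mem hv]⟩
    refine ⟨Nat.card_eq_fintype_card (α := Ω) ▸ IsSimpleAddGroup.prime_card, fun ω => ?_⟩
    rw [← Nat.card_congr (stabilizerEquivStabilizer (G := G) (a := (0 : Ω)) (b := ω) (g := T ω)
      (by rw [hT, add_zero])).toEquiv]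
    classical
    have hinj : Function.Injective fun h : H => decide (h = 1) := by
      intro h k hk
      simp only [decide_eq_decide] at hk
      by_cases h1 : h = 1
      · rw [h1, hk.mp h1]
      · have k1 : k ≠ 1 := fun e => h1 (hk.mpr e)
        have e1 := (hpm h).resolve_left fun e => h1 (hy.faith h e)
        have e2 := (hpm k).resolve_left fun e => k1 (hy.faith k e)
        exact inv_mul_eq_one.mp (hy.faith _ fun v => by rw [mul_smul, inv_smul_eq_iff, e1, e2])
    exact (Nat.card_le_card_of_injective _ hinj).trans (by simp)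
  · right
    obtain ⟨F, E, i1, i2, i3, i4, i5, e, hr, hf⟩ := hy.concl hd
    refine ⟨F, E, i1, i2, i3, i4, i5, e.toEquiv, hr, fun σ => ⟨?_, ?_⟩⟩
    · rintro ⟨g, rfl⟩
      obtain ⟨h, hh⟩ := hdec g
      obtain ⟨a, φ, ha, hφ⟩ := (hf fun v => h • v).mp ⟨h, fun _ => rfl⟩
      refine ⟨a, e (g • (0 : Ω)), φ, ha, fun ω => ?_⟩
      change e (g • ω) = a * φ (e ω) + _
      rw [hh, map_add, hφ]
    · rintro ⟨a, b, φ, ha, hσ⟩
      obtain ⟨h, hh⟩ := (hf fun v => σ v - e.symm b).mpr ⟨a, φ, ha, fun v => by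
        rw [map_sub, e.apply_symm_apply, sub_eq_iff_eq_add]
        exact hσ v⟩
      refine ⟨T (e.symm b) * h, Equiv.ext fun ω => ?_⟩
      change (T (e.symm b) * h) • ω = σ ω
      rw [mul_smul, hT, ← hsm, ← hh, add_sub_cancel]

omit [Finite G] [Fintype Ω] in
/-- A primitive group with an abelian normal subgroup is affine. -/
theorem exists_affine (hprim : IsPreprimitive G Ω) {N : Subgroup G} [hN : N.Normal] (h1 : N ≠ ⊥)
    (hc : IsMulCommutative N) : ∃ _ : AddCommGroup Ω, Nontrivial Ω ∧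
      (∀ a : Ω, ∃ n : G, ∀ ω : Ω, n • ω = a + ω) ∧
      ∀ g : G, g • (0 : Ω) = 0 → ∀ x y : Ω, g • (x + y) = g • x + g • y := by
  obtain ⟨⟨n₀, hn₀⟩, hn1⟩ := ne_bot_iff_exists_ne_one.mp h1
  obtain ⟨ω₀, hω₀⟩ : ∃ ω : Ω, n₀ • ω ≠ ω := by
    by_contra h
    push Not at h
    exact hn1 (Subtype.ext (eq_of_smul_eq_smul (α := Ω) fun v => (h v).trans (one_smul G v).symm))
  have htr : IsPretransitive N Ω := IsQuasiPreprimitive.isPretransitive_of_normal fun h => by
    have h2 : ω₀ ∈ fixedPoints N Ω := h ▸ Set.mem_univ _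
    exact hω₀ (h2 ⟨n₀, hn₀⟩)
  have hcm : ∀ a b : N, a * b = b * a := hc.is_comm.comm
  have hbij : Function.Bijective fun n : N => n • ω₀ := by
    refine ⟨fun a b h => Subtype.ext (eq_of_smul_eq_smul (α := Ω) fun v => ?_),
      fun ω => exists_smul_eq N ω₀ ω⟩
    obtain ⟨c, rfl⟩ := exists_smul_eq N ω₀ v
    change a • c • ω₀ = b • c • ω₀
    simp only at h
    rw [← mul_smul, hcm, mul_smul, h, ← mul_smul, hcm, mul_smul]
  let _ : CommGroup N := { (inferInstance : Group N) with mul_comm := hcm }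
  let ε : N ≃ Ω := Equiv.ofBijective _ hbij
  let e : Ω ≃ Additive N := ε.symm.trans Additive.ofMul
  let i : AddCommGroup Ω := e.addCommGroup
  have hadd : ∀ a b : N, ε a + ε b = ε (a * b) := fun a b => by
    change e.symm (e (ε a) + e (ε b)) = _
    simp [e]
  have h0 : (0 : Ω) = ω₀ := by
    change e.symm 0 = _
    simp [e, ε]
  have hε : ∀ a : N, ε a = (a : G) • ω₀ := fun _ => rfl
  refine ⟨i, ⟨_, _, hω₀⟩, fun a => ?_, fun g hg x y => ?_⟩
  · obtain ⟨a, rfl⟩ := ε.surjective a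
    refine ⟨a, fun ω => ?_⟩
    obtain ⟨b, rfl⟩ := ε.surjective ω
    rw [hadd, hε, hε, coe_mul, mul_smul]
  · rw [h0] at hg
    have hg' : ∀ a : N, g • ε a = ε ⟨g * a * g⁻¹, hN.conj_mem _ a.2 g⟩ := fun a => by
      rw [hε, hε, mul_smul, inv_smul_eq_iff.mpr hg.symm, mul_smul]
    obtain ⟨a, rfl⟩ := ε.surjective x
    obtain ⟨b, rfl⟩ := ε.surjective y
    rw [hadd, hg', hg', hg', hadd]
    congr 1
    ext
    simp

end Cfsg.Lib.BinAff
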