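import Cfsg.Agent.Lib.Perm.CycZ4
import Cfsg.Agent.Lib.Root.Special
import Cfsg.Agent.Lib.PSL2.Proper
import Cfsg.Agent.Lib.Char.Burnside
import Cfsg.Agent.S5015
import Cfsg.Agent.S0732

/-! The nonsolvable groups satisfying `Hyp` are the groups `PGL₂(p)`, `p > 3`. -/

set_option autoImplicit false
set_option linter.unusedSectionVars false

namespace Cfsg.Lib.Perm.CycZ

open Subgroup MulAction Cfsg.Lib.BG Cfsg.Lib.Transfer
open scoped commutatorElement

universe u
variable {G Ω : Type u} [Group G] [MulAction G Ω] [Finite G] [Finite Ω] {x g v : G} {a b c : Ω}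

variable (G) in
/-- The derived group of the point stabilizer. -/
abbrev der (a : Ω) : Subgroup G := ⁅stabilizer G a, stabilizer G a⁆

theorem conj_der (g : G) (a : Ω) : g ⋆ der G a = der G (g • a) := by
  rw [conj_commutator, conj_stab]

theorem der_fix (hg : g ∈ der G a) : g • a = a := commutator_le_self _ hg

theorem five_le (faith : ∀ g : G, (∀ a : Ω, g • a = a) → g = 1) (hG : ¬ Group.IsSolvable G) :
    5 ≤ Nat.card Ω := by
  by_contra h1
  refine hG (Char.isSolvable_of_card_dvd_pow_mul_pow G (a := 3) (b := 1) Nat.prime_two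
    Nat.prime_three ((card_dvd_of_injective (toPermHom G Ω) ((injective_iff_map_eq_one _).2
      fun g hg => faith g fun a => DFunLike.congr_fun hg a)).trans ?_))
  rw [Nat.card_perm]
  exact Nat.factorial_dvd_factorial (n := 4) (by omega)

namespace Hyp
variable (h : Hyp G Ω x)
include h

theorem der_reg (hab : a ≠ b) (e1 : v * v = 1) (e2 : v ≠ 1) (ha : v • a = a) (hb : v • b = b) :
    (∀ f ∈ der G a, v * f * v = f⁻¹) ∧ ∀ c : Ω, c ≠ a → ∃ f ∈ der G a, f • b = c := by
  have hv : v⁻¹ = v := inv_eq_of_mul_eq_one_right e1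
  choose r r1 r2 using fun c : {c : Ω // c ≠ a} => h.two hab c.2.symm
  let φ : {c : Ω // c ≠ a} → der G a := fun c => ⟨⁅r c, v⁆, commutator_mem_commutator (r1 c) ha⟩
  let ψ : der G a → {c : Ω // c ≠ a} := fun f => ⟨(f : G) • b, fun e =>
    hab (smul_left_cancel (f : G) ((der_fix f.2).trans e.symm))⟩
  have h1 : Function.Injective φ := fun c d e => by
    replace e : r c * v * (r c)⁻¹ = r d * v * (r d)⁻¹ := mul_right_cancel (congrArg Subtype.val e)
    have h2 := h.twoFix _ (conj_sq (g := r c) e1) (by simpa using e2) a c d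
      (by simpa only [r1] using conj_smul (g := r c) ha) (r2 c ▸ conj_smul hb)
      (by rw [e]; exact r2 d ▸ conj_smul hb) c.2.symm
    exact Subtype.ext (h2.resolve_left d.2).symm
  have h2 : Function.Injective ψ := fun f f' e => Subtype.ext (by
    rw [← mul_left_cancel_iff (a := (f' : G)⁻¹), inv_mul_cancel]
    exact h.comm_fix (mul_mem (inv_mem f'.2) f.2) hab (by
      rw [mul_smul, inv_smul_eq_iff]; exact congrArg Subtype.val e))
  refine ⟨fun f hf => ?_, fun c hc => ?_⟩
  · obtain ⟨c, hc⟩ := (h1.bijective_of_nat_card_le (Nat.card_le_card_of_injective ψ h2)).2 ⟨f, hf⟩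
    rw [← show ⁅r c, v⁆ = f from congrArg Subtype.val hc, commutatorElement_inv,
      commutatorElement_def, commutatorElement_def, hv]
    simp only [mul_assoc, e1, mul_one]
  · obtain ⟨f, hf⟩ := (h2.bijective_of_nat_card_le (Nat.card_le_card_of_injective φ h1)).2 ⟨c, hc⟩
    exact ⟨f, f.2, congrArg Subtype.val hf⟩

theorem card_prime (hab : a ≠ b) (hac : c ≠ a) (hbc : c ≠ b) (e1 : v * v = 1) (e2 : v ≠ 1)
    (ha : v • a = a) (hb : v • b = b) : (Nat.card (der G a)).Prime := by
  obtain ⟨ia, ra⟩ := h.der_reg hab e1 e2 ha hb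
  obtain ⟨ib, -⟩ := h.der_reg hab.symm e1 e2 hb ha
  obtain ⟨w, hw, -⟩ := h.two hab hab.symm
  have cyc : ∀ a : Ω, IsCyclic (der G a) := fun a => by
    obtain ⟨k, hk⟩ := h.comm_cyc a
    rw [der, hk]; infer_instance
  have uq : ∀ c d : Ω, der G c = der G d → c = d := fun c d e => by
    by_contra hcd
    obtain ⟨g, rfl, -⟩ := h.two hab hcd
    obtain ⟨f, hf, hf'⟩ := ra _ hac
    have h1 : g * f * g⁻¹ ∈ der G (g • a) := conj_der g a ▸ conj_mem_conj.2 hf
    have h2 := h.comm_fix h1 hcd (der_fix (e ▸ h1))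
    rw [mul_inv_eq_one, mul_eq_left] at h2
    exact hbc (by rw [← hf', h2, one_smul])
  have := cyc a
  have h1 := (Cfsg.Agent.S5015.result (is_two_pretransitive_iff.2 h.two) (by
      have := Fintype.ofFinite Ω
      rw [ENat.card_eq_coe_fintype_card]
      exact_mod_cast (Fintype.two_lt_card_iff.2 ⟨a, b, c, hab, hac.symm, hbc.symm⟩)) a (der G a)
    (commutator_le_self _) (fun y hy => (conj_der y a).trans (by rw [show y • a = a from hy]))
    (by letI := IsCyclic.commGroup (α := der G a); infer_instance) (fun β γ h1 h2 => by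
      obtain ⟨f, hf, rfl⟩ := ra β h1
      obtain ⟨f', hf', rfl⟩ := ra γ h2
      refine ⟨f' * f⁻¹, ⟨mul_mem hf' (inv_mem hf), by rw [mul_smul, inv_smul_smul]⟩, ?_⟩
      rintro t ⟨h3, h4⟩
      rw [eq_mul_inv_iff_mul_eq, ← mul_left_cancel_iff (a := f'⁻¹), inv_mul_cancel]
      exact h.comm_fix (mul_mem (inv_mem hf') (mul_mem h3 hf)) hab (by
        rw [mul_smul, mul_smul, h4, inv_smul_smul])) w
    (fun e => hab (e.symm.trans hw))).1
  rw [show conjBy (der G a) w = der G b from hw ▸ conj_der w a] at h1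
  have hv : v⁻¹ = v := inv_eq_of_mul_eq_one_right e1
  rcases Root.elementary_or_torsionFree ⟨h1, fun e he _ f hf _ h2 => by
      have h3 : f⁻¹ • a = e⁻¹ • b := uq _ _ ((conj_der _ _).symm.trans (h2.trans (conj_der _ _)))
      have h4 : f • a = e • b := by
        have h5 := congrArg (v • ·) h3
        simp only [← ia e he, ← ib f hf, mul_smul, ha, hb, ← mul_smul v v, e1, one_smul] at h5
        exact h5
      have h5 : e * f⁻¹ * e * (e * f⁻¹)⁻¹ ∈ der G b := by
        have := conj_mem_conj (g := e * f⁻¹).2 he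
        rwa [conj_der, mul_smul, h3, smul_inv_smul] at this
      have h6 := h.comm_fix (mul_mem h5 hf) hab.symm (by
        rw [mul_inv_rev, inv_inv]
        simp only [mul_smul]
        rw [h4, inv_smul_smul, der_fix hf, ← h4, inv_smul_smul, der_fix he])
      calc f⁻¹ * e * f = e⁻¹ * (e * f⁻¹ * e * (e * f⁻¹)⁻¹ * f) * f⁻¹ * e := by group
        _ = _ := by rw [h6, mul_one]⟩
    ⟨(cyc a).isMulCommutative, (cyc b).isMulCommutative⟩ with ⟨p, hp, -, h2⟩ | h2
  · obtain ⟨k, hk⟩ := h.comm_cyc a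
    obtain ⟨f, hf, hf'⟩ := ra _ hac
    have := Fact.mk hp
    rw [der, hk, Nat.card_zpowers, orderOf_eq_prime (h2 k (hk.ge (mem_zpowers k))) ?_]
    · exact hp
    · rintro rfl
      rw [der, hk, zpowers_one_eq_bot, mem_bot] at hf
      exact hbc (by rw [← hf', hf, one_smul])
  · obtain ⟨f, hf, hf'⟩ := ra _ hac
    exact absurd (isOfFinOrder_of_finite f) (h2 f hf fun e => hbc (by rw [← hf', e, one_smul]))

theorem pgl (hG : ¬ Group.IsSolvable G) :
    ∃ p : ℕ, ∃ _ : p.Prime, 3 < p ∧ Nonempty (G ≃* Matrix.ProjGenLinGroup (Fin 2) (ZMod p)) := by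
  classical
  have := Fintype.ofFinite Ω
  have h5 := five_le h.faith hG
  obtain ⟨a, b, c, hab, hac, hbc⟩ := Fintype.two_lt_card_iff.1
    (show 2 < Fintype.card Ω by rw [← Nat.card_eq_fintype_card]; omega)
  obtain ⟨v, e1, e2, ha, hb⟩ := h.exists_inv hab hac hbc
  have hp := h.card_prime hab hac.symm hbc.symm e1 e2 ha hb
  obtain ⟨-, ra⟩ := h.der_reg hab e1 e2 ha hb
  have h1 : Nat.card (der G a) = Nat.card {c : Ω // c ≠ a} := Nat.card_eq_of_bijective
    (fun f => ⟨(f : G) • b, fun e => hab (smul_left_cancel (f : G) ((der_fix f.2).trans e.symm))⟩)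
    ⟨fun f f' e => Subtype.ext (by
      rw [← mul_left_cancel_iff (a := (f' : G)⁻¹), inv_mul_cancel]
      exact h.comm_fix (mul_mem (inv_mem f'.2) f.2) hab (by
        rw [mul_smul, inv_smul_eq_iff]; exact congrArg Subtype.val e)), fun c => by
      obtain ⟨f, hf, e⟩ := ra c c.2
      exact ⟨⟨f, hf⟩, Subtype.ext e⟩⟩
  have h2 : Fintype.card Ω = Nat.card (der G a) + 1 := by
    rw [h1, Nat.card_eq_fintype_card, Fintype.card_subtype_compl, Fintype.card_subtype_eq]
    rw [Nat.card_eq_fintype_card] at h5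
    omega
  have tr : IsPretransitive G Ω := ⟨fun a b => let ⟨i, hi⟩ := h.tr a b; ⟨_, hi⟩⟩
  have h3 : (stabilizer G b).relIndex (stabilizer G a) = Nat.card (der G a) := by
    rw [relIndex_of_mul (commutator_le_self _) fun g hg => ?_, ← inf_relIndex_right,
      show stabilizer G b ⊓ der G a = ⊥ from eq_bot_iff.2 fun g hg => h.comm_fix hg.2 hab hg.1,
      relIndex_bot_left]
    obtain ⟨f, hf, e⟩ := ra (g • b) fun e => hab (smul_left_cancel g ((show g • a = a from hg).trans e.symm))
    exact ⟨f, hf, f⁻¹ * g, by rw [mem_stabilizer_iff, mul_smul, ← e, inv_smul_smul],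
      by rw [mul_inv_cancel_left]⟩
  have h4 : Nat.card G = (Nat.card (der G a) + 1) * Nat.card (der G a) *
      Nat.card (stabilizer G b ⊓ stabilizer G a : Subgroup G) := by
    rw [← h2, ← (stabilizer G a).index_mul_card, index_stabilizer_of_transitive,
      Nat.card_eq_fintype_card, mul_assoc, ← h3, ← inf_relIndex_right, mul_comm (relIndex _ _),
      ← relIndex_bot_left, ← relIndex_bot_left, relIndex_mul_relIndex _ _ _ bot_le inf_le_right]
  have h6 : Nat.card (stabilizer G b ⊓ stabilizer G a : Subgroup G) < Nat.card (der G a) := by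
    obtain ⟨k, hk⟩ := h.comm_cyc a
    have hk' : k ∈ der G a := hk.ge (mem_zpowers k)
    have := Fintype.ofFinite G
    rw [Nat.card_eq_fintype_card, Nat.card_eq_fintype_card]
    refine Fintype.card_lt_of_injective_of_notMem (fun r => ⟨r * k * (r : G)⁻¹,
      (mem_normalizer_iff.1 (normalizer_commutator_ge_left _ _ r.2.2) k).1 hk'⟩) (fun r s e => ?_)
      (b := 1) ?_
    · replace e : Commute ((s : G)⁻¹ * r) k := by
        replace e : r * k * (r : G)⁻¹ = s * k * (s : G)⁻¹ := congrArg Subtype.val e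
        calc (s : G)⁻¹ * r * k = (s : G)⁻¹ * (r * k * (r : G)⁻¹) * r := by group
          _ = _ := by rw [e]; group
      have h7 := mul_mem (inv_mem s.2) r.2
      refine Subtype.ext (inv_mul_eq_one.1 (h.faith _ fun c => ?_)).symm
      by_cases hc : c = a
      · exact hc ▸ h7.2
      obtain ⟨f, hf, rfl⟩ := ra c hc
      obtain ⟨i, rfl⟩ := mem_zpowers_iff.1 (hk.le hf)
      rw [← mul_smul, (e.zpow_right i).eq, mul_smul, show _ • b = b from h7.1]
    · rintro ⟨r, hr⟩
      replace hr : r * k * (r : G)⁻¹ = 1 := congrArg Subtype.val hr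
      rw [mul_inv_eq_one, mul_eq_left] at hr
      rw [der, hk, hr, zpowers_one_eq_bot, card_bot] at hp
      exact hp.one_lt.false
  have h7 : 2 ∣ Nat.card (stabilizer G b ⊓ stabilizer G a : Subgroup G) :=
    orderOf_eq_prime (p := 2) (by rw [pow_two, e1]) e2 ▸ orderOf_dvd_natCard _ ⟨hb, ha⟩
  have inj : Function.Injective (toPermHom G Ω) :=
    (injective_iff_map_eq_one _).2 fun g hg => h.faith g fun a => DFunLike.congr_fun hg a
  have e := MonoidHom.ofInjective inj
  have : IsPretransitive (toPermHom G Ω).range Ω :=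
    ⟨fun a b => let ⟨i, hi⟩ := h.tr a b; ⟨⟨_, x ^ i, rfl⟩, hi⟩⟩
  rw [Nat.card_eq_fintype_card, h2] at h5
  rcases Cfsg.Agent.S0732.result hp h2 (toPermHom G Ω).range ((Nat.card_congr e.toEquiv).symm.trans h4)
    h6 with ⟨-, ⟨f⟩⟩ | ⟨-, ⟨f⟩⟩ | ⟨q, hq, h8, h9, -⟩
  · exact ⟨_, hp, by omega, ⟨e.trans f⟩⟩
  · have := Fact.mk hp
    have := PSL2.isSimpleGroup_psl (F := ZMod (Nat.card (der G a))) (by rw [Nat.card_zmod]; omega)
    have := (e.trans f).isSimpleGroup
    rcases (Equiv.Perm.sign.comp (toPermHom G Ω)).normal_ker.eq_bot_or_eq_top with h8 | h8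
    · exact absurd (Group.isSolvable_of_isSolvable_injective ((MonoidHom.ker_eq_bot_iff _).1 h8)) hG
    · exact absurd ((h.sign_gen hab).symm.trans (h8.ge (mem_top x))) (by decide)
  · rcases h9 with h9 | h9
    · omega
    · rw [h9, Nat.prime_dvd_prime_iff_eq Nat.prime_two hq] at h7
      subst h7
      omega

end Hyp

end Cfsg.Lib.Perm.CycZ
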