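import Cfsg.Agent.Lib.Perm.Fac
import Cfsg.Agent.Lib.Small.Basic

/-!
# Groups acting on an elementary abelian `2`-group with maximal vector stabilisers

If every non-trivial vector has a maximal stabiliser and the non-abelian minimal normal subgroup `M` is irreducible,
then `M` is simple.
-/

set_option autoImplicit false

namespace Cfsg.Lib.Perm

open Subgroup MulAction Cfsg.Lib.Core Cfsg.Lib.Transfer
open scoped Pointwise

variable {H V : Type*} [Group H] [CommGroup V] [MulDistribMulAction H V]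

/-- The subgroup spanned by the orbit of `v` under `C_M(U)`. -/
def facSpan (M U : Subgroup H) (v : V) : Subgroup V := closure {x | ∃ c ∈ M ⊓ centralizer (U : Set H), c • v = x}

variable {M T U : Subgroup H}

theorem mem_facSpan (v : V) : v ∈ facSpan M U v := subset_closure ⟨1, one_mem _, one_smul _ _⟩

theorem facSpan_le {L : Subgroup V} (h : ∀ c ∈ M ⊓ centralizer (U : Set H), ∀ x ∈ L, c • x ∈ L) {v : V} (hv : v ∈ L) :
    facSpan M U v ≤ L := (closure_le _).2 (by rintro _ ⟨c, hc, rfl⟩; exact h c hc v hv)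

theorem facSpan_map (φ : V →* V) (h : ∀ c ∈ M ⊓ centralizer (U : Set H), ∀ x, φ (c • x) = c • φ x) (v : V) :
    (facSpan M U v).map φ = facSpan M U (φ v) := by
  rw [facSpan, MonoidHom.map_closure]
  congr 1
  ext x
  exact ⟨by rintro ⟨_, ⟨c, hc, rfl⟩, rfl⟩; exact ⟨c, hc, (h c hc v).symm⟩,
    by rintro ⟨c, hc, rfl⟩; exact ⟨_, ⟨c, hc, rfl⟩, h c hc v⟩⟩

theorem smul_facSpan [hM : M.Normal] (k : H) (v : V) : k • facSpan M U v = facSpan M (k ⋆ U) (k • v) := by
  rw [facSpan, facSpan, smul_closure, ← conj_centralizer, ← conj_eq_self_of_normal k M, ← conj_inf,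
    conj_eq_self_of_normal k M]
  congr 1
  ext x
  constructor
  · rintro ⟨_, ⟨c, hc, rfl⟩, rfl⟩
    exact ⟨_, conj_mem_conj.2 hc, by simp [mul_smul]⟩
  · rintro ⟨c, hc, rfl⟩
    exact ⟨_, ⟨_, mem_conj.1 hc, rfl⟩, by simp [mul_smul]⟩

theorem facSpan_smul {m : H} (hm : m ∈ M ⊓ centralizer (U : Set H)) (v : V) : facSpan M U (m • v) = facSpan M U v := by
  rw [facSpan, facSpan]
  congr 1
  ext x
  exact ⟨by rintro ⟨c, hc, rfl⟩; exact ⟨_, mul_mem hc hm, mul_smul _ _ _⟩,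
    by rintro ⟨c, hc, rfl⟩; exact ⟨_, mul_mem hc (inv_mem hm), by simp [mul_smul]⟩⟩

theorem smul_mem_facSpan [M.Normal] {c : H} (hc : c ∈ M ⊓ centralizer (U : Set H)) {v x : V} (hx : x ∈ facSpan M U v) :
    c • x ∈ facSpan M U v := by
  have := smul_mem_pointwise_smul x c _ hx
  rwa [smul_facSpan, conj_eq_self_of_mem_centralizer hc.2, facSpan_smul hc] at this

variable [Finite H] [FaithfulSMul H V] (hM : IsMinNormal M) (hc : ¬ IsMulCommutative M)
  (hirr : ∀ L : Subgroup V, (∀ m ∈ M, ∀ x ∈ L, m • x ∈ L) → L = ⊥ ∨ L = ⊤)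
include hM hc hirr

omit [Finite H] hc in
theorem Fac.exists_move (hU : Fac M U) {s : H} (hs : s ∈ U) (h1 : s ≠ 1) {u : V} (hu : u ≠ 1) :
    ∃ g ∈ U, s • g • u ≠ g • u := by
  by_contra! h
  rcases hU.eq_of_norm hM (K := U ⊓ fixingSubgroup H {x | ∃ g ∈ U, g • u = x}) inf_le_left (fun t ht x hx =>
    mem_inf.2 ⟨hU.norm t (hU.le ht) x hx.1, (mem_fixingSubgroup_iff H).2 (by
      rintro _ ⟨g, hg, rfl⟩
      rw [mul_smul, mul_smul, (mem_fixingSubgroup_iff H).1 hx.2 _ ⟨t⁻¹ * g, mul_mem (inv_mem ht) hg, mul_smul _ _ _⟩,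
        smul_inv_smul])⟩) with e | e
  · exact h1 (mem_bot.1 (e.le (mem_inf.2 ⟨hs, (mem_fixingSubgroup_iff H).2 (by rintro _ ⟨g, hg, rfl⟩; exact h g hg)⟩)))
  rcases hirr (FixedPoints.subgroup U V) (fun m hm x hx t => by
    have := hx ⟨_, hU.norm _ (inv_mem hm) t t.2⟩
    rwa [Subgroup.mk_smul, inv_inv, mul_smul, mul_smul, inv_smul_eq_iff] at this) with e' | e'
  · exact hu (mem_bot.1 (e'.le fun t => (mem_fixingSubgroup_iff H).1 (e.ge t.2).2 u ⟨1, one_mem _, one_smul _ _⟩))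
  · exact h1 (FaithfulSMul.eq_of_smul_eq_smul (α := V) fun x => (e'.ge (mem_top x) ⟨s, hs⟩).trans (one_smul _ _).symm)

variable (hmax : ∀ v : V, v ≠ 1 → IsCoatom (stabilizer H v))
include hmax

omit [FaithfulSMul H V] in
theorem Fac.smul_eq_of_facSpan (hU : Fac M U) {v : V} (hB : facSpan M U v ≠ ⊤) {t : H} (ht : t ∈ U)
    (h : t • facSpan M U v = facSpan M U v) : t • v = v := by
  have := hM.normal
  by_cases hv : v = 1
  · rw [hv, smul_one]
  rcases Fac.dichotomy hM hc (hmax v hv) (fun U => U ⊓ stabilizer H (facSpan M U v)) (fun _ => inf_le_left)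
    (fun k hk U t ht => mem_inf.2 ⟨conj_mem_conj.2 ht.1, by
      rw [mem_stabilizer_iff, ← show k • v = v from hk, ← smul_facSpan, mul_smul, mul_smul, inv_smul_smul,
        show t • facSpan M U v = _ from ht.2]⟩)
    (fun U t ht m hm h => mem_inf.2 ⟨ht, by
      rw [mem_stabilizer_iff, ← facSpan_smul hm, smul_facSpan, conj_eq_self_of_mem ht, ← mul_smul,
        show (t * m) • v = v from h, facSpan_smul hm]⟩) with e | e
  · exact e U hU ⟨ht, h⟩
  refine absurd ((hirr _ fun m hm x hx => ?_).resolve_left fun e => hv (mem_bot.1 (e.le (mem_facSpan v)))) hB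
  obtain ⟨s, hs, c, hc, rfl⟩ := hU.decomp hM hm
  rw [mul_smul, ← show s • facSpan M U v = _ from (e U hU hs).2]
  exact smul_mem_pointwise_smul _ _ _ (smul_mem_facSpan hc hx)

theorem Fac.eq_of_extreme [Finite V] (h2 : ∀ v : V, v * v = 1) (hT : Fac M T) : T = M := by
  have := hM.normal
  by_contra hne
  obtain ⟨g, hg⟩ : ∃ g, g ⋆ T ≠ T := by
    by_contra! h
    exact hne (hM.eq_of_le ⟨fun t h1 g => (h g).le (conj_mem_conj.2 h1)⟩ hT.ne hT.le)
  have hU := hT.conj g
  have hUc : g ⋆ T ≤ M ⊓ centralizer T := le_inf hU.le (hU.comm hT hg)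
  have star := fun {v t} => hT.smul_eq_of_facSpan (v := v) (t := t) hM hc hirr hmax
  obtain ⟨t0, ht0, t01, t02⟩ := hT.exists_inv hM hc
  obtain ⟨P⟩ := (inferInstance : Nonempty (Sylow 2 T))
  have hP : (P : Subgroup T) ≠ ⊥ := fun e => P.not_dvd_index (by
    rw [e, index_bot, ← orderOf_eq_prime (p := 2) (x := (⟨t0, ht0⟩ : T)) (Subtype.ext (by simpa [sq])) (by simpa)]
    exact orderOf_dvd_natCard _)
  let F := FixedPoints.subgroup (P : Subgroup T) V
  have hF : ∀ c ∈ M ⊓ centralizer (T : Set H), ∀ x ∈ F, c • x ∈ F := fun c hc x hx s =>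
    show s.1.1 • c • x = c • x by rw [← mul_smul, hc.2 _ s.1.2, mul_smul, show s.1.1 • x = x from hx s]
  have hF1 : F ≠ ⊤ := fun e => hP (eq_bot_iff.2 fun s hs => Subtype.ext
    (FaithfulSMul.eq_of_smul_eq_smul (α := V) fun x => (e.ge (mem_top x) ⟨s, hs⟩).trans (one_smul _ _).symm))
  have hF0 : F ≠ ⊥ := by
    obtain ⟨v, hv⟩ : ∃ v : V, v ≠ 1 := by
      by_contra! h
      exact hF1 (eq_top_iff.2 fun x _ => h x ▸ one_mem F)
    obtain ⟨b, h1, h⟩ := P.isPGroup'.exists_fixed_point_of_prime_dvd_card_of_fixed_point V (by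
      rw [← orderOf_eq_prime (p := 2) (x := v) (by rw [sq, h2]) hv]; exact orderOf_dvd_natCard v) (one_mem F)
    exact fun e => h (mem_bot.1 (e.le h1)).symm
  obtain ⟨W, ⟨hW0, hWF, hWi⟩, hmin⟩ := (wellFounded_lt (α := Subgroup V)).has_min
    {L | L ≠ ⊥ ∧ L ≤ F ∧ ∀ c ∈ M ⊓ centralizer (T : Set H), ∀ x ∈ L, c • x ∈ L} ⟨F, hF0, le_rfl, hF⟩
  have hW : ∀ w ∈ W, w ≠ 1 → facSpan M T w = W := fun w hw h1 => (facSpan_le hWi hw).eq_of_not_lt
    (hmin _ ⟨fun e => h1 (mem_bot.1 (e.le (mem_facSpan w))), (facSpan_le hWi hw).trans hWF,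
      fun c hc x => smul_mem_facSpan hc⟩)
  have hW1 : W ≠ ⊤ := fun e => hF1 (eq_top_iff.2 (e.ge.trans hWF))
  obtain ⟨s, hs, s1, s2⟩ := hU.exists_inv hM hc
  obtain ⟨u, hu, u1, hsu⟩ : ∃ u ∈ W, u ≠ 1 ∧ s • u = u := by
    obtain ⟨w, hw, w1⟩ := W.bot_or_exists_ne_one.resolve_left hW0
    by_cases h : s • w = w
    · exact ⟨w, hw, w1, h⟩
    exact ⟨w * s • w, mul_mem hw (hWi s (hUc hs) w hw), fun e => h (mul_left_cancel (e.trans (h2 w).symm)),
      by rw [smul_mul', ← mul_smul, s2, one_smul, mul_comm]⟩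
  obtain ⟨w, hw, hsw⟩ : ∃ w ∈ W, s • w ≠ w :=
    let ⟨c, h1, h⟩ := hU.exists_move hM hirr hs s1 u1
    ⟨_, hWi c (hUc h1) u hu, h⟩
  obtain ⟨t, ht, t2, htu⟩ : ∃ t ∈ T, t * t = 1 ∧ t • u ≠ u :=
    let ⟨c, h1, h⟩ := hT.exists_move hM hirr ht0 t01 u1
    ⟨c⁻¹ * t0 * c, mul_mem (mul_mem (inv_mem h1) ht0) h1, by simp [mul_assoc, ← mul_assoc t0, t02],
      fun e => h (by rwa [mul_smul, mul_smul, inv_smul_eq_iff] at e)⟩
  have hW' : ∀ w ∈ t • W, w ≠ 1 → facSpan M T w = t • W := by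
    rintro _ ⟨w, hw, rfl⟩ h1
    rw [← hW w hw fun e => h1 (by subst e; exact smul_one t), smul_facSpan, conj_eq_self_of_mem ht]; rfl
  have hdis : ∀ x ∈ W, x ∈ t • W → x = 1 := fun x h1 h => by
    by_contra x1
    exact htu (star (by rwa [hW u hu u1]) ht (by rw [hW u hu u1, ← hW' x h x1, hW x h1 x1]))
  have hcan : ∀ {a b : V}, a * b = 1 → a = b := fun {a b} h => mul_right_cancel (h.trans (h2 b).symm)
  have htop : W ⊔ t • W = ⊤ := by
    have h1 : t • W ≤ facSpan M T (u * t • w) := by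
      rw [← hW' _ (smul_mem_pointwise_smul _ t _ (mul_mem (hWi s (hUc hs) w hw) hw)) fun e =>
        hsw (hcan ((smul_eq_iff_eq_inv_smul t).1 e |>.trans (smul_one _)))]
      refine facSpan_le (fun c hc x => smul_mem_facSpan hc) ?_
      have := mul_mem (smul_mem_facSpan (hUc hs) (mem_facSpan (u * t • w))) (mem_facSpan (u * t • w))
      rwa [smul_mul', hsu, mul_mul_mul_comm, h2, one_mul, ← mul_smul, ← (hUc hs).2 t ht, mul_smul, ← smul_mul'] at this
    have h3 : facSpan M T (u * t • w) = W ⊔ t • W := by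
      refine le_antisymm (facSpan_le (fun c hc x hx => ?_) (mul_mem_sup hu (smul_mem_pointwise_smul _ _ _ hw)))
        (sup_le ?_ h1)
      · obtain ⟨a, ha, _, ⟨b, hb, rfl⟩, rfl⟩ := mem_sup.1 hx
        rw [smul_mul', MulDistribMulAction.toMonoidEnd_apply, MulDistribMulAction.toMonoidHom_apply, ← mul_smul,
          ← hc.2 t ht, mul_smul]
        exact mul_mem_sup (hWi c hc a ha) (smul_mem_pointwise_smul _ _ _ (hWi c hc b hb))
      · rw [← hW u hu u1]
        exact facSpan_le (fun c hc x => smul_mem_facSpan hc)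
          ((mul_mem_cancel_right (h1 (smul_mem_pointwise_smul _ _ _ hw))).1 (mem_facSpan _))
    by_contra h
    have := star (h3 ▸ h) ht (by rw [h3, smul_sup, ← mul_smul, t2, one_smul, sup_comm])
    rw [smul_mul', ← mul_smul, t2, one_smul] at this
    have h4 : t • (u * w) = u * w := by
      refine hcan ?_
      rw [smul_mul', mul_comm u, mul_mul_mul_comm, this, mul_comm (t • w), h2]
    exact hsw (by rw [← hcan (hdis _ (mul_mem hu hw) (h4 ▸ smul_mem_pointwise_smul _ _ _ (mul_mem hu hw))), hsu])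
  have hFW : F ≤ W := fun x hx => by
    obtain ⟨a, ha, b, hb, rfl⟩ := mem_sup.1 (htop.ge (mem_top x))
    by_cases h : b = 1
    · rwa [h, mul_one]
    exact absurd (eq_top_iff.2 (htop.ge.trans (sup_le hWF ((hW' b hb h).ge.trans
      (facSpan_le hF ((mul_mem_cancel_left (hWF ha)).1 hx)))))) hF1
  have hexp : ∀ n ∈ normalizer ((P : Subgroup T) : Set T), n * n = 1 := fun n hn => by
    have h1 : ∀ w ∈ W, n.1 • w = w := fun w hw => by
      by_cases h : w = 1
      · rw [h, smul_one]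
      refine star (by rwa [hW w hw h]) n.2 ?_
      rw [hW w hw h, le_antisymm hWF hFW]
      have key : ∀ n ∈ normalizer ((P : Subgroup T) : Set T), ∀ x ∈ F, n.1 • x ∈ F := fun n hn x hx s => by
        have : (n.1⁻¹ * s.1.1 * n.1) • x = x := hx ⟨_, (mem_normalizer_iff''.1 hn s.1).1 s.2⟩
        rwa [mul_smul, mul_smul, inv_smul_eq_iff] at this
      exact le_antisymm (by rintro _ ⟨x, hx, rfl⟩; exact key n hn x hx) fun x hx =>
        mem_pointwise_smul_iff_inv_smul_mem.2 (key _ (inv_mem hn) x hx)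
    let φ : V →* V := MonoidHom.id V * MulDistribMulAction.toMonoidHom V n.1
    have hφ : ∀ x, φ x = x * n.1 • x := fun _ => rfl
    have hk : ∀ w ∈ W, φ w = 1 := fun w hw => by rw [hφ, h1 w hw, h2]
    have hcom : ∀ c : H, n.1 * c = c * n.1 → ∀ x, φ (c • x) = c • φ x := fun c h x => by
      rw [hφ, hφ, smul_mul', ← mul_smul, h, mul_smul]
    have hr : (t • W).map φ = φ.range := by
      rw [MonoidHom.range_eq_map, ← htop, Subgroup.map_sup, (map_eq_bot_iff W).2 hk, bot_sup_eq]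
    refine Subtype.ext (FaithfulSMul.eq_of_smul_eq_smul (α := V) fun x => ?_)
    have h3 : n.1 • φ x = φ x := by
      obtain ⟨b, hb, e⟩ := hr.ge ⟨x, rfl⟩
      by_cases h : b = 1
      · rw [← e, h, map_one, smul_one]
      have h4 : facSpan M T (φ x) = φ.range := by
        rw [← e, ← facSpan_map φ (fun c hc => hcom c (hc.2 n n.2)), hW' b hb h, hr]
      refine star (fun e => u1 ?_) n.2 ?_
      · exact Finite.injective_iff_surjective.2 (MonoidHom.range_eq_top.1 (h4 ▸ e)) ((hk u hu).trans (map_one φ).symm)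
      rw [h4]
      refine le_antisymm ?_ ?_
      · rintro _ ⟨_, ⟨y, rfl⟩, rfl⟩
        exact ⟨_, hcom _ rfl y⟩
      · rintro _ ⟨y, rfl⟩
        exact mem_pointwise_smul_iff_inv_smul_mem.2 ⟨_, hcom _ (by simp) y⟩
    rw [hφ, smul_mul', mul_comm, mul_left_inj] at h3
    exact (mul_smul _ _ _).trans (h3.trans (one_smul _ _).symm)
  have := hT.simple hM
  refine Small.not_normalizer_le_centralizer P hP (fun e => hT.not_solvable hM hc ?_) fun n hn y hy => ?_
  · have := (P.isPGroup'.of_equiv ((MulEquiv.subgroupCongr e).trans topEquiv)).isNilpotent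
    infer_instance
  · have hy := le_normalizer hy
    rw [← inv_eq_of_mul_eq_one_right (hexp _ (mul_mem hy hn)), mul_inv_rev, inv_eq_of_mul_eq_one_right (hexp _ hn),
      inv_eq_of_mul_eq_one_right (hexp _ hy)]

end Cfsg.Lib.Perm
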