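import Cfsg.Agent.Lib.Perm.LW2

/-! M. Hall's theorem on 4-transitive groups whose four-point stabiliser has odd order. -/

set_option autoImplicit false

namespace Cfsg.Lib.Perm
open MulAction Function Equiv

variable {G α : Type*} [Group G] [MulAction G α]

theorem exists_invol_mul_pow {g : G} (h : Odd (orderOf (g * g))) :
    ∃ j : ℕ, g * (g * g) ^ j * (g * (g * g) ^ j) = 1 := by
  obtain ⟨j, hj⟩ := h
  refine ⟨j, ?_⟩
  rw [← sq g, ← pow_mul, ← pow_succ', ← (Commute.refl g).mul_pow, ← hj, pow_orderOf_eq_one]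

theorem pow_smul_ind {ι : Type*} {x : ι → α} {g : G} {σ : Perm ι} (h : ∀ i, g • x i = x (σ i))
    (m : ℕ) (i : ι) : g ^ m • x i = x ((σ ^ m) i) := by
  induction m with
  | zero => simp
  | succ m ih => rw [pow_succ', mul_smul, ih, h, pow_succ', Perm.mul_apply]

theorem exists_ind_of_mapsTo {ι : Type*} [Finite ι] {x : ι → α} (hx : Injective x) {g : G}
    (h : ∀ i, ∃ j, g • x i = x j) : ∃ σ : Perm ι, ∀ i, g • x i = x (σ i) := by
  choose f hf using h
  exact ⟨Equiv.ofBijective f (Finite.injective_iff_bijective.1 fun i j e =>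
    hx (smul_left_cancel g (by rw [hf, hf, e]))), hf⟩

namespace H4
variable (H : H4 G α)
include H

theorem not_swap {g : G} {a b c d y z : α} (h1 : a ≠ b) (h2 : a ≠ c) (h3 : a ≠ d) (h4 : b ≠ c)
    (h5 : b ≠ d) (h6 : c ≠ d) (e1 : g • a = a) (e2 : g • b = b) (e3 : g • c = c) (e4 : g • d = d)
    (hyz : y ≠ z) (gy : g • y = z) (gz : g • z = y) : False :=
  hyz (by rw [← gy, smul_eq_of_sq_of_odd (H.odd g a b c d h1 h2 h3 h4 h5 h6 e1 e2 e3 e4)
    (by rw [gy, gz])])

theorem fix_third {t w : G} (ht : t * t = 1) (ht1 : t ≠ 1) (hw : w * t * w⁻¹ = t) {y z x : α}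
    (hyz : y ≠ z) (ty : t • y = y) (tz : t • z = z) (tx : t • x = x) (hxy : x ≠ y) (hxz : x ≠ z)
    (h : (w • y = y ∧ w • z = z) ∨ (w • y = z ∧ w • z = y)) : w • x = x := by
  by_contra hc
  have : y ≠ w • x ∧ z ≠ w • x := by
    rcases h with h | h
    · exact ⟨fun e => hxy (smul_left_cancel w (e.symm.trans h.1.symm)),
        fun e => hxz (smul_left_cancel w (e.symm.trans h.2.symm))⟩
    · exact ⟨fun e => hxz (smul_left_cancel w (e.symm.trans h.2.symm)),
        fun e => hxy (smul_left_cancel w (e.symm.trans h.1.symm))⟩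
  exact ht1 (H.eq_one_of_invol ht hyz hxy.symm this.1 hxz.symm this.2 (Ne.symm hc) ty tz tx
    (by rw [smul_fixed_of_conj hw, tx]))

theorem ind {ι : Type*} {x : ι → α} (hx : Injective x)
    (h : IsMultiplyPretransitive (Ind G x) ι 4) : H4 (Ind G x) ι := by
  refine ⟨h, ?_⟩
  rintro ⟨σ, g, hg⟩ a b c d h1 h2 h3 h4 h5 h6 e1 e2 e3 e4
  have ho := H.odd g _ _ _ _ (hx.ne h1) (hx.ne h2) (hx.ne h3) (hx.ne h4) (hx.ne h5) (hx.ne h6)
    ((hg a).trans (congrArg x e1)) ((hg b).trans (congrArg x e2)) ((hg c).trans (congrArg x e3))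
    ((hg d).trans (congrArg x e4))
  refine ho.of_dvd_nat (orderOf_dvd_of_pow_eq_one (Subtype.ext (Equiv.ext fun i => hx ?_)))
  exact (pow_smul_ind hg _ i).symm.trans (by rw [pow_orderOf_eq_one, one_smul]; rfl)

omit H in
theorem eq_alt [Fintype α] [DecidableEq α] {G : Subgroup (Perm α)} (H : H4 G α)
    (h : Fintype.card α = 6 ∨ Fintype.card α = 7) : G = alternatingGroup α := by
  have h4 : ∀ (g : G) (S : Finset α), 4 ≤ S.card → (∀ x ∈ S, g • x = x) → Odd (orderOf g) := by
    intro g S hS hg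
    obtain ⟨a, b, c, d, ha, hb, hc, hd, h1, h2, h3, h4, h5, h6⟩ := Finset.three_lt_card_iff.1 hS
    exact H.odd g a b c d h1 h2 h3 h4 h5 h6 (hg a ha) (hg b hb) (hg c hc) (hg d hd)
  have hle : alternatingGroup α ≤ G := by
    refine _root_.IsMultiplyPretransitive.alternatingGroup_le α G ?_
    rw [Nat.card_eq_fintype_card]
    rcases h with h | h
    · rw [h]; exact H.tr
    rcases card_cases_of_odd (j := 0) H.tr (by omega) h4 (fun g S hS hg => by
      have h2 : g.1.support.card ≤ 2 := by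
        have := Finset.card_le_card (s := g.1.support) (t := Sᶜ) fun x hx =>
          Finset.mem_compl.2 fun h => Perm.mem_support.1 hx (hg x h)
        rw [Finset.card_compl] at this
        omega
      have ho := h4 g S (by omega) hg
      by_contra hc
      have h3 := Perm.one_lt_card_support_of_ne_one (f := g.1) fun e => hc (Subtype.ext e)
      rw [← Subgroup.orderOf_coe, (Perm.card_support_eq_two.1 (by omega)).orderOf] at ho
      exact absurd ho (by decide)) with ⟨-, h5⟩ | ⟨h5, -⟩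
    · rw [h]; exact h5
    · omega
  refine le_antisymm (fun σ hσ => ?_) hle
  by_contra hc
  obtain ⟨s, hs⟩ := exists_finset_card (α := α) (k := 6) (by rw [Nat.card_eq_fintype_card]; omega)
  obtain ⟨x, hx, -⟩ := exists_enum s hs
  have n : ∀ i j, i ≠ j → x i ≠ x j := fun i j h => hx.ne h
  have hm : Equiv.swap (x 4) (x 5) ∈ G := by
    rw [← inv_mul_cancel_right (Equiv.swap (x 4) (x 5)) σ]
    refine G.mul_mem (hle ?_) hσ
    rw [Perm.mem_alternatingGroup] at hc ⊢
    rw [Perm.sign_mul, Perm.sign_inv, Perm.sign_swap (n 4 5 (by decide)),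
      (Int.units_eq_one_or _).resolve_left hc]
    rfl
  have f : ∀ i, i ≠ 4 → i ≠ 5 → (⟨_, hm⟩ : G) • x i = x i := fun i h1 h2 =>
    swap_apply_of_ne_of_ne (n _ _ h1) (n _ _ h2)
  exact H.not_swap (g := ⟨_, hm⟩) (n 0 1 (by decide)) (n 0 2 (by decide)) (n 0 3 (by decide))
    (n 1 2 (by decide)) (n 1 3 (by decide)) (n 2 3 (by decide)) (f 0 (by decide) (by decide))
    (f 1 (by decide) (by decide)) (f 2 (by decide) (by decide)) (f 3 (by decide) (by decide))
    (n 4 5 (by decide)) (swap_apply_left _ _) (swap_apply_right _ _)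

/-- Hall's four-group. -/
theorem exists_cfg (s : Finset α) (hs : s.card = 6) : ∃ (a b : G) (x : Fin 6 → α), Injective x ∧
    a * a = 1 ∧ b * b = 1 ∧ a * b = b * a ∧ (∀ i, a • x i = x (![0, 1, 3, 2, 5, 4] i)) ∧
    ∀ i, b • x i = x (![1, 0, 3, 2, 4, 5] i) := by
  obtain ⟨t, p, q, c, d, r, r', ht, h1, h2, h3, h6, hcd, e1, e2, e3, e4⟩ := H.exists_good s hs
  have h4 : q ≠ r := fun h => h3 (by rw [← e2, ← h, smul_eq_of_invol ht e1])
  have h5 : q ≠ r' := fun h => h2 (smul_left_cancel t (by rw [e1, e2, h]))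
  obtain ⟨a, ha, a3, a1, a2⟩ := H.exists_swap_fix h6 h2.symm h4.symm h3.symm h5.symm h1
  have a4 := smul_eq_of_invol ha a3
  have t2 := smul_eq_of_invol ht e1
  have t4 := smul_eq_of_invol ht e2
  obtain ⟨w, hw, ⟨k, hk⟩, hw'⟩ := exists_invol_pow (α := α) (g := a * t) (H.odd _ p q r r' h1 h2 h3
    h4 h5 h6 (by simp only [mul_smul, e1, a2, t2, a1]) (by simp only [mul_smul, e1, a2, t2, a1])
    (by simp only [mul_smul, e2, a4]) (by simp only [mul_smul, t4, a3]))
  have w1 : w • p = q := by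
    rw [hw' p (by simp only [mul_smul, e1, a2, t2, a1]), mul_smul, e1, a2]
  have w3 : w • r = r := by rw [hw' r (by simp only [mul_smul, e2, a4]), mul_smul, e2, a4]
  have haw : a * w = w * a := by
    have h := Inv.conj_zpow_of_inv (Inv.pair_left_inv ha ht) k
    simp only at hk
    rw [zpow_neg, hk, Inv.inv_eq_of_mul_self hw] at h
    rw [← mul_inv_eq_iff_eq_mul, h]
  have hb : a * w * (a * w) = 1 := by
    rw [mul_assoc, ← mul_assoc w, ← haw, mul_assoc, hw, mul_one, ha]
  have b1 : (a * w) • p = q := by rw [mul_smul, w1, a2]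
  have b3 : (a * w) • r = r' := by rw [mul_smul, w3, a3]
  have hab : a * (a * w) = a * w * a := by rw [mul_assoc, haw]
  generalize a * w = b at hb b1 b3 hab
  obtain ⟨h, hh, -⟩ := H.conj_swap_swap ht hb h1 h2 h3 h6 h1 h2 h3 h6 e1 e2 b1 b3
  have b2 := smul_eq_of_invol hb b1
  have b4 := smul_eq_of_invol hb b3
  have aux : ∀ y, b • y = y → p ≠ y ∧ q ≠ y ∧ r ≠ y ∧ r' ≠ y := fun y hy =>
    ⟨fun e => h1 (by rw [← b1, e, hy]), fun e => h1 (by rw [← b2, e, hy]),
      fun e => h6 (by rw [← b3, e, hy]), fun e => h6 (by rw [← b4, e, hy])⟩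
  obtain ⟨y, hy, hay⟩ : ∃ y, b • y = y ∧ a • y ≠ y := by
    by_contra hc
    push Not at hc
    have c1 : b • h • c = h • c := by rw [smul_fixed_of_conj hh, e3]
    have c2 : b • h • d = h • d := by rw [smul_fixed_of_conj hh, e4]
    have := H.eq_one_of_invol ha h1 (aux _ c1).1 (aux _ c2).1 (aux _ c1).2.1 (aux _ c2).2.1
      (fun e => hcd (smul_left_cancel h e)) a1 a2 (hc _ c1) (hc _ c2)
    rw [this, one_smul] at a3
    exact h6 a3
  have hy' : b • a • y = a • y := by rw [← mul_smul, ← hab, mul_smul, hy]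
  obtain ⟨n1, n2, n3, n4⟩ := aux _ hy
  obtain ⟨m1, m2, m3, m4⟩ := aux _ hy'
  refine ⟨a, b, ![p, q, r, r', y, a • y], ?_, ha, hb, hab, fun i => ?_, fun i => ?_⟩
  · have := hay.symm
    simp only [Fin.cons_injective_iff, Matrix.vecCons]
    simp [*, Function.Injective]
  · fin_cases i <;> simp [*, smul_smul_of_invol ha]
  · fin_cases i <;> simp [*]

section cfg
variable {a b : G} {x : Fin 6 → α} (hx : Injective x) (ha : a * a = 1) (hb : b * b = 1)
  (hab : a * b = b * a) (ea : ∀ i, a • x i = x (![0, 1, 3, 2, 5, 4] i))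
  (eb : ∀ i, b • x i = x (![1, 0, 3, 2, 4, 5] i))
include hx ha hb hab ea eb

theorem cfg_fix {y : α} (hy : a • y = y ∨ b • y = y ∨ (a * b) • y = y) :
    (∃ i, x i = y) ∨ (a • y = y ∧ b • y = y) := by
  refine or_iff_not_imp_left.2 fun hc => ?_
  push Not at hc
  have n : ∀ i j, i ≠ j → x i ≠ x j := fun i j h => hx.ne h
  rcases hy with hy | hy | hy
  · exact ⟨hy, H.fix_third ha (fun e => n 2 3 (by decide) (by simpa [e] using ea 2))
      (by rw [← hab, mul_inv_cancel_right]) (n 0 1 (by decide)) (ea 0) (ea 1) hy (hc 0).symm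
      (hc 1).symm (Or.inr ⟨eb 0, eb 1⟩)⟩
  · exact ⟨H.fix_third hb (fun e => n 2 3 (by decide) (by simpa [e] using eb 2))
      (by rw [hab, mul_inv_cancel_right]) (n 4 5 (by decide)) (eb 4) (eb 5) hy (hc 4).symm
      (hc 5).symm (Or.inr ⟨ea 4, ea 5⟩), hy⟩
  · have h1 : a • y = y := H.fix_third (t := a * b)
      (by rw [mul_assoc, ← mul_assoc b, ← hab, mul_assoc, hb, mul_one, ha])
      (fun e => n 0 1 (by decide) (by
        have : (a * b) • x 0 = x 1 := by rw [mul_smul, eb, ea]; rfl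
        simpa [e] using this))
      (by rw [mul_assoc, hab, mul_inv_cancel_right, hab]) (n 2 3 (by decide))
      (by rw [mul_smul, eb, ea]; rfl) (by rw [mul_smul, eb, ea]; rfl) hy (hc 2).symm
      (hc 3).symm (Or.inr ⟨ea 2, ea 3⟩)
    exact ⟨h1, by rwa [hab, mul_smul, h1] at hy⟩

theorem cfg_exists_invol {h : α} (h1 : a • h ≠ h) (h2 : b • h ≠ h) (h3 : a • b • h ≠ h) :
    ∃ s : G, s * s = 1 ∧ s * a * s⁻¹ = a ∧ s * b * s⁻¹ = a * b ∧
      (∀ i, s • x i = x (![1, 0, 4, 5, 2, 3] i)) ∧ (s • h = h ∨ s • b • h = b • h) := by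
  have n : ∀ i j, i ≠ j → x i ≠ x j := fun i j h => hx.ne h
  have aa := smul_smul_of_invol (α := α) ha
  have bb := smul_smul_of_invol (α := α) hb
  have ba : ∀ y : α, b • a • y = a • b • y := fun y => by rw [← mul_smul, ← hab, mul_smul]
  have hc : a * b * (a * b) = 1 := by
    rw [mul_assoc, ← mul_assoc b, ← hab, mul_assoc, hb, mul_one, ha]
  have n4 : a • h ≠ b • h := fun e => h3 (by rw [← e, aa])
  have n5 : a • h ≠ a • b • h := fun e => h2 (smul_left_cancel a e).symm
  have n6 : b • h ≠ a • b • h := fun e => h1 (smul_left_cancel b (by rw [ba, ← e]))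
  have odd := fun g => H.odd g h (a • h) (b • h) (a • b • h) h1.symm h2.symm h3.symm n4 n5 n6
  obtain ⟨t, ht, t3, t1, t2⟩ := H.exists_swap_fix n6 h2 n4.symm h3 n5.symm h1.symm
  have t4 := smul_eq_of_invol ht t3
  obtain ⟨w, hw, ⟨k, hk⟩, hw'⟩ := exists_invol_pow (α := α) (g := a * t) (odd _
    (by simp only [mul_smul, t1, t2, aa]) (by simp only [mul_smul, t1, t2, aa])
    (by simp only [mul_smul, t3, aa]) (by simp only [mul_smul, t4]))
  have haw : a * w = w * a := by
    have h := Inv.conj_zpow_of_inv (Inv.pair_left_inv ha ht) k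
    simp only at hk
    rw [zpow_neg, hk, Inv.inv_eq_of_mul_self hw] at h
    rw [← mul_inv_eq_iff_eq_mul, h]
  have hu : a * w * (a * w) = 1 := by
    rw [mul_assoc, ← mul_assoc w, ← haw, mul_assoc, hw, mul_one, ha]
  have u1 : (a * w) • h = h := by
    rw [mul_smul, hw' _ (by simp only [mul_smul, t1, t2, aa]), mul_smul, t1, aa]
  have u3 : (a * w) • b • h = a • b • h := by
    rw [mul_smul, hw' _ (by simp only [mul_smul, t3, aa]), mul_smul, t3, aa]
  have hau : Commute a (a * w) := (Commute.refl a).mul_right haw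
  generalize a * w = u at hu u1 u3 hau
  have ua : ∀ y : α, u • a • y = a • u • y := fun y => by rw [← mul_smul, ← hau.eq, mul_smul]
  have hui := Inv.inv_eq_of_mul_self hu
  have hb' : u * b * u⁻¹ * (u * b * u⁻¹) = 1 := by
    rw [show u * b * u⁻¹ * (u * b * u⁻¹) = u * (b * b) * u⁻¹ by group, hb]; simp
  have c1 : (u * b * u⁻¹ * (a * b)) • h = h := by
    simp only [mul_smul, hui, ua, u3, aa, bb, u1]
  have c3 : (u * b * u⁻¹ * (a * b)) • b • h = b • h := by
    simp only [mul_smul, hui, ua, u3, aa, bb, u1, ba]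
  have hac : Commute a (u * b * u⁻¹ * (a * b)) :=
    ((hau.mul_right hab).mul_right hau.inv_right).mul_right ((Commute.refl a).mul_right hab)
  have ca : ∀ {c : G}, Commute a c → ∀ y : α, c • a • y = a • c • y := fun hc y => by
    rw [← mul_smul, ← hc.eq, mul_smul]
  obtain ⟨m, hm⟩ := Inv.exists_pow_conj_of_odd hb' hc (odd _ c1 (by rw [ca hac, c1]) c3
    (by rw [ca hac, c3]))
  have d1 : (u * b * u⁻¹ * (a * b)) ^ m • h = h := (stabilizer G h).pow_mem c1 m
  have d3 : (u * b * u⁻¹ * (a * b)) ^ m • b • h = b • h := (stabilizer G (b • h)).pow_mem c3 m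
  have had := hac.pow_right m
  generalize (u * b * u⁻¹ * (a * b)) ^ m = d at hm d1 d3 had
  have hag : Commute a (d * u) := had.mul_right hau
  have g1 : (d * u) • h = h := by rw [mul_smul, u1, d1]
  have g3 : (d * u) • b • h = a • b • h := by rw [mul_smul, u3, ca had, d3]
  have hg : d * u * b * (d * u)⁻¹ = a * b := by rw [← hm]; group
  generalize d * u = g at hag g1 g3 hg
  have gg1 : (g * g) • h = h := by rw [mul_smul, g1, g1]
  have gg3 : (g * g) • b • h = b • h := by rw [mul_smul, g3, ca hag, g3, aa]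
  have hagg := hag.mul_right hag
  obtain ⟨j, hs⟩ := exists_invol_mul_pow (odd (g * g) gg1 (by rw [ca hagg, gg1]) gg3
    (by rw [ca hagg, gg3]))
  have hbg : Commute b (g * g) := by
    rw [mul_inv_eq_iff_eq_mul] at hg
    rw [Commute, SemiconjBy, mul_assoc g, hg, ← mul_assoc, ← mul_assoc, ← mul_assoc, ← hag.eq,
      mul_assoc a, hg, ← mul_assoc, ← mul_assoc, ha, one_mul]
  have s1 : (g * (g * g) ^ j) • h = h := by
    rw [mul_smul, (stabilizer G h).pow_mem gg1 j, g1]
  have s3 : (g * (g * g) ^ j) • b • h = a • b • h := by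
    rw [mul_smul, (stabilizer G (b • h)).pow_mem gg3 j, g3]
  have has := hag.mul_right (hagg.pow_right j)
  have hsb : g * (g * g) ^ j * b * (g * (g * g) ^ j)⁻¹ = a * b := by
    rw [mul_assoc g, ← (hbg.pow_right j).eq, ← hg]; group
  generalize g * (g * g) ^ j = s at hs s1 s3 has hsb
  have hsa : s * a * s⁻¹ = a := by rw [← has.eq, mul_inv_cancel_right]
  have ss := smul_smul_of_invol (α := α) hs
  have sb : ∀ y : α, a • b • s • y = s • b • y := fun y => by
    rw [← mul_smul, smul_fixed_of_conj hsb]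
  have k0 : ∀ i, a • x i = x i → b • x i ≠ x i → s • x i = x 0 ∨ s • x i = x 1 := by
    intro i e1 e2
    have e3 : a • s • x i = s • x i := by rw [← ca has, e1]
    rcases H.cfg_fix hx ha hb hab ea eb (Or.inl e3) with ⟨l, hl⟩ | h
    · rw [← hl, ea, hx.eq_iff] at e3
      rw [← hl]
      fin_cases l <;> simp at e3 ⊢
    · exact absurd (smul_left_cancel s (by rw [← sb, h.2, e3])) e2
  have s0 : s • x 0 = x 1 := by
    refine (k0 0 (ea 0) (by rw [eb]; exact n _ _ (by decide))).resolve_left fun e0 => ?_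
    have e1 := (k0 1 (ea 1) (by rw [eb]; exact n _ _ (by decide))).resolve_left fun e =>
      n 0 1 (by decide) (smul_left_cancel s (e0.trans e.symm))
    have m : ∀ i, a • x i = x i → h ≠ x i ∧ a • h ≠ x i := fun i e =>
      ⟨fun e' => h1 (by rw [e', e]), fun e' => h1 (by rw [e', ← e, ← e', aa])⟩
    have := H.eq_one_of_invol hs h1.symm (m 0 (ea 0)).1 (m 1 (ea 1)).1 (m 0 (ea 0)).2
      (m 1 (ea 1)).2 (n 0 1 (by decide)) s1 (by rw [ca has, s1]) e0 e1
    rw [this, one_smul] at s3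
    exact n6 s3
  have s4 : s • x 4 = x 2 ∨ s • x 4 = x 3 := by
    have e3 : (a * b) • s • x 4 = s • x 4 := by rw [mul_smul, sb, eb]; rfl
    rcases H.cfg_fix hx ha hb hab ea eb (Or.inr (Or.inr e3)) with ⟨l, hl⟩ | h
    · rw [← hl, mul_smul, eb, ea, hx.eq_iff] at e3
      rw [← hl]
      fin_cases l <;> simp at e3 ⊢
    · exact absurd (smul_left_cancel s (by rw [ca has, h.1])) (ea 4 ▸ n 5 4 (by decide))
  have fin : ∀ s : G, s * s = 1 → Commute a s → s • x 0 = x 1 → s • x 4 = x 2 →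
      ∀ i, s • x i = x (![1, 0, 4, 5, 2, 3] i) := by
    intro s hs has s0 s4 i
    have s5 : s • x 5 = x 3 := by
      rw [show x 5 = a • x 4 from (ea 4).symm, ca has, s4, ea]; rfl
    fin_cases i
    exacts [s0, smul_eq_of_invol hs s0, smul_eq_of_invol hs s4, smul_eq_of_invol hs s5, s4, s5]
  rcases s4 with s4 | s4
  · exact ⟨s, hs, hsa, hsb, fin s hs has s0 s4, Or.inl s1⟩
  · have has' : a * s * (a * s) = 1 := by
      rw [mul_assoc, ← mul_assoc s, ← has.eq, mul_assoc, hs, mul_one, ha]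
    refine ⟨a * s, has', by rw [← ((Commute.refl a).mul_right has).eq, mul_inv_cancel_right], ?_,
      fin _ has' ((Commute.refl a).mul_right has) (by rw [mul_smul, s0, ea]; rfl)
        (by rw [mul_smul, s4, ea]; rfl), Or.inr (by rw [mul_smul, s3, aa])⟩
    rw [show a * s * b * (a * s)⁻¹ = a * (s * b * s⁻¹) * a⁻¹ by group, hsb, mul_assoc, hab,
      mul_inv_cancel_right, hab]

theorem cfg_trans {h h' : α} (h1 : a • h ≠ h) (h2 : b • h ≠ h) (h3 : a • b • h ≠ h)
    (k1 : a • h' ≠ h') (k2 : b • h' ≠ h') (k3 : a • b • h' ≠ h') :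
    ∃ c v : G, Commute a c ∧ Commute b c ∧ (∀ i, c • x i = x i) ∧
      (v = 1 ∨ v = a ∨ v = b ∨ v = a * b) ∧ h' = v • c • h := by
  obtain ⟨s, hs, sa, sb, sx, sh⟩ := H.cfg_exists_invol hx ha hb hab ea eb h1 h2 h3
  obtain ⟨t, ht, ta, tb, tx, th⟩ := H.cfg_exists_invol hx ha hb hab ea eb k1 k2 k3
  have n : ∀ i j, i ≠ j → x i ≠ x j := fun i j h => hx.ne h
  have aa := smul_smul_of_invol (α := α) ha
  have bb := smul_smul_of_invol (α := α) hb
  have ba : ∀ y : α, b • a • y = a • b • y := fun y => by rw [← mul_smul, ← hab, mul_smul]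
  have st : ∀ i, (s * t) • x i = x i := fun i => by
    rw [mul_smul, tx, sx]; fin_cases i <;> rfl
  obtain ⟨m, hm⟩ := Inv.exists_pow_conj_of_odd hs ht (H.odd _ _ _ _ _ (n 0 1 (by decide))
    (n 0 2 (by decide)) (n 0 3 (by decide)) (n 1 2 (by decide)) (n 1 3 (by decide))
    (n 2 3 (by decide)) (st 0) (st 1) (st 2) (st 3))
  have ca : Commute a ((s * t) ^ m) := Commute.pow_right (Commute.mul_right
    (mul_inv_eq_iff_eq_mul.1 sa).symm (mul_inv_eq_iff_eq_mul.1 ta).symm) m
  have cb : Commute b ((s * t) ^ m) := Commute.pow_right (by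
    rw [mul_inv_eq_iff_eq_mul] at sa sb tb
    rw [Commute, SemiconjBy, mul_assoc s, tb, ← mul_assoc, ← mul_assoc, ← mul_assoc, sa,
      mul_assoc a, sb, ← mul_assoc, ← mul_assoc, ha, one_mul]) m
  have cx : ∀ i, (s * t) ^ m • x i = x i := fun i => (stabilizer G (x i)).pow_mem (st i) m
  generalize (s * t) ^ m = c at hm ca cb cx
  have cc : ∀ {a c : G}, Commute a c → ∀ y : α, c • a • y = a • c • y := fun hc y => by
    rw [← mul_smul, ← hc.eq, mul_smul]
  have key : ∀ y y' : α, a • y ≠ y → a • y' ≠ y' → s • y = y → t • y' = y' →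
      y' = c • y ∨ y' = a • c • y := by
    intro y y' hy hy' e e'
    by_contra hc
    push Not at hc
    have f1 : t • c • y = c • y := by rw [smul_fixed_of_conj hm, e]
    have := H.eq_one_of_invol ht (a := y') (b := a • y') (c := c • y) (d := a • c • y) hy'.symm
      hc.1 hc.2 (fun e => hc.2 (by rw [← e, aa])) (fun e => hc.1 (smul_left_cancel a e))
      (fun e => hy (smul_left_cancel c (by rw [cc ca, ← e]))) e'
      (by rw [← smul_fixed_of_conj ta y', e']) f1
      (by rw [← smul_fixed_of_conj ta (c • y), f1])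
    exact n 0 1 (by decide) (by simpa [this] using tx 0)
  have nb : ∀ y : α, a • y ≠ y → a • b • y ≠ b • y := fun y hy e =>
    hy (smul_left_cancel b (by rw [ba, e]))
  rcases sh with sh | sh <;> rcases th with th | th
  · rcases key _ _ h1 k1 sh th with e | e
    · exact ⟨c, 1, ca, cb, cx, by simp, by rw [one_smul, e]⟩
    · exact ⟨c, a, ca, cb, cx, by simp, e⟩
  · rcases key _ _ h1 (nb _ k1) sh th with e | e
    · exact ⟨c, b, ca, cb, cx, by simp, by rw [← e, bb]⟩
    · exact ⟨c, a * b, ca, cb, cx, by simp, by rw [mul_smul, ← ba, ← e, bb]⟩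
  · rcases key _ _ (nb _ h1) k1 sh th with e | e
    · exact ⟨c, b, ca, cb, cx, by simp, by rw [e, cc cb]⟩
    · exact ⟨c, a * b, ca, cb, cx, by simp, by rw [e, cc cb, mul_smul]⟩
  · rcases key _ _ (nb _ h1) (nb _ k1) sh th with e | e
    · exact ⟨c, 1, ca, cb, cx, by simp, by rw [one_smul, ← bb h', e, cc cb, bb]⟩
    · exact ⟨c, a, ca, cb, cx, by simp, by rw [← bb h', e, cc cb, ba, bb]⟩

end cfg

end H4

end Cfsg.Lib.Perm
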