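import Cfsg.Agent.Lib.Perm.Basic

/-! Linked symmetric designs: odd order automorphisms of doubly transitive groups (Feit). -/

set_option autoImplicit false

namespace Cfsg.Lib.Perm.Linked
open MulAction Finset Matrix

attribute [-simp] zsmul_eq_mul

variable {G Ω : Type*} [Group G] [MulAction G Ω] [Fintype Ω] [DecidableEq Ω]

/-- twisted invariance -/
def Tw (γ : MulAut G) (A : Matrix Ω Ω ℤ) : Prop := ∀ (g : G) x y, A (g • x) (γ g • y) = A x y

/-- the all-one matrix -/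
def J (Ω : Type*) : Matrix Ω Ω ℤ := of fun _ _ => 1

omit [Fintype Ω] in
lemma comb_apply (a b : ℤ) (x y : Ω) :
    (a • (1 : Matrix Ω Ω ℤ) + b • J Ω) x y = (if x = y then a else 0) + b := by
  simp only [J, Matrix.add_apply, Matrix.smul_apply, of_apply, smul_eq_mul, mul_one, one_apply]
  split_ifs <;> simp

omit [DecidableEq Ω] in
lemma Tw.mul {γ δ : MulAut G} {A B : Matrix Ω Ω ℤ} (hA : Tw γ A) (hB : Tw δ B) :
    Tw (δ * γ) (A * B) := fun g x y => by
  simp only [mul_apply]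
  exact (Fintype.sum_equiv (MulAction.toPerm (γ g)) _ _ fun z => by
    rw [toPerm_apply, hA, MulAut.mul_apply, hB]).symm

omit [Fintype Ω] [DecidableEq Ω] in
lemma Tw.transpose {γ : MulAut G} {A : Matrix Ω Ω ℤ} (hA : Tw γ A) : Tw γ⁻¹ Aᵀ := fun g x y => by
  simpa using hA (γ⁻¹ g) y x

omit [Fintype Ω] in
lemma Tw.eq_of_one (h2 : IsMultiplyPretransitive G Ω 2) [Nontrivial Ω] {X : Matrix Ω Ω ℤ}
    (hX : Tw (1 : MulAut G) X) : ∃ a b : ℤ, X = a • (1 : Matrix Ω Ω ℤ) + b • J Ω := by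
  obtain ⟨u, v, huv⟩ := exists_pair_ne Ω
  refine ⟨X u u - X u v, X u v, ?_⟩
  ext x y
  by_cases h : x = y
  · subst h
    obtain ⟨w, hw⟩ := exists_ne x
    obtain ⟨g, rfl, -⟩ := two_iff.1 h2 u v x w huv hw.symm
    rw [comb_apply, if_pos rfl, sub_add_cancel]; exact hX g u u
  · obtain ⟨g, rfl, rfl⟩ := two_iff.1 h2 u v x y huv h
    rw [comb_apply, if_neg h, zero_add]; exact hX g u v

lemma indep [Nontrivial Ω] {a b c d : ℤ}
    (h : a • (1 : Matrix Ω Ω ℤ) + b • J Ω = c • (1 : Matrix Ω Ω ℤ) + d • J Ω) : a = c := by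
  obtain ⟨u, v, huv⟩ := exists_pair_ne Ω
  have h1 := congrFun (congrFun h u) u
  have h2 := congrFun (congrFun h u) v
  simp only [comb_apply, if_neg huv, if_true] at h1 h2
  omega

omit [DecidableEq Ω] in
lemma Tw.row [IsPretransitive G Ω] {γ : MulAut G} {A : Matrix Ω Ω ℤ} (hA : Tw γ A) (x x' : Ω) :
    ∑ y, A x y = ∑ y, A x' y := by
  obtain ⟨g, rfl⟩ := exists_smul_eq G x x'
  exact Fintype.sum_equiv (MulAction.toPerm (γ g)) _ _ fun z => by rw [toPerm_apply, hA]

omit [DecidableEq Ω] in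
lemma Tw.mul_J [IsPretransitive G Ω] {γ : MulAut G} {A : Matrix Ω Ω ℤ} (hA : Tw γ A) (x : Ω) :
    A * J Ω = (∑ y, A x y) • J Ω ∧ J Ω * A = (∑ y, A x y) • J Ω := by
  have h1 : ∑ y, Aᵀ x y = ∑ y, A x y := by
    have e1 : ∑ u, ∑ y, Aᵀ u y = ∑ u, ∑ y, A u y := sum_comm
    rw [sum_congr rfl fun u _ => hA.transpose.row u x, sum_congr rfl fun u _ => hA.row u x] at e1
    haveI : Nonempty Ω := ⟨x⟩
    simpa using e1
  constructor <;> ext u v
  · simp [mul_apply, J, hA.row u x]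
  · simpa [mul_apply, J, ← h1] using hA.transpose.row v x

/-- a twisted-invariant symmetric design -/
structure Des (γ : MulAut G) (A : Matrix Ω Ω ℤ) (k : ℤ) : Prop where
  tw : Tw γ A
  zo : ∀ x y, A x y = 0 ∨ A x y = 1
  row : ∀ x, ∑ y, A x y = k
  pos : 0 < k
  lt : k < Fintype.card Ω

omit [DecidableEq Ω] in
lemma Des.transpose [IsPretransitive G Ω] {γ : MulAut G} {A : Matrix Ω Ω ℤ} {k : ℤ}
    (hA : Des γ A k) : Des γ⁻¹ Aᵀ k where
  tw := hA.tw.transpose
  zo x y := hA.zo y x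
  row x := by simpa [mul_apply, J, hA.row] using congrFun (congrFun (hA.tw.mul_J x).2 x) x
  pos := hA.pos
  lt := hA.lt

lemma J_mul_J : J Ω * J Ω = (Fintype.card Ω : ℤ) • J Ω := by ext; simp [J, mul_apply]

variable (h2 : IsMultiplyPretransitive G Ω 2) [Nontrivial Ω] [IsPretransitive G Ω]
include h2

lemma Des.gram {γ : MulAut G} {A : Matrix Ω Ω ℤ} {k : ℤ} (hA : Des γ A k) :
    ∃ N l : ℤ, A * Aᵀ = N • (1 : Matrix Ω Ω ℤ) + l • J Ω ∧ N + l = k ∧
      N + l * Fintype.card Ω = k ^ 2 ∧ 0 < N := by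
  obtain ⟨N, l, h⟩ := Tw.eq_of_one h2 (X := A * Aᵀ) (by simpa using hA.tw.mul hA.tw.transpose)
  obtain ⟨x⟩ : Nonempty Ω := inferInstance
  have e1 : N + l = k := by
    have := congrFun (congrFun h x) x
    simp only [mul_apply, transpose_apply, comb_apply, if_true] at this
    rw [sum_congr rfl (g := fun y => A x y) fun y _ => by rcases hA.zo x y with e | e <;> simp [e],
      hA.row] at this
    exact this.symm
  have e2 : N + l * Fintype.card Ω = k ^ 2 := by
    have := congrArg (· * J Ω) h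
    simp only [Matrix.mul_assoc, (hA.tw.transpose.mul_J x).1, hA.transpose.row, Matrix.mul_smul,
      (hA.tw.mul_J x).1, hA.row, Matrix.add_mul, Matrix.smul_mul, Matrix.one_mul, J_mul_J] at this
    have := congrFun (congrFun this x) x
    simp [J] at this
    linarith
  refine ⟨N, l, h, e1, e2, ?_⟩
  have h1 := hA.pos
  have h3 := hA.lt
  have : N * (Fintype.card Ω - 1) = k * (Fintype.card Ω - k) := by
    linear_combination (Fintype.card Ω : ℤ) * e1 - e2
  by_contra! hN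
  nlinarith

lemma Des.two_valued {γ : MulAut G} {A X : Matrix Ω Ω ℤ} {k : ℤ} (hA : Des γ A k) (hX : Tw γ X) :
    ∃ x y : ℤ, X = x • A + y • J Ω := by
  obtain ⟨u⟩ : Nonempty Ω := inferInstance
  obtain ⟨N, l, h, -, -, hN⟩ := hA.transpose.gram h2
  obtain ⟨a, b, h'⟩ := Tw.eq_of_one h2 (X := X * Aᵀ) (by simpa using hX.mul hA.tw.transpose)
  have e := congrArg (· * A) h'
  simp only [transpose_transpose] at h
  simp only [Matrix.mul_assoc, h, Matrix.mul_add, Matrix.mul_smul, Matrix.mul_one, (hX.mul_J u).1,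
    Matrix.add_mul, Matrix.smul_mul, Matrix.one_mul, (hA.tw.mul_J u).2] at e
  have e' : ∀ p q, N * X p q + l * ∑ y, X u y = a * A p q + b * ∑ y, A u y := fun p q => by
    simpa [J] using congrFun (congrFun e p) q
  obtain ⟨v0, hv0⟩ : ∃ v, A u v = 0 := by
    by_contra! hc
    have := hA.row u
    rw [sum_congr rfl fun y _ => (hA.zo u y).resolve_left (hc y)] at this
    simp at this
    exact hA.lt.ne' this
  obtain ⟨v1, hv1⟩ : ∃ v, A u v = 1 := by
    by_contra! hc
    have := hA.row u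
    rw [sum_eq_zero fun y _ => (hA.zo u y).resolve_right (hc y)] at this
    exact hA.pos.ne this
  refine ⟨X u v1 - X u v0, X u v0, ?_⟩
  ext p q
  refine mul_left_cancel₀ hN.ne' ?_
  have e0 := e' u v0
  have e1 := e' u v1
  have e2 := e' p q
  rw [hv0] at e0; rw [hv1] at e1
  simp only [J, Matrix.add_apply, Matrix.smul_apply, of_apply, smul_eq_mul, mul_one]
  linear_combination e2 - e0 - A p q * (e1 - e0)

lemma Des.sq_gram {γ : MulAut G} {A : Matrix Ω Ω ℤ} {k : ℤ} (hA : Des γ A k) :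
    ∃ N l c : ℤ, A * A * (A * A)ᵀ = (N ^ 2) • (1 : Matrix Ω Ω ℤ) + c • J Ω ∧
      N + l * Fintype.card Ω = k ^ 2 ∧ 0 < N := by
  obtain ⟨u⟩ : Nonempty Ω := inferInstance
  obtain ⟨N, l, h, -, e, hN⟩ := hA.gram h2
  refine ⟨N, l, N * l + l * k * k, ?_, e, hN⟩
  rw [transpose_mul, Matrix.mul_assoc, ← Matrix.mul_assoc A Aᵀ, h]
  simp only [Matrix.add_mul, Matrix.smul_mul, Matrix.one_mul, (hA.tw.transpose.mul_J u).2,
    hA.transpose.row, Matrix.mul_add, Matrix.mul_smul, h, (hA.tw.mul_J u).1, hA.row, smul_add,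
    smul_smul, add_smul, sq, add_assoc, mul_assoc]

lemma Des.key {γ : MulAut G} {A B : Matrix Ω Ω ℤ} {k' k : ℤ} (hA : Des γ A k')
    (hc : IsCoprime k' (Fintype.card Ω)) (hB : Des (γ * γ) B k) :
    k = 1 ∨ k = Fintype.card Ω - 1 := by
  obtain ⟨u⟩ : Nonempty Ω := inferInstance
  obtain ⟨N', l', c, h, e, hN'⟩ := hA.sq_gram h2
  obtain ⟨N, l, hg, e1, e2, hN⟩ := hB.gram h2
  obtain ⟨x, y, hxy⟩ := hB.two_valued h2 (hA.tw.mul hA.tw)
  have hJ : (J Ω)ᵀ = J Ω := rfl
  have e3 : k' ^ 2 = x * k + y * Fintype.card Ω := by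
    have := congrArg (· * J Ω) hxy
    simp only [Matrix.mul_assoc, Matrix.mul_smul, (hA.tw.mul_J u).1, hA.row, (hB.tw.mul_J u).1,
      hB.row, Matrix.add_mul, Matrix.smul_mul, J_mul_J] at this
    have := congrFun (congrFun this u) u
    simp [J] at this
    linarith
  have e4 : N' ^ 2 = x * (x * N) := by
    rw [hxy] at h
    simp only [transpose_add, transpose_smul, hJ, Matrix.add_mul, Matrix.mul_add, Matrix.smul_mul,
      Matrix.mul_smul, hg, (hB.tw.mul_J u).1, (hB.tw.transpose.mul_J u).2, J_mul_J, smul_add,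
      smul_smul, add_assoc, ← add_smul] at h
    exact (indep h).symm
  obtain ⟨m, rfl⟩ : x ∣ N' := (Int.pow_dvd_pow_iff two_ne_zero).1 ⟨N, by rw [e4]; ring⟩
  have hx : x ≠ 0 := by rintro rfl; simp at hN'
  have hm : N = m ^ 2 := mul_left_cancel₀ (pow_ne_zero 2 hx) (by linear_combination -e4)
  set n : ℤ := (Fintype.card Ω : ℤ)
  have hxn : IsCoprime n x := by
    have : IsCoprime (x * k) n := by
      rw [show x * k = k' ^ 2 + n * (-y) by linear_combination -e3]
      exact hc.pow_left.add_mul_left_left _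
    exact this.of_mul_left_left.symm
  obtain ⟨t, ht⟩ : n ∣ k - m := hxn.dvd_of_dvd_mul_left ⟨l' - y, by linear_combination -e - e3⟩
  have h1 := hB.pos
  have h3 := hB.lt
  have e5 : m ^ 2 * (n - 1) = k * (n - k) := by linear_combination n * e1 - e2 - (n - 1) * hm
  have hmk : m ^ 2 ≤ k := by nlinarith
  have ht0 : 0 ≤ t := by
    by_contra! h
    have : k < m := by nlinarith
    nlinarith
  have ht1 : t ≤ 1 := by
    by_contra! h
    have : k < -m := by nlinarith
    nlinarith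
  rcases (by omega : t = 0 ∨ t = 1) with rfl | rfl
  · left
    have : m = k := by omega
    rw [this] at hmk
    nlinarith
  · right
    have : m = k - n := by omega
    rw [this] at e5
    have : (n - k) * (n - 1) = k := mul_left_cancel₀ (sub_pos.2 h3).ne' (by linear_combination e5)
    nlinarith

lemma Des.exists_sq {γ : MulAut G} {A : Matrix Ω Ω ℤ} {k' : ℤ} (hA : Des γ A k') :
    ∃ (B : Matrix Ω Ω ℤ) (k : ℤ), Des (γ * γ) B k := by
  obtain ⟨u⟩ : Nonempty Ω := inferInstance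
  have hX := hA.tw.mul hA.tw
  let B : Matrix Ω Ω ℤ := of fun p q => if (A * A) p q = (A * A) u u then 1 else 0
  have hB : Tw (γ * γ) B := fun g p q => by simp only [B, of_apply, hX g p q]
  have h01 : ∀ p q, B p q = 0 ∨ B p q = 1 := fun p q => by
    simp only [B, of_apply]; split_ifs <;> simp
  refine ⟨B, ∑ q, B u q, hB, h01, fun x => hB.row x u, sum_pos'
    (fun q _ => by rcases h01 u q with e | e <;> simp [e]) ⟨u, mem_univ _, by simp [B]⟩, ?_⟩
  obtain ⟨p, q, hpq⟩ : ∃ p q, B p q = 0 := by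
    by_contra! hc
    obtain ⟨N, l, c, h, -, hN⟩ := hA.sq_gram h2
    have : A * A = (A * A) u u • J Ω := by
      ext p q; simpa [B, J] using hc p q
    rw [this, transpose_smul, show (J Ω)ᵀ = J Ω from rfl, Matrix.smul_mul, Matrix.mul_smul, J_mul_J,
      smul_smul, smul_smul, ← zero_add (_ • J Ω), ← zero_smul ℤ (1 : Matrix Ω Ω ℤ)] at h
    exact (pow_pos hN 2).ne (indep h)
  rw [hB.row u p]
  exact lt_of_lt_of_eq (sum_lt_sum (g := fun _ => 1)
    (fun q _ => by rcases h01 p q with e | e <;> simp [e]) ⟨q, mem_univ _, by simp [hpq]⟩) (by simp)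

theorem Des.of_odd {α : MulAut G} (hα : Odd (orderOf α)) {B : Matrix Ω Ω ℤ} {k : ℤ}
    (hB : Des α B k) (hc : IsCoprime k (Fintype.card Ω)) : k = 1 ∨ k = Fintype.card Ω - 1 := by
  have H : ∀ j, ∃ (A : Matrix Ω Ω ℤ) (k : ℤ), Des (α ^ 2 ^ j) A k ∧ IsCoprime k (Fintype.card Ω) := by
    intro j
    induction j with
    | zero => exact ⟨B, k, by simpa using hB, hc⟩
    | succ j ih =>
      obtain ⟨A, k', h1, h3⟩ := ih
      obtain ⟨C, k, h4⟩ := h1.exists_sq h2
      refine ⟨C, k, by rwa [pow_succ, pow_mul, sq], ?_⟩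
      rcases h1.key h2 h3 h4 with rfl | rfl
      · exact isCoprime_one_left
      · exact ⟨-1, 1, by ring⟩
  obtain ⟨t, ht⟩ := Nat.exists_eq_succ_of_ne_zero (Nat.totient_pos.2 hα.pos).ne'
  obtain ⟨A, k', h1, h3⟩ := H t
  refine h1.key h2 h3 (B := B) ?_
  rwa [← sq, ← pow_mul, ← pow_succ, ← Nat.succ_eq_add_one, ← ht, pow_eq_pow_iff_modEq.2
    (Nat.ModEq.pow_totient (Nat.coprime_two_left.2 hα)), pow_one]

omit [DecidableEq Ω] [Nontrivial Ω] [IsPretransitive G Ω] in
theorem feit (o : Ω) {α : MulAut G} (hα : Odd (orderOf α)) (ω : Ω)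
    (hk : (Nat.card (orbit ((stabilizer G o).map α.toMonoidHom) ω)).Coprime (Fintype.card Ω)) :
    (∃ σ : Equiv.Perm Ω, ∀ (g : G) x, α g • σ x = σ (g • x)) ∧
      (Nat.card (orbit ((stabilizer G o).map α.toMonoidHom) ω) = 1 ∨
        Nat.card (orbit ((stabilizer G o).map α.toMonoidHom) ω) = Fintype.card Ω - 1) := by
  classical
  set H := (stabilizer G o).map α.toMonoidHom
  rcases subsingleton_or_nontrivial Ω with hs | hs
  · exact ⟨⟨1, fun _ _ => Subsingleton.elim _ _⟩, .inl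
      (Nat.card_eq_one_iff_unique.2 ⟨inferInstance, ⟨ω, mem_orbit_self ω⟩⟩)⟩
  haveI : IsPretransitive G Ω := ⟨fun a b => by
    obtain ⟨c, hc⟩ := exists_ne a
    obtain ⟨d, hd⟩ := exists_ne b
    obtain ⟨g, h, -⟩ := two_iff.1 h2 a c b d hc.symm hd.symm
    exact ⟨g, h⟩⟩
  have hO : ∀ g : G, g • o = o → ∀ y ∈ orbit H ω, α g • y ∈ orbit H ω := fun g hg y hy =>
    mem_orbit_of_mem_orbit (⟨α g, g, hg, rfl⟩ : H) hy
  let B : Matrix Ω Ω ℤ := of fun x y => if ∃ g : G, g • o = x ∧ α g⁻¹ • y ∈ orbit H ω then 1 else 0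
  have hB : Tw α B := fun h x y => by
    simp only [B, of_apply]
    refine if_congr ⟨?_, ?_⟩ rfl rfl
    · rintro ⟨g, h1, h3⟩
      exact ⟨h⁻¹ * g, by rw [mul_smul, h1, inv_smul_smul], by simpa [mul_smul] using h3⟩
    · rintro ⟨g, h1, h3⟩
      exact ⟨h * g, by rw [mul_smul, h1], by simpa [mul_smul] using h3⟩
  have hcard : Nat.card (orbit H ω) = #{y | y ∈ orbit H ω} := by
    rw [Nat.card_eq_fintype_card, Fintype.card_subtype]
  have hrow : ∑ y, B o y = Nat.card (orbit H ω) := by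
    rw [hcard, card_filter]
    push_cast
    refine sum_congr rfl fun y _ => if_congr ⟨?_, fun h => ⟨1, by simp, by simpa using h⟩⟩ rfl rfl
    rintro ⟨g, h1, h3⟩
    simpa using hO g h1 _ h3
  have hn : 1 < Fintype.card Ω := Fintype.one_lt_card
  have hle : Nat.card (orbit H ω) ≤ Fintype.card Ω := hcard ▸ card_le_univ _
  have hD : Des α B (Nat.card (orbit H ω)) := ⟨hB, fun x y => by
      simp only [B, of_apply]; split_ifs <;> simp, fun x => (hB.row x o).trans hrow,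
    by exact_mod_cast Nat.pos_of_ne_zero fun h => by rw [h] at hk; simp at hk; omega,
    by exact_mod_cast lt_of_le_of_ne hle fun h => by rw [h] at hk; simp at hk; omega⟩
  have hfin : Nat.card (orbit H ω) = 1 ∨ Nat.card (orbit H ω) = Fintype.card Ω - 1 := by
    rcases hD.of_odd h2 hα (Nat.isCoprime_iff_coprime.2 hk) with h | h <;> omega
  refine ⟨?_, hfin⟩
  obtain ⟨w, hw⟩ : ∃ w : Ω, ∀ g : G, g • o = o → α g • w = w := by
    rcases hfin with h | h
    · refine ⟨ω, fun g hg => ?_⟩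
      exact congrArg Subtype.val ((Nat.card_eq_one_iff_unique.1 h).1.elim
        (⟨_, hO g hg ω (mem_orbit_self ω)⟩ : orbit H ω) ⟨ω, mem_orbit_self ω⟩)
    · obtain ⟨w, hw⟩ := card_eq_one.1 (show #({y | y ∈ orbit H ω} : Finset Ω)ᶜ = 1 by
        rw [card_compl, ← hcard]; omega)
      have hw' : ∀ y, y ∉ orbit H ω ↔ y = w := fun y => by simpa using Finset.ext_iff.1 hw y
      refine ⟨w, fun g hg => (hw' _).1 fun h => (hw' w).2 rfl ?_⟩
      simpa using hO g⁻¹ (inv_smul_eq_iff.2 hg.symm) _ h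
  choose t ht using fun x => exists_smul_eq G o x
  have hf : ∀ (g : G) x, α g • α (t x) • w = α (t (g • x)) • w := fun g x => by
    have := hw ((t (g • x))⁻¹ * g * t x) (by rw [mul_smul, mul_smul, ht, inv_smul_eq_iff, ht])
    simpa [mul_smul, inv_smul_eq_iff] using this
  refine ⟨Equiv.ofBijective (fun x => α (t x) • w) (Finite.surjective_iff_bijective.1 fun y => ?_), hf⟩
  obtain ⟨g, hg⟩ := exists_smul_eq G (α (t o) • w) y
  exact ⟨α.symm g • o, by rw [← hg]; simpa using (hf (α.symm g) o).symm⟩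

end Cfsg.Lib.Perm.Linked
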