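import Cfsg.Agent.Lib.Perm.Plane1

/-!
# Wagner's lemma: planes with many involutory homologies have prime power order
-/

set_option autoImplicit false

namespace Cfsg.Lib.Perm.Pl

open MulAction Subgroup

variable {G P L : Type*} [Group G] [MulAction G P] [MulAction G L] {D : Pl G P L}

/-- `h` is an involutory homology with centre `c` and axis `a`. -/
structure Hom (D : Pl G P L) (h : G) (c : P) (a : L) : Prop where
  off : ¬ D.I c a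
  ne : h ≠ 1
  sq : h * h = 1
  ax : D.Ax h a
  ce : D.Ce h c

theorem Hom.dual {h : G} {c : P} {a : L} (H : D.Hom h c a) : D.dual.Hom h a c := ⟨H.off, H.ne, H.sq, H.ce, H.ax⟩

theorem Hom.conj {h : G} {c : P} {a : L} (H : D.Hom h c a) (k : G) : D.Hom (k * h * k⁻¹) (k • c) (k • a) :=
  ⟨(D.inv _ _ _).not.2 H.off, fun e => H.ne (by simpa using e), by
    rw [show k * h * k⁻¹ * (k * h * k⁻¹) = k * (h * h) * k⁻¹ by group, H.sq]; group, H.ax.conj k, H.ce.conj k⟩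

theorem Hom.inv_eq {h : G} {c : P} {a : L} (H : D.Hom h c a) : h⁻¹ = h := inv_eq_of_mul_eq_one_right H.sq

theorem Hom.third {s t : G} {c y o : P} {a M l : L} (S : D.Hom s c a) (T : D.Hom t y M) (h1 : D.I c M) (h2 : D.I y a)
    (h3 : D.I o a) (h4 : D.I o M) (h5 : D.I c l) (h6 : D.I y l) : D.Hom (s * t) o l := by
  have hcy : c ≠ y := fun e => S.off (e ▸ h2)
  have haM : a ≠ M := fun e => S.off (e ▸ h1)
  have hol : ¬ D.I o l := fun h => T.off (D.line_eq (fun e : c = o => S.off (e ▸ h3)) h5 h h1 h4 ▸ h6)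
  have hc : s * t * s⁻¹ * t⁻¹ = 1 := Ce.eq_one (c := c) (c' := y)
    (by
      have := S.ce.inv.conj t
      rw [T.ax c h1] at this
      simpa only [mul_assoc] using S.ce.mul this)
    (Ce.mul (S.ax y h2 ▸ T.ce.conj s) T.ce.inv) hcy
  rw [S.inv_eq, T.inv_eq, mul_assoc (s * t)] at hc
  have ha : (s * t) • a = a := by rw [mul_smul, T.ce a h2, S.ax.fix]
  have hM : (s * t) • M = M := by rw [mul_smul, T.ax.fix, S.ce M h1]
  have hl : (s * t) • l = l := by rw [mul_smul, T.ce l h6, S.ce l h5]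
  have ho : (s * t) • o = o := by rw [mul_smul, T.ax o h4, S.ax o h3]
  have key : ∀ k, (s * t) • k = k → k ≠ l → D.I o k := fun k hk hne => by
    by_contra h
    obtain ⟨p, p1, p2⟩ := D.meet' k a
    obtain ⟨q, q1, q2⟩ := D.meet' k M
    have p3 := D.fix_pt (fun e : k = a => h (e ▸ h3)) p1 p2 hk ha
    have q3 := D.fix_pt (fun e : k = M => h (e ▸ h4)) q1 q2 hk hM
    rw [mul_smul, ← eq_inv_smul_iff, S.ax.inv p p2] at p3
    rw [mul_smul, T.ax q q2] at q3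
    obtain rfl := (T.ax.fixed T.ce T.ne p3).resolve_left fun e => h (D.pt_eq haM p2 h3 e h4 ▸ p1)
    obtain rfl := (S.ax.fixed S.ce S.ne q3).resolve_left fun e => h (D.pt_eq haM e h3 q2 h4 ▸ q1)
    exact hne (D.line_eq hcy q1 p1 h5 h6)
  have hce : D.Ce (s * t) o := fun k hk => by
    have hkl : k ≠ l := fun e => hol (e ▸ hk)
    obtain ⟨e, e1, e2⟩ := D.meet' k l
    obtain ⟨w, w1, w2, w3⟩ := D.exists_third k o e
    by_cases h : (s * t) • w = w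
    · exact D.fix_line w2 w1 hk h ho
    obtain ⟨k', k1, k2⟩ := D.join' w ((s * t) • w)
    have k3 : (s * t) • k' = k' := D.line_eq h ((D.inv _ _ _).2 k1)
      (by simpa only [← mul_smul, hc, one_smul] using (D.inv (s * t) _ _).2 k2) k2 k1
    rwa [D.line_eq w2 w1 hk k1 (key k' k3 fun e' => w3 (D.pt_eq hkl w1 e1 (e' ▸ k1) e2))]
  refine ⟨hol, fun e => S.ne (S.ce.eq_one (c' := y) ?_ hcy), hc, fun p hp => ?_, hce⟩
  · rw [eq_inv_of_mul_eq_one_left e]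
    exact T.ce.inv
  · obtain ⟨k, k1, k2⟩ := D.join' o p
    exact D.fix_pt (fun e : k = l => hol (e ▸ k1)) k2 hp (hce k k1) hl

theorem Hom.mul_mem {h h' : G} {c c' : P} {a : L} (H : D.Hom h c a) (H' : D.Hom h' c' a) (hne : c ≠ c') :
    h * h' ∈ D.El a := by
  refine ⟨H.ax.mul H'.ax, ?_⟩
  obtain ⟨e, he⟩ := (H.ax.mul H'.ax).exists_ce
  refine ⟨e, by_contra fun h1 => ?_, he⟩
  have h2 : h * h' ≠ 1 := fun e => H.ne (H.ce.eq_one (by rw [eq_inv_of_mul_eq_one_left e]; exact H'.ce.inv) hne)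
  have h3 : h * (h * h') * h⁻¹ = (h * h')⁻¹ := by rw [← mul_assoc, H.sq, one_mul, mul_inv_rev, H'.inv_eq]
  have h4 : h' * (h * h') * h'⁻¹ = (h * h')⁻¹ := by rw [mul_inv_rev, H.inv_eq, H'.inv_eq, mul_assoc, mul_assoc, H'.sq,
    mul_one]
  have h5 : h • e = e := by_contra fun h5 => h2 (inv_eq_one.1 ((h3 ▸ he.conj h).eq_one he.inv h5))
  have h6 : h' • e = e := by_contra fun h6 => h2 (inv_eq_one.1 ((h4 ▸ he.conj h').eq_one he.inv h6))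
  exact hne (((H.ax.fixed H.ce H.ne h5).resolve_left h1).symm.trans ((H'.ax.fixed H'.ce H'.ne h6).resolve_left h1))

theorem exists_sqrt {G : Type*} [Group G] {t : G} (h : Odd (orderOf t)) : ∃ j : ℕ, t ^ j * t ^ j = t := by
  obtain ⟨k, hk⟩ := h
  exact ⟨k + 1, by rw [← pow_add, show k + 1 + (k + 1) = orderOf t + 1 by omega, pow_succ, pow_orderOf_eq_one, one_mul]⟩

variable [Finite G] (hn : Odd D.n)
include hn

theorem Hom.exists_pow {h h' : G} {c c' : P} {a : L} (H : D.Hom h c a) (H' : D.Hom h' c' a) (hne : c ≠ c') :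
    ∃ j : ℕ, (h * h') ^ j • c' = c := by
  obtain ⟨j, hj⟩ := exists_sqrt (El_odd hn (H.mul_mem H' hne))
  have h1 : h' * (h * h') * h'⁻¹ = (h * h')⁻¹ := by rw [mul_inv_rev, H.inv_eq, H'.inv_eq, mul_assoc, mul_assoc, H'.sq,
    mul_one]
  have h2 : h' * (h * h') ^ j * h'⁻¹ = ((h * h') ^ j)⁻¹ := by rw [← conj_pow, h1, inv_pow]
  have h3 : (h * h') ^ j * h' * ((h * h') ^ j)⁻¹ = h := by
    calc (h * h') ^ j * h' * ((h * h') ^ j)⁻¹ = (h * h') ^ j * (h' * (h * h') ^ j * h'⁻¹)⁻¹ * h' := by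
          rw [mul_inv_rev, mul_inv_rev, inv_inv, H'.inv_eq, mul_assoc, mul_assoc, mul_assoc, mul_assoc, H'.sq, mul_one]
      _ = h := by rw [h2, inv_inv, hj, mul_assoc, H'.sq, mul_one]
  exact ⟨j, by_contra fun e => H.ne ((h3 ▸ H'.ce.conj _).eq_one H.ce e)⟩

theorem Hom.exists_El {h h' : G} {c c' : P} {a : L} (H : D.Hom h c a) (H' : D.Hom h' c' a) :
    ∃ t ∈ D.El a, t • c' = c := by
  by_cases e : c = c'
  · exact ⟨1, one_mem _, by rw [one_smul, e]⟩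
  obtain ⟨j, hj⟩ := H.exists_pow hn H' e
  exact ⟨_, pow_mem (H.mul_mem H' e) j, hj⟩

theorem Hom.key {h h' : G} {c y : P} {a M l : L} (H : D.Hom h c a) (H' : D.Hom h' y M) (h1 : D.I c M) (h2 : D.I c l)
    (h3 : D.I y l) : (∀ z, D.I z a → D.I z l → ∃ u, D.Hom u z M) ∧ ∀ o, D.I o a → D.I o M → ∃ u, D.Hom u o l := by
  obtain ⟨y', u, U, h4, h5⟩ : ∃ y' u, D.Hom u y' M ∧ D.I y' l ∧ h • y' = y' := by
    by_cases e : h • y = y
    · exact ⟨y, h', H', h3, e⟩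
    have H'' := H'.conj h
    rw [H.ce M h1] at H''
    have hm := H''.mul_mem H' e
    obtain ⟨j, hj⟩ := H''.exists_pow hn H' e
    have hl : h * h' * h⁻¹ * h' ∈ stabilizer G l := by
      rw [mem_stabilizer_iff, mul_smul, mul_smul, mul_smul, H'.ce l h3, H.ce.inv l h2, H'.ce l h3, H.ce l h2]
    have hi : h * (h * h' * h⁻¹ * h') * h⁻¹ = (h * h' * h⁻¹ * h')⁻¹ := by
      simp only [mul_inv_rev, H.inv_eq, H'.inv_eq, ← mul_assoc, H.sq, one_mul]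
    generalize h * h' * h⁻¹ * h' = t at hm hj hl hi
    obtain ⟨i, hi'⟩ := exists_sqrt (El_odd hn (pow_mem hm j))
    have h6 : h * (t ^ j) ^ i * h⁻¹ = ((t ^ j) ^ i)⁻¹ := by rw [← conj_pow, ← conj_pow, hi, inv_pow, inv_pow]
    refine ⟨(t ^ j) ^ i • y, _, (pow_mem (pow_mem hm j) i).1.fix ▸ H'.conj ((t ^ j) ^ i),
      D.smul_mem h3 (pow_mem (pow_mem hl j) i), ?_⟩
    rw [← mul_smul, mul_inv_eq_iff_eq_mul.1 h6, mul_smul, ← hj, inv_smul_eq_iff, ← mul_smul, hi']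
  have h6 : D.I y' a := (H.ax.fixed H.ce H.ne h5).resolve_right fun e => U.off (e ▸ h1)
  exact ⟨fun z h7 h8 => ⟨u, D.pt_eq (fun e : a = l => H.off (e ▸ h2)) h6 h7 h4 h8 ▸ U⟩,
    fun o h7 h8 => ⟨_, H.third U h1 h6 h7 h8 h2 h4⟩⟩

/-- **Wagner's lemma.** -/
theorem wagner (hF : ∀ z l x M, ¬ D.I z l → D.I x l → D.I z M → D.I x M →
    ∃ h c a, D.Hom h c a ∧ h • z = z ∧ h • l = l ∧ h • x = x) : ∃ p k, p.Prime ∧ D.n = p ^ k := by
  haveI := D.finite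
  by_contra hpp
  have F : ∀ z l x M, ¬ D.I z l → D.I x l → D.I z M → D.I x M → (¬ ∃ u, D.Hom u z l) →
      (∃ h a, D.Hom h x a ∧ D.I z a) ∨ ∃ h c, D.Hom h c M ∧ D.I c l := by
    intro z l x M h1 h2 h3 h4 h5
    obtain ⟨h, c, a, H, e1, e2, e3⟩ := hF z l x M h1 h2 h3 h4
    have h6 : D.I c l := (H.ax.fixed' H.ce H.ne e2).resolve_right fun e =>
      h5 ⟨h, (H.ax.fixed H.ce H.ne e1).resolve_left (e ▸ h1) ▸ e ▸ H⟩
    have h7 : D.I z a := (H.ax.fixed H.ce H.ne e1).resolve_right fun e => h1 (e ▸ h6)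
    rcases H.ax.fixed H.ce H.ne e3 with h8 | rfl
    · exact Or.inr ⟨h, c, D.line_eq (fun e : z = x => h1 (e ▸ h2)) h7 h8 h3 h4 ▸ H, h6⟩
    · exact Or.inl ⟨h, a, H, h7⟩
  have orb : ∀ (U : Subgroup G) (p : ℕ), p.Prime → IsPGroup p U → ∀ (z : P) (s : Set P), D.n ∣ s.ncard →
      (∀ w, w ∈ s ↔ ∃ u ∈ U, u • z = w) → False := by
    intro U p hp hU z s hs h
    haveI := Fact.mk hp
    obtain ⟨k, hk⟩ := hU.card_orbit z
    rw [show orbit U z = s from Set.ext fun w => ⟨fun ⟨u, e⟩ => (h w).2 ⟨u, u.2, e⟩,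
      fun e => (h w).1 e |>.elim fun u hu => ⟨⟨u, hu.1⟩, hu.2⟩⟩, Nat.card_coe_set_eq] at hk
    obtain ⟨j, -, hj⟩ := (Nat.dvd_prime_pow hp).1 (hk ▸ hs)
    exact hpp ⟨p, j, hp, hj⟩
  have N : ∀ l, ∃ z, ¬ D.I z l ∧ ¬ ∃ u, D.Hom u z l := by
    intro l
    by_contra h
    push Not at h
    obtain ⟨z, hz⟩ := D.exists_off l
    obtain ⟨u, U⟩ := h z hz
    have tr : ∀ w, ¬ D.I w l → ∃ t ∈ D.El l, t • z = w := fun w hw => (h w hw).elim fun _ W => W.exists_El hn U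
    have el : ∀ c, D.I c l → ∃ t, D.Ax t l ∧ D.Ce t c ∧ t ≠ 1 := fun c hc => by
      obtain ⟨m, m1, m2⟩ := D.join' z c
      obtain ⟨w, w1, w2, w3⟩ := D.exists_third m z c
      obtain ⟨t, ⟨t1, d, t2, t3⟩, rfl⟩ := tr w fun e => w3 (D.pt_eq (fun e : m = l => hz (e ▸ m1)) w1 m2 e hc)
      obtain ⟨k, k1, k2⟩ := D.join' z d
      refine ⟨t, t1, D.pt_eq (fun e : m = l => hz (e ▸ m1)) ?_ m2 t2 hc ▸ t3, fun e => w2 (by rw [e, one_smul])⟩
      rwa [D.line_eq w2 w1 m1 (D.smul_mem k1 (t3 k k2)) k1]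
    obtain ⟨c, hc, -⟩ := D.meet' l l
    obtain ⟨d, hd, hne, -⟩ := D.exists_third l c c
    obtain ⟨s, s1, s2, s3⟩ := el c hc
    obtain ⟨t, t1, t2, t3⟩ := el d hd
    obtain ⟨p, hp, hP⟩ := El_pgroup s1 s2 hc s3 t1 t2 hd t3 hne.symm
    exact orb _ p hp hP z {w | ¬ D.I w l} (by rw [D.card_off]; exact dvd_pow_self _ two_ne_zero) fun w =>
      ⟨tr w, fun ⟨t, ht, e⟩ => e ▸ D.smul_not_mem hz ht.1.fix⟩
  have S : ∀ z l h c a, ¬ D.I z l → (¬ ∃ u, D.Hom u z l) → D.Hom h c a → D.I c l → D.I z a →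
      (∀ p, p.Prime → ¬ IsPGroup p (D.dual.El c)) ∧ ∃ t m, D.I c m ∧ D.Ax t m ∧ D.Ce t c ∧ t ≠ 1 ∧
        ∀ s m', D.I c m' → D.Ax s m' → D.Ce s c → s ≠ 1 → m' = m := by
    intro z l h c a h1 h2 H h3 h4
    obtain ⟨M, h5, h6⟩ := D.join' z c
    have tr : ∀ w, D.I w M ∧ w ≠ c → ∃ t ∈ D.dual.El c, t • z = w := by
      intro w hw
      have hw' : ¬ D.I w l := fun e => hw.2 (D.pt_eq (fun e : M = l => h1 (e ▸ h5)) hw.1 h6 e h3)
      rcases F w l c M hw' h3 hw.1 h6 (fun ⟨u, U⟩ => h2 ((H.key hn U h3 h6 hw.1).1 z h4 h5)) with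
        ⟨h', a', H', h7⟩ | ⟨h', y, H', h7⟩
      · obtain ⟨t, ht, rfl⟩ := Hom.exists_El (D := D.dual) hn H'.dual H.dual
        exact ⟨t, ht, D.pt_eq (fun e : M = t • a => H'.off (e ▸ h6)) (D.smul_mem h5 (ht.1 M h6)) hw.1
          ((D.inv _ _ _).2 h4) h7⟩
      · exact absurd ((H.key hn H' h6 h3 h7).2 z h4 h5) h2
    have np : ∀ p, p.Prime → ¬ IsPGroup p (D.dual.El c) := fun p hp hP =>
      orb _ p hp hP z {w | D.I w M ∧ w ≠ c} (by rw [D.card_diff h6]) fun w => ⟨tr w, fun ⟨t, ht, e⟩ => e ▸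
        ⟨D.smul_mem h5 (ht.1 M h6), fun e => h1 (MulAction.injective t (e.trans (Ce.fix ht.1).symm) ▸ h3)⟩⟩
    obtain ⟨w, w1, w2, w3⟩ := D.exists_third M c z
    obtain ⟨t, ⟨t1, m, t2, t3⟩, e⟩ := tr w ⟨w1, w2⟩
    have t4 : t ≠ 1 := fun e' => w3 (by rw [← e, e', one_smul])
    refine ⟨np, t, m, t2, t3, t1, t4, fun s m' s1 s2 s3 s4 => by_contra fun hne => ?_⟩
    obtain ⟨p, hp, hP⟩ := El_pgroup (D := D.dual) s3 s2 s1 s4 t1 t3 t2 t4 hne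
    exact np p hp hP
  have E : ∀ z l x, ¬ D.I z l → D.I x l → (¬ ∃ u, D.Hom u z l) →
      ∃ h c a, D.Hom h c a ∧ D.I c l ∧ D.I z a ∧ (c = x ∨ D.I x a) := by
    intro z l x h1 h2 h3
    obtain ⟨M, h4, h5⟩ := D.join' z x
    rcases F z l x M h1 h2 h4 h5 h3 with ⟨h, a, H, h6⟩ | ⟨h, c, H, h6⟩
    · exact ⟨h, x, a, H, h2, h6, Or.inl rfl⟩
    · exact ⟨h, c, M, H, h6, h4, Or.inr h5⟩
  obtain ⟨l0⟩ : Nonempty L := (Nat.card_pos_iff.1 (by rw [D.cardB]; omega)).1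
  obtain ⟨z0, z1, z2⟩ := N l0
  obtain ⟨x0, x1, -⟩ := D.meet' l0 l0
  obtain ⟨h, c, a, H, h1, h2, -⟩ := E z0 l0 x0 z1 x1 z2
  obtain ⟨np, t, m, t1, t2, t3, t4, t5⟩ := S z0 l0 h c a z1 z2 H h1 h2
  obtain ⟨e, e1, e2⟩ := D.meet' a m
  obtain ⟨z, z3, z4⟩ := N m
  obtain ⟨x, x2, x3, x4⟩ := D.exists_third m c e
  obtain ⟨h', c', a', H', h3, h4, h5⟩ := E z m x z3 x2 z4
  have hc : c' ≠ c := by
    rintro rfl
    obtain ⟨s, ⟨s1, m', s2, s3⟩, rfl⟩ := Hom.exists_El (D := D.dual) hn H'.dual H.dual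
    have h6 : s • e = e := by
      by_cases h7 : s = 1
      · rw [h7, one_smul]
      · exact s3 e (t5 s m' s2 s3 s1 h7 ▸ e2)
    exact z3 (D.line_eq x4 (h5.resolve_left x3.symm) (D.smul_mem' e1 h6) x2 e2 ▸ h4)
  obtain ⟨-, s, m', s1, s2, s3, s4, s5⟩ := S z m h' c' a' z3 z4 H' h3 h4
  have h6 := s5 _ (t • m') (D.smul_mem' s1 (t2 c' h3)) (s2.conj t) (t2 c' h3 ▸ s3.conj t) fun e => s4 (by simpa using e)
  obtain rfl : m' = m := (t2.fixed' t3 t4 h6).elim (fun h7 => D.line_eq hc s1 h7 h3 t1) id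
  obtain ⟨p, hp, hP⟩ := El_pgroup s2 s3 s1 s4 t2 t3 t1 t4 hc
  refine np p hp (hP.to_le fun u ⟨u1, k, u2, u3⟩ => ?_)
  by_cases h7 : u = 1
  · exact h7 ▸ one_mem _
  · exact ⟨t5 u k u2 u3 u1 h7 ▸ u3, c, t1, u1⟩

end Cfsg.Lib.Perm.Pl
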