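import Cfsg.Agent.Lib.Perm.Frob

/-!
# Symmetric designs with a 2-transitive automorphism group

If `G` acts 2-transitively on `Ω`, transitively on `Y` with `|Y| = |Ω|`, and preserves a non-trivial incidence relation,
then every element fixes as many points as blocks, every subgroup has as many orbits on points as on blocks, and `G` is
2-transitive on `Y`.
-/

set_option autoImplicit false

namespace Cfsg.Lib.Perm

open MulAction Matrix

/-- A symmetric incidence structure with a group 2-transitive on points. -/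
structure Sym (G Ω Y : Type*) [Group G] [MulAction G Ω] [MulAction G Y] where
  I : Ω → Y → Prop
  inv : ∀ (g : G) a y, I (g • a) (g • y) ↔ I a y
  card : Nat.card Ω = Nat.card Y
  two : ∀ a b c d : Ω, a ≠ b → c ≠ d → ∃ g : G, g • a = c ∧ g • b = d
  tr : ∀ y y' : Y, ∃ g : G, g • y = y'
  ex : ∃ a b y, I a y ∧ ¬ I b y

theorem third_of_card_le_two {K α : Type*} [Group K] [MulAction K α] [Finite α]
    (h : Nat.card (orbitRel.Quotient K α) ≤ 2) {a b c : α} (h1 : ¬ ∃ g : K, g • a = b) (h2 : ¬ ∃ g : K, g • a = c) :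
    ∃ g : K, g • b = c := by
  by_contra h3
  have key : ∀ x y : α, (Quotient.mk'' x : orbitRel.Quotient K α) = Quotient.mk'' y → ∃ g : K, g • y = x :=
    fun x y e => Quotient.exact' e
  have := Nat.card_le_card_of_injective
    (![Quotient.mk'' a, Quotient.mk'' b, Quotient.mk'' c] : Fin 3 → orbitRel.Quotient K α)
    (inj3 (fun e => h1 (key _ _ e.symm)) (fun e => h2 (key _ _ e.symm)) fun e => h3 (key _ _ e.symm))
  rw [Nat.card_fin] at this
  omega

theorem card_le_two_of_cover {K α : Type*} [Group K] [MulAction K α] (a b : α)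
    (h : ∀ c, (∃ g : K, g • a = c) ∨ ∃ g : K, g • b = c) : Nat.card (orbitRel.Quotient K α) ≤ 2 := by
  refine (Nat.card_le_card_of_surjective (![Quotient.mk'' a, Quotient.mk'' b] : Fin 2 → orbitRel.Quotient K α)
    fun q => ?_).trans (Nat.card_fin 2).le
  induction q using Quotient.inductionOn' with | h c => ?_
  rcases h c with h | h
  · exact ⟨0, (Quotient.sound' h).symm⟩
  · exact ⟨1, (Quotient.sound' h).symm⟩

namespace Sym

variable {G Ω Y : Type*} [Group G] [MulAction G Ω] [MulAction G Y] (D : Sym G Ω Y)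

theorem inv' (g : G) (a : Ω) (y : Y) : D.I a (g • y) ↔ D.I (g⁻¹ • a) y := by
  rw [← D.inv g (g⁻¹ • a), smul_inv_smul]

theorem exists_sep {a b : Ω} (h : a ≠ b) : ∃ y, D.I a y ∧ ¬ D.I b y := by
  obtain ⟨c, d, y, h1, h2⟩ := D.ex
  obtain ⟨g, rfl, rfl⟩ := D.two c d a b (fun e => h2 (e ▸ h1)) h
  exact ⟨g • y, (D.inv _ _ _).2 h1, fun e => h2 ((D.inv _ _ _).1 e)⟩

include D in
theorem exists_ne (a : Ω) : ∃ b, a ≠ b := by
  obtain ⟨c, d, y, h1, h2⟩ := D.ex
  by_cases h : a = c
  · exact ⟨d, fun e => h2 (e ▸ h ▸ h1)⟩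
  · exact ⟨c, h⟩

include D in
theorem tr_pt (a b : Ω) : ∃ g : G, g • a = b := by
  obtain ⟨c, hc⟩ := D.exists_ne a
  obtain ⟨d, hd⟩ := D.exists_ne b
  obtain ⟨g, e, -⟩ := D.two a c b d hc hd
  exact ⟨g, e⟩

variable [Finite Ω] [Finite Y]

include D in
theorem fix_eq (g : G) : Nat.card (fixedBy Ω g) = Nat.card (fixedBy Y g) := by
  classical
  haveI := Fintype.ofFinite Ω
  haveI := Fintype.ofFinite Y
  let M : Matrix Ω Y ℚ := of fun a y => if D.I a y then 1 else 0
  have hM : ∀ (g : G) a y, M (g • a) (g • y) = M a y := fun g a y => by simp only [M, of_apply, D.inv]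
  have hg : ∀ (g : G) a b, (M * Mᵀ) (g • a) (g • b) = (M * Mᵀ) a b := fun g a b => by
    simp only [mul_apply, transpose_apply]
    exact (Fintype.sum_equiv (MulAction.toPerm g) _ _ fun y => by simp [hM]).symm
  obtain ⟨a, b, y0, h1, h2⟩ := D.ex
  have hab : a ≠ b := fun e => h2 (e ▸ h1)
  have e1 : ∀ c d, (M * Mᵀ) c d = (if c = d then (M * Mᵀ) a a - (M * Mᵀ) a b else 0) + (M * Mᵀ) a b := by
    intro c d
    split_ifs with h
    · obtain ⟨g, rfl⟩ := D.tr_pt a c
      rw [← h, hg, sub_add_cancel]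
    · obtain ⟨g, rfl, rfl⟩ := D.two a b c d hab h
      rw [hg, zero_add]
  have hl : 0 ≤ (M * Mᵀ) a b := Finset.sum_nonneg fun y _ => by
    simp only [M, of_apply, transpose_apply]
    split_ifs <;> norm_num
  have hr : 0 < (M * Mᵀ) a a - (M * Mᵀ) a b := by
    simp only [mul_apply, transpose_apply, ← Finset.sum_sub_distrib]
    refine Finset.sum_pos' (fun y _ => ?_) ⟨y0, Finset.mem_univ _, by simp [M, h1, h2]⟩
    simp only [M, of_apply]
    split_ifs <;> norm_num
  generalize (M * Mᵀ) a a - (M * Mᵀ) a b = r at e1 hr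
  generalize (M * Mᵀ) a b = l at e1 hl
  have hu : IsUnit (M * Mᵀ) := by
    rw [← mulVec_injective_iff_isUnit]
    refine (injective_iff_map_eq_zero (mulVecLin (M * Mᵀ))).2 fun v hv => ?_
    have h3 : ∀ c, r * v c + l * ∑ d, v d = 0 := fun c => by
      have : ∑ d, (M * Mᵀ) c d * v d = 0 := congrFun hv c
      simpa [e1, add_mul, Finset.sum_add_distrib, ← Finset.mul_sum] using this
    have h4 := Finset.sum_congr rfl fun c (_ : c ∈ Finset.univ) => h3 c
    rw [Finset.sum_add_distrib, ← Finset.mul_sum, Finset.sum_const, nsmul_eq_mul, ← mul_assoc, ← add_mul,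
      Finset.sum_const_zero, mul_eq_zero, or_iff_right (by positivity)] at h4
    ext c
    simpa [h4, hr.ne'] using h3 c
  have e2 : M * (Mᵀ * (M * Mᵀ)⁻¹) = 1 := by
    rw [← Matrix.mul_assoc, mul_nonsing_inv _ ((isUnit_iff_isUnit_det _).1 hu)]
  have e3 := (mul_eq_one_comm_of_equiv (Finite.card_eq.1 D.card).some).1 e2
  let P : Matrix Ω Ω ℚ := of fun a b => if g • b = a then 1 else 0
  let Q : Matrix Y Y ℚ := of fun a b => if g • b = a then 1 else 0
  have e4 : P * M = M * Q := by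
    ext c y
    simp only [mul_apply, P, Q, of_apply, ite_mul, mul_ite, one_mul, zero_mul, mul_one, mul_zero]
    rw [Finset.sum_ite_eq, Finset.sum_eq_single (g⁻¹ • c) (fun d _ h => if_neg fun e => h (by rw [← e, inv_smul_smul]))
      (by simp), if_pos (smul_inv_smul _ _), if_pos (Finset.mem_univ _), ← hM g, smul_inv_smul]
  have e5 : P.trace = Q.trace := by
    rw [← Matrix.mul_one P, ← e2, ← Matrix.mul_assoc, e4, trace_mul_comm, ← Matrix.mul_assoc, e3, Matrix.one_mul]
  simp only [trace, diag, P, Q, of_apply, Finset.sum_boole, Nat.cast_inj] at e5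
  simpa only [Nat.card_eq_fintype_card, Fintype.card_subtype, mem_fixedBy] using e5

variable [Finite G]

include D in
theorem orbits_eq (K : Subgroup G) : Nat.card (orbitRel.Quotient K Ω) = Nat.card (orbitRel.Quotient K Y) := by
  haveI := Fintype.ofFinite K
  refine Nat.eq_of_mul_eq_mul_right (Nat.card_pos (α := K)) ?_
  rw [← sum_card_fixedBy, ← sum_card_fixedBy]
  exact Finset.sum_congr rfl fun g _ => D.fix_eq g

theorem tr_pair {a b : Ω} {y z : Y} (h : D.I a y ↔ D.I b z) : ∃ g : G, g • a = b ∧ g • y = z := by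
  obtain ⟨g, rfl⟩ := D.tr_pt a b
  obtain ⟨c, hc⟩ := D.exists_ne (g • a)
  have h2 : Nat.card (orbitRel.Quotient (stabilizer G (g • a)) Y) ≤ 2 := by
    rw [← D.orbits_eq]
    refine card_le_two_of_cover (g • a) c fun d => ?_
    by_cases e : g • a = d
    · exact Or.inl ⟨1, by rw [one_smul, e]⟩
    · obtain ⟨k, e1, e2⟩ := D.two _ _ _ _ hc e
      exact Or.inr ⟨⟨k, e1⟩, e2⟩
  have key : ∀ u v w, ¬ (D.I (g • a) u ↔ D.I (g • a) v) → ¬ (D.I (g • a) u ↔ D.I (g • a) w) →
      ∃ k : stabilizer G (g • a), k • v = w := by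
    have : ∀ u v, ¬ (D.I (g • a) u ↔ D.I (g • a) v) → ¬ ∃ k : stabilizer G (g • a), k • u = v := by
      rintro u v h ⟨⟨k, hk⟩, rfl⟩
      exact h (by rw [← D.inv k, show k • g • a = g • a from hk]; rfl)
    exact fun u v w h1 h3 => third_of_card_le_two h2 (this u v h1) (this u w h3)
  obtain ⟨u, h3, -⟩ := D.exists_sep hc
  obtain ⟨v, -, h4⟩ := D.exists_sep hc.symm
  rw [← D.inv g] at h
  obtain ⟨k, hk⟩ : ∃ k : stabilizer G (g • a), k • g • y = z := by
    by_cases e : D.I (g • a) z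
    · exact key v _ _ (by tauto) (by tauto)
    · exact key u _ _ (by tauto) (by tauto)
  exact ⟨k * g, by rw [mul_smul, k.2], by rw [mul_smul, ← hk]; rfl⟩

include D in
theorem two_blk (y z y' z' : Y) (h : y ≠ z) (h' : y' ≠ z') : ∃ g : G, g • y = y' ∧ g • z = z' := by
  obtain ⟨g, rfl⟩ := D.tr y y'
  have h2 : Nat.card (orbitRel.Quotient (stabilizer G (g • y)) Y) ≤ 2 := by
    rw [← D.orbits_eq]
    obtain ⟨a, b, w, h1, h2⟩ := D.ex
    obtain ⟨k, hk⟩ := D.tr w (g • y)
    rw [← D.inv k, hk] at h1 h2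
    refine card_le_two_of_cover (k • a) (k • b) fun d => ?_
    by_cases e : D.I d (g • y)
    · obtain ⟨l, e1, e2⟩ := D.tr_pair (iff_of_true h1 e)
      exact Or.inl ⟨⟨l, e2⟩, e1⟩
    · obtain ⟨l, e1, e2⟩ := D.tr_pair (iff_of_false h2 e)
      exact Or.inr ⟨⟨l, e2⟩, e1⟩
  obtain ⟨k, hk⟩ := third_of_card_le_two h2 (a := g • y) (b := g • z) (c := z')
    (fun ⟨k, e⟩ => h (MulAction.injective g (k.2.symm.trans e))) fun ⟨k, e⟩ => h' (k.2.symm.trans e)
  exact ⟨k * g, by rw [mul_smul, k.2], by rw [mul_smul, ← hk]; rfl⟩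

/-- The dual design. -/
def dual : Sym G Y Ω where
  I y a := D.I a y
  inv g y a := D.inv g a y
  card := D.card.symm
  two := D.two_blk
  tr := D.tr_pt
  ex := by
    obtain ⟨a, b, y, h1, h2⟩ := D.ex
    obtain ⟨z, -, h⟩ := D.exists_sep (fun e : b = a => h2 (e ▸ h1))
    exact ⟨y, z, a, h1, h⟩

omit [Finite G] in
include D in
theorem faith (hf : ∀ g : G, (∀ a : Ω, g • a = a) → g = 1) (g : G) (h : ∀ y : Y, g • y = y) : g = 1 := by
  refine hf g fun a => ?_
  have h1 : fixedBy Y g = Set.univ := Set.eq_univ_of_forall h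
  have h2 := D.fix_eq g
  rw [h1, Nat.card_univ, ← D.card, Nat.card_coe_set_eq, ← Set.eq_univ_iff_ncard] at h2
  exact (h2.ge (Set.mem_univ a) : a ∈ fixedBy Ω g)

end Sym

end Cfsg.Lib.Perm
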