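import Cfsg.Agent.Lib.Perm.Plane2
import Cfsg.Agent.Lib.Perm.SymDes

/-!
# Collineation groups, subplanes, and counting for doubly transitive groups
-/

set_option autoImplicit false

namespace Cfsg.Lib.Perm

open MulAction Subgroup Cfsg.Lib.Transfer

/-- The automorphism group of an incidence relation. -/
def IAut {P L : Type*} (I : P → L → Prop) : Subgroup (Equiv.Perm P × Equiv.Perm L) where
  carrier := {g | ∀ p l, I (g.1 p) (g.2 l) ↔ I p l}
  one_mem' _ _ := Iff.rfl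
  mul_mem' ha hb p l := (ha _ _).trans (hb p l)
  inv_mem' {g} h p l := by simpa using (h (g.1⁻¹ p) (g.2⁻¹ l)).symm

instance iautActP {P L : Type*} (I : P → L → Prop) : MulAction (IAut I) P :=
  MulAction.compHom P ((MonoidHom.fst _ _).comp (IAut I).subtype)

instance iautActL {P L : Type*} (I : P → L → Prop) : MulAction (IAut I) L :=
  MulAction.compHom L ((MonoidHom.snd _ _).comp (IAut I).subtype)

/-- A finite projective plane with its full collineation group. -/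
noncomputable def Pl.ofPlane (P L : Type*) [Membership P L] [Finite P] [Finite L] [Configuration.ProjectivePlane P L] :
    Pl (IAut fun (p : P) (l : L) => p ∈ l) P L :=
  have uq : ∀ {p q : P} {l m : L}, p ∈ l → q ∈ l → p ∈ m → q ∈ m → p = q ∨ l = m :=
    Configuration.Nondegenerate.eq_or_eq
  have c1 : ∀ l : L, {p | p ∈ l}.ncard = Configuration.ProjectivePlane.order P L + 1 := fun l =>
    Configuration.ProjectivePlane.pointCount_eq P l
  have c2 : ∀ p : P, {l : L | p ∈ l}.ncard = Configuration.ProjectivePlane.order P L + 1 := fun p =>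
    Configuration.ProjectivePlane.lineCount_eq L p
  have h1 := Configuration.ProjectivePlane.one_lt_order P L
  { I p l := p ∈ l
    n := Configuration.ProjectivePlane.order P L
    two := h1
    join _ _ h := ⟨_, Configuration.HasLines.mkLine_ax h⟩
    meet _ _ h := ⟨_, Configuration.HasPoints.mkPoint_ax h⟩
    uniq := uq
    cardL := c1
    cardP := c2
    cardA := by
      cases nonempty_fintype P
      rw [Nat.card_eq_fintype_card, Configuration.ProjectivePlane.card_points P L]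
    cardB := by
      cases nonempty_fintype L
      rw [Nat.card_eq_fintype_card, Configuration.ProjectivePlane.card_lines P L]
    inv g := g.2
    faith g h := by
      have h : ∀ p, g.1.1 p = p := h
      refine Subtype.ext (Prod.ext (Equiv.ext h) (Equiv.ext fun l => ?_))
      obtain ⟨a, ha, b, hb, hab⟩ := (Set.one_lt_ncard (s := {p : P | p ∈ l}) (Set.toFinite _)).1 (by rw [c1]; omega)
      exact (uq (h a ▸ (g.2 a l).2 ha) (h b ▸ (g.2 b l).2 hb) ha hb).resolve_left hab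
    faith' g h := by
      have h : ∀ l, g.1.2 l = l := h
      refine Subtype.ext (Prod.ext (Equiv.ext fun p => ?_) (Equiv.ext h))
      obtain ⟨a, ha, b, hb, hab⟩ := (Set.one_lt_ncard (s := {l : L | p ∈ l}) (Set.toFinite _)).1 (by rw [c2]; omega)
      exact (uq (h a ▸ (g.2 p a).2 ha) ha (h b ▸ (g.2 p b).2 hb) hb).resolve_right hab }

theorem ncard_subtype {α : Type*} (A Q : α → Prop) : {p : {p // A p} | Q p.1}.ncard = {p | A p ∧ Q p}.ncard := by
  rw [← Set.ncard_image_of_injective _ Subtype.val_injective]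
  congr 1
  ext p
  simp only [Set.mem_image, Set.mem_setOf_eq, Subtype.exists, exists_and_right, exists_eq_right, exists_prop]

theorem card_orbit_mul {G α : Type*} [Group G] [MulAction G α] (H : Subgroup G) (y : α) :
    Nat.card H = {z | ∃ h ∈ H, h • y = z}.ncard * Nat.card ↥(H ⊓ stabilizer G y) := by
  rw [← card_mul_relIndex (inf_le_left : H ⊓ stabilizer G y ≤ H), mul_comm, inf_relIndex_left]
  congr 1
  rw [show (stabilizer G y).relIndex H = (stabilizer H y).index from rfl, index_stabilizer]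
  congr 1
  ext z
  exact ⟨fun ⟨h, e⟩ => ⟨h, h.2, e⟩, fun ⟨h, h1, e⟩ => ⟨⟨h, h1⟩, e⟩⟩

theorem dvd_orbit_sylow {G α : Type*} [Group G] [Finite G] [MulAction G α] {p e : ℕ} (hp : p.Prime) {S H : Subgroup G}
    (h1 : S ≤ H) (h2 : ¬ p ∣ S.relIndex H) (y : α) (h : p ^ e ∣ {z | ∃ h ∈ H, h • y = z}.ncard) :
    p ^ e ∣ {z | ∃ h ∈ S, h • y = z}.ncard := by
  have h3 := card_mul_relIndex h1
  rw [card_orbit_mul H y, card_orbit_mul S y, ← card_mul_relIndex (inf_le_inf_right (stabilizer G y) h1), mul_right_comm,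
    mul_comm (Nat.card ↥(S ⊓ stabilizer G y)), ← mul_assoc] at h3
  exact ((Nat.Prime.coprime_iff_not_dvd hp).2 h2).pow_left e |>.dvd_of_dvd_mul_right
    (Nat.eq_of_mul_eq_mul_right Nat.card_pos h3 ▸ h.mul_right _)

theorem dvd_ncard_of_orbits_set {G α : Type*} [Group G] [MulAction G α] (H : Subgroup G) (d : ℕ) {s : Set α}
    (hs : s.Finite) (h1 : ∀ h ∈ H, ∀ y ∈ s, h • y ∈ s) (h2 : ∀ y ∈ s, d ∣ {z | ∃ h ∈ H, h • y = z}.ncard) :
    d ∣ s.ncard := by
  induction' hn : s.ncard using Nat.strong_induction_on with k ih generalizing s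
  rcases s.eq_empty_or_nonempty with rfl | ⟨y, hy⟩
  · simp [← hn]
  have h3 : {z | ∃ h ∈ H, h • y = z} ⊆ s := fun z ⟨h, h4, e⟩ => e ▸ h1 h h4 y hy
  have h4 := Set.ncard_diff_add_ncard_of_subset h3 hs
  have h5 : 0 < {z | ∃ h ∈ H, h • y = z}.ncard :=
    (Set.ncard_pos (hs.subset h3)).2 ⟨y, 1, one_mem _, one_smul _ _⟩
  rw [← hn, ← h4]
  refine dvd_add (ih _ ?_ (s := s \ {z | ∃ h ∈ H, h • y = z}) hs.diff (fun h hh z hz => ⟨h1 h hh z hz.1, ?_⟩)
    (fun z hz => h2 z hz.1) rfl) (h2 y hy)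
  · omega
  · rintro ⟨k, hk, e⟩
    exact hz.2 ⟨h⁻¹ * k, mul_mem (inv_mem hh) hk, by rw [mul_smul, e, inv_smul_smul]⟩

theorem exists_step_two {G : Type*} [Group G] [Finite G] {Φ J : Subgroup G} {a : ℕ} (h1 : Φ ≤ J)
    (h2 : Nat.card Φ = 2 ^ a) (h3 : 2 ^ (a + 1) ∣ Nat.card J) : ∃ K ≤ J, Φ ≤ K ∧ Nat.card K = 2 ^ (a + 1) ∧
      ∃ g ∈ K, (∀ k ∈ K, k ∈ Φ ∨ g⁻¹ * k ∈ Φ) ∧ g * g ∈ Φ ∧ ∀ u ∈ Φ, g⁻¹ * u * g ∈ Φ := by
  obtain ⟨K, h4, h5⟩ := Sylow.exists_subgroup_card_pow_succ h3 (H := Φ.subgroupOf J)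
    (by rw [Nat.card_congr (subgroupOfEquivOfLe h1).toEquiv, h2])
  have h6 : Φ ≤ K.map J.subtype := fun u hu => ⟨⟨u, h1 hu⟩, h5 hu, rfl⟩
  have h7 : Nat.card (K.map J.subtype) = 2 ^ (a + 1) := by rw [card_map_of_injective J.subtype_injective, h4]
  refine ⟨_, map_subtype_le K, h6, h7, ?_⟩
  generalize K.map J.subtype = K at h6 h7
  have h8 := card_mul_relIndex h6
  rw [h2, h7, pow_succ] at h8
  have h9 : (Φ.subgroupOf K).index = 2 := Nat.eq_of_mul_eq_mul_left (by positivity) h8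
  have key : ∀ a ∈ K, ∀ b ∈ K, a * b ∈ Φ ↔ (a ∈ Φ ↔ b ∈ Φ) := fun a ha b hb =>
    mul_mem_iff_of_index_two h9 (a := ⟨a, ha⟩) (b := ⟨b, hb⟩)
  obtain ⟨g, hg, hg'⟩ := SetLike.not_le_iff_exists.1 fun h : K ≤ Φ => by simp [subgroupOf_eq_top.2 h] at h9
  refine ⟨g, hg, fun k hk => or_iff_not_imp_left.2 fun h => ?_, (key g hg g hg).2 Iff.rfl, fun u hu => ?_⟩
  · rw [key _ (inv_mem hg) _ hk]
    simpa [h]
  · rw [key _ (mul_mem (inv_mem hg) (h6 hu)) _ hg, key _ (inv_mem hg) _ (h6 hu)]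
    simp [hu]

namespace Pl

variable {G P L : Type*} [Group G] [MulAction G P] [MulAction G L] (D : Pl G P L)

/-- A subplane. -/
noncomputable def sub (A : P → Prop) (B : L → Prop) (hj : ∀ p q l, p ≠ q → A p → A q → D.I p l → D.I q l → B l)
    (hm : ∀ p l m, l ≠ m → B l → B m → D.I p l → D.I p m → A p) (hc : D.Cfg A B) :
    {Q : Pl (IAut fun (p : {p // A p}) (l : {l // B l}) => D.I p l) {p // A p} {l // B l} // ∀ p l, Q.I p l ↔ D.I p l} := by
  letI : Membership {p // A p} {l // B l} := ⟨fun l p => D.I p l⟩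
  haveI := D.finite
  haveI := D.dual.finite
  have uq : ∀ {p q : {p // A p}} {l m : {l // B l}}, p ∈ l → q ∈ l → p ∈ m → q ∈ m → p = q ∨ l = m :=
    fun h1 h2 h3 h4 => (D.uniq h1 h2 h3 h4).imp Subtype.ext Subtype.ext
  have j : ∀ p q : {p // A p}, p ≠ q → ∃ l : {l // B l}, p ∈ l ∧ q ∈ l := fun p q h =>
    (D.join' p q).elim fun l h' => ⟨⟨l, hj _ _ l (Subtype.val_injective.ne h) p.2 q.2 h'.1 h'.2⟩, h'⟩
  have m : ∀ l m : {l // B l}, l ≠ m → ∃ p : {p // A p}, p ∈ l ∧ p ∈ m := fun l m h =>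
    (D.meet' l m).elim fun p h' => ⟨⟨p, hm p _ _ (Subtype.val_injective.ne h) l.2 m.2 h'.1 h'.2⟩, h'⟩
  have c : ∃ (p₁ p₂ p₃ : {p // A p}) (l₁ l₂ l₃ : {l // B l}),
      p₁ ∉ l₂ ∧ p₁ ∉ l₃ ∧ p₂ ∉ l₁ ∧ p₂ ∈ l₂ ∧ p₂ ∈ l₃ ∧ p₃ ∉ l₁ ∧ p₃ ∈ l₂ ∧ p₃ ∉ l₃ := by
    obtain ⟨p₁, p₂, p₃, l₁, l₂, l₃, a1, a2, a3, b1, b2, b3, h⟩ := hc
    exact ⟨⟨p₁, a1⟩, ⟨p₂, a2⟩, ⟨p₃, a3⟩, ⟨l₁, b1⟩, ⟨l₂, b2⟩, ⟨l₃, b3⟩, h⟩
  letI : Configuration.ProjectivePlane {p // A p} {l // B l} :=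
    { exists_point := fun l => by
        obtain ⟨p₁, p₂, p₃, l₁, l₂, l₃, h1, h2, h3, h4, h5, h6, h7, h8⟩ := c
        by_contra h
        push Not at h
        exact h1 ((uq (h p₂) (h p₃) h4 h7).resolve_left (fun e => h8 (e ▸ h5)) ▸ h p₁)
      exists_line := fun p => by
        obtain ⟨p₁, p₂, p₃, l₁, l₂, l₃, h1, h2, h3, h4, h5, h6, h7, h8⟩ := c
        by_contra h
        push Not at h
        exact h3 ((uq (h l₂) h4 (h l₃) h5).resolve_right (fun e => h8 (e ▸ h7)) ▸ h l₁)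
      eq_or_eq := uq
      mkPoint := fun h => (m _ _ h).choose
      mkPoint_ax := fun h => (m _ _ h).choose_spec
      mkLine := fun h => (j _ _ h).choose
      mkLine_ax := fun h => (j _ _ h).choose_spec
      exists_config := c }
  exact ⟨Pl.ofPlane _ _, fun _ _ => Iff.rfl⟩

theorem exists_ord {A : P → Prop} {B : L → Prop} (hj : ∀ p q l, p ≠ q → A p → A q → D.I p l → D.I q l → B l)
    (hm : ∀ p l m, l ≠ m → B l → B m → D.I p l → D.I p m → A p) (hc : D.Cfg A B) :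
    ∃ k, {p | A p}.ncard = k ^ 2 + k + 1 ∧ ∀ l, B l → {p | A p ∧ D.I p l}.ncard = k + 1 ∧
      {p | A p ∧ ¬ D.I p l}.ncard = k ^ 2 := by
  obtain ⟨Q, hQ⟩ := D.sub A B hj hm hc
  refine ⟨Q.n, Q.cardA, fun l hl => ⟨?_, ?_⟩⟩
  · rw [← ncard_subtype, ← Q.cardL ⟨l, hl⟩]
    simp only [hQ]
  · rw [← ncard_subtype A fun p => ¬ D.I p l, ← Q.card_off ⟨l, hl⟩]
    simp only [hQ]

theorem exists_ord' {s : G} (hc : D.Cfg (fun x => s • x = x) (fun x => s • x = x)) :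
    ∃ k, {p : P | s • p = p}.ncard = k ^ 2 + k + 1 ∧ ∀ l, s • l = l → {p | s • p = p ∧ D.I p l}.ncard = k + 1 ∧
      {p | s • p = p ∧ ¬ D.I p l}.ncard = k ^ 2 :=
  D.exists_ord (fun _ _ _ h h1 h2 h3 h4 => D.fix_line h h3 h4 h1 h2) (fun _ _ _ h h1 h2 h3 h4 => D.fix_pt h h3 h4 h1 h2) hc

variable (h2 : ∀ a b c d : P, a ≠ b → c ≠ d → ∃ g : G, g • a = c ∧ g • b = d)

/-- The symmetric design of a plane with a doubly transitive group. -/
def sym : Sym G P L where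
  I := D.I
  inv := D.inv
  card := D.cardA.trans D.cardB.symm
  two := h2
  tr l m := by
    obtain ⟨a, ha, -⟩ := D.meet' l l
    obtain ⟨b, hb, hab, -⟩ := D.exists_third l a a
    obtain ⟨c, hc, -⟩ := D.meet' m m
    obtain ⟨d, hd, hcd, -⟩ := D.exists_third m c c
    obtain ⟨g, rfl, rfl⟩ := h2 b a d c hab hcd
    exact ⟨g, D.line_eq hcd ((D.inv _ _ _).2 hb) ((D.inv _ _ _).2 ha) hd hc⟩
  ex := by
    obtain ⟨l⟩ : Nonempty L := (Nat.card_pos_iff.1 (by rw [D.cardB]; omega)).1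
    obtain ⟨a, ha, -⟩ := D.meet' l l
    obtain ⟨b, hb⟩ := D.exists_off l
    exact ⟨a, b, l, ha, hb⟩

include h2

theorem orbit_pt {x y : P} (h : x ≠ y) : {z | ∃ g ∈ stabilizer G x, g • y = z}.ncard = D.n ^ 2 + D.n := by
  haveI := D.finite
  have := Set.ncard_add_ncard_compl {x}
  rw [D.cardA, Set.ncard_singleton] at this
  rw [show {z | ∃ g ∈ stabilizer G x, g • y = z} = {x}ᶜ from Set.ext fun z => ⟨fun ⟨g, hg, e⟩ (e' : z = x) =>
    h (MulAction.injective g (hg.trans (e'.symm.trans e.symm))), fun hz => h2 x y x z h (Ne.symm hz)⟩]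
  omega

theorem card_stab (x : P) : Nat.card G = (D.n ^ 2 + D.n + 1) * Nat.card (stabilizer G x) := by
  haveI : IsPretransitive G P := ⟨(D.sym h2).tr_pt⟩
  rw [card_eq_card_mul_stabilizer x, D.cardA]

variable [Finite G]

include D in
theorem card_two {x y z w : P} (h : x ≠ y) (h' : z ≠ w) :
    Nat.card ↥(stabilizer G x ⊓ stabilizer G y) = Nat.card ↥(stabilizer G z ⊓ stabilizer G w) := by
  have h1 := (D.card_stab h2 x).symm.trans (D.card_stab h2 z)
  rw [card_orbit_mul _ y, card_orbit_mul (stabilizer G z) w, D.orbit_pt h2 h, D.orbit_pt h2 h'] at h1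
  have := D.two
  exact Nat.eq_of_mul_eq_mul_left (by positivity) (Nat.eq_of_mul_eq_mul_left (by positivity) h1)

theorem orbit_line {x z : P} {l : L} (h1 : D.I x l) (h3 : ¬ D.I z l) :
    {m | ∃ g ∈ stabilizer G z ⊓ stabilizer G x, g • l = m} = {m | D.I x m ∧ ¬ D.I z m} ∧
      {m | D.I x m ∧ ¬ D.I z m}.ncard = D.n := by
  haveI := D.finite
  haveI := D.dual.finite
  have hzx : z ≠ x := fun e => h3 (e ▸ h1)
  obtain ⟨M, h4, h5⟩ := D.join' x z
  have c1 : {m | D.I x m ∧ ¬ D.I z m}.ncard = D.n := by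
    rw [← show {m | D.I x m ∧ m ≠ M}.ncard = D.n from D.dual.card_diff h4]
    congr 1
    ext m
    exact and_congr_right fun hm => not_congr ⟨fun h => D.line_eq hzx h hm h5 h4, fun e => e ▸ h5⟩
  have s1 : {m | ∃ g ∈ stabilizer G z ⊓ stabilizer G x, g • l = m} ⊆ {m | D.I x m ∧ ¬ D.I z m} := by
    rintro _ ⟨g, ⟨g1, g2⟩, rfl⟩
    exact ⟨D.smul_mem' h1 g2, D.dual.smul_not_mem h3 g1⟩
  refine ⟨Set.eq_of_subset_of_ncard_le s1 ?_, c1⟩
  have e1 := card_orbit_mul (stabilizer G z) x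
  have e2 := card_orbit_mul (stabilizer G z) l
  have e3 := card_orbit_mul (stabilizer G z ⊓ stabilizer G x) l
  have e4 := card_orbit_mul (stabilizer G z ⊓ stabilizer G l) x
  rw [D.orbit_pt h2 hzx, e3] at e1
  rw [show {m | ∃ g ∈ stabilizer G z, g • l = m} = {m | ¬ D.I z m} from Set.ext fun m => ⟨fun ⟨g, hg, e⟩ =>
    e ▸ D.dual.smul_not_mem h3 hg, fun hm => (D.sym h2).tr_pair (iff_of_false h3 hm)⟩,
    show {m | ¬ D.I z m}.ncard = D.n ^ 2 from D.dual.card_off z, e4, inf_right_comm, e1, ← mul_assoc, ← mul_assoc] at e2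
  have e5 := Nat.eq_of_mul_eq_mul_right Nat.card_pos e2
  have e6 : 0 < {m | ∃ g ∈ stabilizer G z ⊓ stabilizer G x, g • l = m}.ncard :=
    (Set.ncard_pos (Set.toFinite _)).2 ⟨l, 1, one_mem _, one_smul _ _⟩
  rw [c1]
  refine Nat.le_of_dvd e6 ((show D.n.Coprime (D.n + 1) by simp).dvd_of_dvd_mul_left ⟨Set.ncard
    {y | ∃ h ∈ stabilizer G z ⊓ stabilizer G l, h • x = y}, Nat.eq_of_mul_eq_mul_left (zero_lt_two.trans_le D.two) ?_⟩)
  rw [← mul_assoc, ← mul_assoc, ← sq, ← e5]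
  ring

end Pl

end Cfsg.Lib.Perm
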