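import Mathlib

/-!
Two primes at distance at least three in the interval `(m/2, m]`.
-/

set_option autoImplicit false

namespace Cfsg.Lib.Perm

open Nat

theorem centralBinom_le_of_few (n a : ℕ) (n_large : 2 < n)
    (few : ∀ p : ℕ, p.Prime → n < p → p ≤ 2 * n → a ≤ p ∧ p < a + 3) :
    centralBinom n ≤ (2 * n) ^ sqrt (2 * n) * 4 ^ (2 * n / 3) * (2 * n) ^ 3 := by
  classical
  have n_pos : 0 < n := (Nat.zero_le _).trans_lt n_large
  have n2_pos : 1 ≤ 2 * n := mul_pos (zero_lt_two' ℕ) n_pos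
  let f x := x ^ n.centralBinom.factorization x
  have hf : ∀ p, f p ≤ 2 * n := fun p => pow_factorization_choose_le (mul_pos two_pos n_pos)
  let S := {p ∈ Finset.range (2 * n / 3 + 1) | Nat.Prime p}
  have h1 : centralBinom n ≤ (∏ x ∈ S, f x) * ∏ x ∈ Finset.Ico a (a + 3) \ S, f x := by
    rw [← Finset.prod_union Finset.disjoint_sdiff, ← n.prod_pow_factorization_centralBinom]
    have : ∏ x ∈ Finset.range (2 * n + 1), f x =
        ∏ x ∈ Finset.range (2 * n + 1) ∩ (S ∪ Finset.Ico a (a + 3) \ S), f x := by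
      refine (Finset.prod_subset Finset.inter_subset_left fun x hx h2x => ?_).symm
      by_cases hp : x.Prime
      swap
      · dsimp only [f]
        rw [factorization_eq_zero_of_not_prime n.centralBinom hp, Nat.pow_zero]
      simp only [S, Finset.mem_inter, hx, true_and, Finset.union_sdiff_self_eq_union,
        Finset.mem_union, Finset.mem_filter, Finset.mem_range, hp, and_true, Finset.mem_Ico,
        not_or] at h2x
      rw [Finset.mem_range] at hx
      have h3 : x ≤ n := by
        by_contra h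
        exact h2x.2 (few x hp (by omega) (by omega))
      dsimp only [f]
      rw [factorization_centralBinom_of_two_mul_self_lt_three_mul n_large h3 (by omega),
        Nat.pow_zero]
    refine this.le.trans (Finset.prod_le_prod_of_subset_of_one_le' Finset.inter_subset_right
      fun p _ _ => ?_)
    rcases Nat.eq_zero_or_pos p with rfl | h
    · simp [f]
    · exact Nat.one_le_pow _ _ h
  refine h1.trans (mul_le_mul' ?_ ?_)
  · rw [← Finset.prod_filter_mul_prod_filter_not S (· ≤ sqrt (2 * n))]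
    apply mul_le_mul'
    · refine (Finset.prod_le_prod' fun p _ => hf p).trans ?_
      have : (Finset.Icc 1 (sqrt (2 * n))).card = sqrt (2 * n) := by
        rw [card_Icc, Nat.add_sub_cancel]
      rw [Finset.prod_const]
      refine pow_right_mono₀ n2_pos ((Finset.card_le_card fun x hx => ?_).trans this.le)
      obtain ⟨h1, h2⟩ := Finset.mem_filter.1 hx
      exact Finset.mem_Icc.mpr ⟨(Finset.mem_filter.1 h1).2.one_lt.le, h2⟩
    · refine le_trans ?_ (primorial_le_four_pow (2 * n / 3))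
      refine (Finset.prod_le_prod' fun p hp => (?_ : f p ≤ p)).trans ?_
      · obtain ⟨h1, h2⟩ := Finset.mem_filter.1 hp
        refine (pow_right_mono₀ (Finset.mem_filter.1 h1).2.one_lt.le ?_).trans (pow_one p).le
        exact Nat.factorization_choose_le_one (sqrt_lt'.mp <| not_le.1 h2)
      refine Finset.prod_le_prod_of_subset_of_one_le' (Finset.filter_subset _ _) ?_
      exact fun p hp _ => (Finset.mem_filter.1 hp).2.one_lt.le
  · refine (Finset.prod_le_prod' fun p _ => hf p).trans ?_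
    rw [Finset.prod_const]
    refine pow_right_mono₀ n2_pos ((Finset.card_le_card Finset.sdiff_subset).trans ?_)
    simp

theorem main_ineq {n : ℕ} (hn : 1152 ≤ n) :
    n * ((2 * n) ^ sqrt (2 * n) * 4 ^ (2 * n / 3) * (2 * n) ^ 3) ≤ 4 ^ n := by
  set s := sqrt (2 * n) with hs
  have h1 : 2 * n < (s + 1) * (s + 1) := lt_succ_sqrt _
  have h2 : s * s ≤ 2 * n := sqrt_le _
  have h48 : 48 ≤ s := le_sqrt.2 (by omega)
  have h3 : ∀ t, 6 ≤ t → 8 * (t + 1) ≤ 2 ^ t := fun t ht => by
    induction t, ht using Nat.le_induction with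
    | base => norm_num
    | succ t _ ih => rw [pow_succ]; omega
  have h4 : s + 1 ≤ 2 ^ (s / 8) := le_trans (by omega) (h3 (s / 8) (by omega))
  have h5 : 2 * n ≤ 4 ^ (s / 8) := by
    rw [show (4 : ℕ) = 2 * 2 by norm_num, mul_pow]
    exact h1.le.trans (Nat.mul_le_mul h4 h4)
  have h6 : s / 8 * (s + 4) + 2 * n / 3 ≤ n := by
    have : 8 * (s / 8) ≤ s := Nat.mul_div_le s 8
    have h7 : 3 * (2 * n / 3) ≤ 2 * n := Nat.mul_div_le _ 3
    nlinarith
  calc n * ((2 * n) ^ s * 4 ^ (2 * n / 3) * (2 * n) ^ 3)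
      ≤ (2 * n) * ((2 * n) ^ s * 4 ^ (2 * n / 3) * (2 * n) ^ 3) :=
        Nat.mul_le_mul_right _ (by omega)
    _ = (2 * n) ^ (s + 4) * 4 ^ (2 * n / 3) := by ring
    _ ≤ (4 ^ (s / 8)) ^ (s + 4) * 4 ^ (2 * n / 3) :=
        Nat.mul_le_mul_right _ (Nat.pow_le_pow_left h5 _)
    _ = 4 ^ (s / 8 * (s + 4) + 2 * n / 3) := by rw [← pow_mul, ← pow_add]
    _ ≤ 4 ^ n := Nat.pow_le_pow_right (by norm_num) h6

theorem exists_two_primes_large {n : ℕ} (hn : 1152 ≤ n) :
    ∃ p q : ℕ, p.Prime ∧ q.Prime ∧ n < p ∧ p + 3 ≤ q ∧ q ≤ 2 * n := by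
  classical
  by_contra h
  push Not at h
  have hex : ∃ p, p.Prime ∧ n < p := by
    obtain ⟨p, h1, h2⟩ := Nat.exists_infinite_primes (n + 1)
    exact ⟨p, h2, h1⟩
  have := centralBinom_le_of_few n (Nat.find hex) (by omega) fun p hp h1 h2 =>
    ⟨Nat.find_min' hex ⟨hp, h1⟩, by
      by_contra h3
      exact absurd (h _ p (Nat.find_spec hex).1 hp (Nat.find_spec hex).2 (not_lt.1 h3))
        (not_lt.2 h2)⟩
  have h2 := Nat.four_pow_lt_mul_centralBinom n (by omega)
  exact absurd ((Nat.mul_le_mul_left n this).trans (main_ineq hn)) (not_le.2 h2)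

theorem exists_two_primes {m : ℕ} (hm : 17 ≤ m) :
    ∃ p q : ℕ, p.Prime ∧ q.Prime ∧ m < 2 * p ∧ p + 3 ≤ q ∧ q ≤ m := by
  by_cases h : 2304 ≤ m
  · obtain ⟨p, q, hp, hq, h1, h2, h3⟩ := exists_two_primes_large (n := m / 2) (by omega)
    exact ⟨p, q, hp, hq, by omega, h2, by omega⟩
  by_cases h : 1361 ≤ m
  · exact ⟨1327, 1361, by norm_num, by norm_num, by omega, by omega, h⟩
  by_cases h : 691 ≤ m
  · exact ⟨683, 691, by norm_num, by norm_num, by omega, by omega, h⟩
  by_cases h : 353 ≤ m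
  · exact ⟨349, 353, by norm_num, by norm_num, by omega, by omega, h⟩
  by_cases h : 191 ≤ m
  · exact ⟨181, 191, by norm_num, by norm_num, by omega, by omega, h⟩
  by_cases h : 101 ≤ m
  · exact ⟨97, 101, by norm_num, by norm_num, by omega, by omega, h⟩
  by_cases h : 59 ≤ m
  · exact ⟨53, 59, by norm_num, by norm_num, by omega, by omega, h⟩
  by_cases h : 37 ≤ m
  · exact ⟨31, 37, by norm_num, by norm_num, by omega, by omega, h⟩
  by_cases h : 23 ≤ m
  · exact ⟨19, 23, by norm_num, by norm_num, by omega, by omega, h⟩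
  exact ⟨13, 17, by norm_num, by norm_num, by omega, by omega, hm⟩

end Cfsg.Lib.Perm
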